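import Cfsg.Agent.H42.PcDefs

/-! Project PC: an element fixing one lift modulo the squares centralises `T` modulo the squares. -/

set_option autoImplicit false

namespace Cfsg.Agent.H60.PcCv1

open Cfsg.Agent.H42.Pc

universe u

theorem aux {Q : Type u} [Group Q] {z w t g v : Q} (h1 : z * w = g * z * g⁻¹)
    (h2 : z = t * z * t⁻¹) (h3 : z = v * z * v⁻¹) (h4 : v = t⁻¹ * (g⁻¹ * t * g⁻¹⁻¹)) :
    w = t * w * t⁻¹ := by
  refine mul_left_cancel (a := z) ?_
  calc z * w = g * (t * (v * z * v⁻¹) * t⁻¹) * g⁻¹ := by rw [← h3, ← h2, h1]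
    _ = t * (g * z * g⁻¹) * t⁻¹ := by rw [h4]; group
    _ = (t * z * t⁻¹) * (t * w * t⁻¹) := by rw [← h1]; group
    _ = _ := by rw [← h2]

theorem cv1 (ab : AbStmt.{u}) (trans : TransStmt.{u}) : Cv1Stmt.{u} := by
  intro G _ _ T U P t z c ht zU zT hz h w hw
  obtain ⟨hn, -, hab⟩ := ab G T U c
  obtain ⟨g, hg, e⟩ := trans G T U P z c zU zT hz w hw
  have h3 := hab z zU _ (ht g⁻¹ (inv_mem hg))
  rw [← QuotientGroup.eq] at h e h3 ⊢
  simp only [QuotientGroup.mk_mul, QuotientGroup.mk_inv] at h e h3 ⊢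
  exact aux e h h3 rfl

end Cfsg.Agent.H60.PcCv1
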