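import Cfsg.Agent.H53.DgDefs

/-!
Vanishing of cuspidal sums by Eichler transformations.
-/

set_option autoImplicit false

namespace Cfsg.Agent.H60.DgVan

open Module Cfsg.Agent.H26 Cfsg.Agent.H78 Cfsg.Agent.H53.Dg Cfsg.Agent.H26.PForm

variable {F V : Type} [Field F] [AddCommGroup V] [Module F V] {P : PForm F V}
  {X Y Z : Submodule F V}

theorem top_mul (hX : TS P X) {g k : V ≃ₗ[F] V} (hg : Top P X g) (hk : Top P X k) :
    Top P X (g * k) := fun v hv => by
  have h1 : k v ∈ P.perp X := by simpa using (P.perp X).add_mem (hX.2 (hk v hv)) hv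
  have := X.add_mem (hg _ h1) (hk v hv)
  rwa [sub_add_sub_cancel] at this

theorem rad_mul (hX : TS P X) {g k : V ≃ₗ[F] V} (hg : Rad P X g) (hk : Rad P X k) :
    Rad P X (g * k) :=
  ⟨fun x hx => by rw [mul_apply', hk.1 x hx, hg.1 x hx], top_mul hX hg.2 hk.2⟩

variable [FiniteDimensional F V]

theorem lift1 (hX : TS P X) (hY : TS P Y) (hZ : Z = X ⊓ Y ∨ Z = X ⊓ P.perp Y) {z : V} (hz : z ∈ Z)
    (φ : X →ₗ[F] F) (hφ : ∀ x : X, (x : V) ∈ Z → φ x = 0) :
    ∃ g ∈ P.E, Rad P Y g ∧ Top P X g ∧ ∀ x : X, g x = x + φ x • z := by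
  have hZX : Z ≤ X := by rcases hZ with rfl | rfl <;> exact inf_le_left
  obtain ⟨φ₀, h0⟩ := LinearMap.exists_extend ((-P.ε) • φ)
  obtain ⟨a₀, ha₀⟩ := P.exists_rep φ₀
  have h1 : ∀ x : X, P.f x a₀ = -P.ε * φ x := fun x => (ha₀ x).trans (LinearMap.congr_fun h0 x)
  have h2 : a₀ ∈ P.perp Z := mem_perp'.2 fun w hw => by
    rw [show P.f w a₀ = _ from h1 ⟨w, hZX hw⟩, hφ _ hw, mul_zero]
  have key : ∀ (W : Submodule F V), Z = X ⊓ W → ∃ a ∈ P.perp W, P.f a z = 0 ∧ ∀ ν,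
      (∀ v ∈ P.perp X, P.eich z a ν v - v ∈ X) ∧ ∀ x : X, P.eich z a ν x = x + φ x • z :=
    fun W e => by
      rw [e, perp_inf] at h2
      obtain ⟨b, hb, a, ha, rfl⟩ := Submodule.mem_sup.1 h2
      refine ⟨a, ha, ha z (e.le hz).2, fun ν => ⟨fun v hv => ?_, fun x => ?_⟩⟩
      · rw [P.eich_apply_of_orth ν (hv z (hZX hz)), sub_sub_cancel_left]
        exact X.neg_mem (X.smul_mem _ (hZX hz))
      · have := h1 x
        rw [f_add_right, f_of_mem_perp' hb x.2, zero_add] at this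
        rw [P.eich_apply_of_orth ν (hX.2 x.2 z (hZX hz)), this, neg_mul, mul_neg, ε_mul_ε_mul,
          neg_smul, sub_neg_eq_add]
  have hs := hX.1 z (hZX hz)
  rcases hZ with e | e
  · obtain ⟨a, ha, h3, h4⟩ := key Y e
    have zY := (e.le hz).2
    refine ⟨_, (EV.of_h hs h3).equiv_mem_E, ⟨fun y hy => P.eich_apply_of_orth₂ _ (hY.2 hy z zY)
      (f_of_mem_perp' ha hy), fun v hv => ?_⟩, (h4 _).1, (h4 _).2⟩
    rw [EV.equiv_apply, P.eich_apply_of_orth _ (hv z zY), sub_sub_cancel_left]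
    exact Y.neg_mem (Y.smul_mem _ zY)
  · obtain ⟨a, ha, h3, h4⟩ := key _ e
    rw [perp_perp] at ha
    refine ⟨_, (EV.of_sing hs (hY.1 a ha) h3).equiv_mem_E, ⟨fun y hy => P.eich_apply_of_orth₂ _
      (f_of_mem_perp' (e.le hz).2 hy) (hY.2 hy a ha), fun v hv => ?_⟩, (h4 _).1, (h4 _).2⟩
    rw [EV.equiv_apply, eich_apply, hv a ha]
    simpa using Y.smul_mem _ ha

theorem lift (hX : TS P X) (hY : TS P Y) (hZ : Z = X ⊓ Y ∨ Z = X ⊓ P.perp Y) {u : X ≃ₗ[F] X}
    (hu : u ∈ UZ (Z.comap X.subtype)) :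
    ∃ g ∈ P.E, Rad P Y g ∧ Top P X g ∧ ∀ x : X, g x = u x := by
  classical
  have hZX : Z ≤ X := by rcases hZ with rfl | rfl <;> exact inf_le_left
  let n : X →ₗ[F] Z := (X.subtype ∘ₗ ((u : X →ₗ[F] X) - LinearMap.id)).codRestrict Z
    fun x => Submodule.mem_comap.1 (hu.2 x)
  have hn : ∀ x, (n x : V) = u x - x := fun _ => rfl
  let b := Module.finBasis F Z
  have h0 : ∀ i, ∀ x : X, (x : V) ∈ Z → b.coord i (n x) = 0 := fun i x hx => by
    rw [show n x = 0 from Subtype.ext (by rw [hn, hu.1 x hx, sub_self]; rfl), map_zero]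
  have key : ∀ s : Finset (Fin (finrank F Z)), ∃ g ∈ P.E, Rad P Y g ∧ Top P X g ∧
      ∀ x : X, g x = x + ∑ i ∈ s, b.coord i (n x) • (b i : V) := fun s => by
    induction s using Finset.induction_on with
    | empty => exact ⟨1, one_mem _, ⟨fun _ _ => rfl, fun v _ => by simp⟩, fun v _ => by simp,
        fun x => by simp⟩
    | insert i s hi ih =>
      obtain ⟨g, h1, h2, h3, h4⟩ := ih
      obtain ⟨k, k1, k2, k3, k4⟩ := lift1 hX hY hZ (b i).2 (b.coord i ∘ₗ n) (h0 i)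
      refine ⟨g * k, mul_mem h1 k1, rad_mul hY h2 k2, top_mul hX h3 k3, fun x => ?_⟩
      have : g (b i) = b i := by
        rw [show g (b i) = _ from h4 ⟨_, hZX (b i).2⟩,
          Finset.sum_eq_zero fun j _ => by rw [h0 j _ (b i).2, zero_smul], add_zero]
      rw [mul_apply', k4, map_add, map_smul, this, h4, Finset.sum_insert hi, LinearMap.comp_apply]
      abel
  obtain ⟨g, h1, h2, h3, h4⟩ := key Finset.univ
  refine ⟨g, h1, h2, h3, fun x => ?_⟩
  have := congrArg Subtype.val (b.sum_repr (n x))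
  rw [hn, Submodule.coe_sum] at this
  rw [h4, ← eq_sub_iff_add_eq', ← this]
  rfl

omit [FiniteDimensional F V] in
theorem van : VanStmt := by
  intro F V _ _ _ _ _ P X Y Z ψ H Φ _ hX hY hZ h1 h2 hψ hH hE hΦ
  classical
  have hZX : Z ≤ X := by rcases hZ with rfl | rfl <;> exact inf_le_left
  have := Fintype.ofFinite H
  have := Fintype.ofFinite (UZ (Z.comap X.subtype))
  have hc := hψ (Z.comap X.subtype) (fun e => h1 (by
    rw [← inf_eq_right.2 hZX, ← Submodule.map_comap_subtype, e, Submodule.map_bot]))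
    (fun e => h2 (le_antisymm hZX (Submodule.comap_subtype_eq_top.1 e)))
  simp only [finsum_eq_sum_of_fintype] at hc ⊢
  have key : ∀ u : UZ (Z.comap X.subtype), ∑ h : H, ψ (rs X h) * Φ h =
      ∑ h : H, ψ (rs X h * u) * Φ h := fun u => by
    obtain ⟨g, g1, g2, g3, g4⟩ := lift hX hY hZ u.2
    have gH := hE g g1 g2 g3
    rw [← Equiv.sum_comp (Equiv.mulRight (⟨g, gH⟩ : H))]
    refine Finset.sum_congr rfl fun h _ => ?_
    change ψ (rs X (h * g)) * Φ (h * g) = _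
    rw [hΦ h h.2 g g1 g2 g3, rs_mul (hH h.2) (hH gH),
      show rs X g = u from LinearEquiv.ext fun x => Subtype.ext ((rs_apply (hH gH) x).trans (g4 x))]
  have := Finset.sum_congr rfl fun u (_ : u ∈ Finset.univ) => key u
  rw [Finset.sum_const, Finset.sum_comm, Finset.card_univ, nsmul_eq_mul,
    eq_comm, Finset.sum_eq_zero fun h _ => by rw [← Finset.sum_mul, hc, zero_mul]] at this
  exact (mul_eq_zero.1 this.symm).resolve_left (Nat.cast_ne_zero.2 Fintype.card_ne_zero)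

end Cfsg.Agent.H60.DgVan
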