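import Cfsg.Agent.H53.UwDefs

/-! # The centralizer of a lifted Singer cycle -/

set_option autoImplicit false
set_option linter.unusedSectionVars false

namespace Cfsg.Agent.H53.Uw.H60Tor

open Module Polynomial Cfsg.Agent.H31

universe u

theorem aeval_int {E M N : Type*} [Field E] [AddCommGroup M] [Module E M] [AddCommGroup N]
    [Module E N] {f : M →ₗ[E] M} {f' : N →ₗ[E] N} (ι : M →ₗ[E] N) (h : ∀ x, f' (ι x) = ι (f x))
    (p : E[X]) (x : M) : aeval f' p (ι x) = ι (aeval f p x) := by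
  induction p using Polynomial.induction_on generalizing x with
  | C a => simp [Module.algebraMap_end_apply]
  | add p q hp hq => simp [hp, hq]
  | monomial n a hn =>
    rw [pow_succ, ← mul_assoc, map_mul, map_mul (aeval f), aeval_X, aeval_X, Module.End.mul_apply,
      Module.End.mul_apply, h, hn]

variable {E V : Type u} [Field E] [AddCommGroup V] [Module E V] {σ : E →+* E}
  {B : V →ₛₗ[σ] V →ₗ[E] E}

theorem adj (h : IsHermSymm B) {g : V ≃ₗ[E] V} (hg : g ∈ isom B) (p : E[X]) (x v : V) :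
    B x (aeval (g : V →ₗ[E] V) p v) =
      B (aeval ((g⁻¹ : V ≃ₗ[E] V) : V →ₗ[E] V) (p.map σ) x) v := by
  induction p using Polynomial.induction_on generalizing x v with
  | C a => simp [Module.algebraMap_end_apply, h.inv.invol]
  | add p q hp hq => simp [hp, hq]
  | monomial n a hn =>
    rw [pow_succ, ← mul_assoc, map_mul, aeval_X, Module.End.mul_apply, hn, Polynomial.map_mul σ (q := X),
      map_X, mul_comm _ X, map_mul, aeval_X, Module.End.mul_apply]
    exact isom_adj' hg _ _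

variable [FiniteDimensional E V] (h : IsHerm B) {u : V} {X : Submodule E V} (fl : Fl B u X)
include h fl

theorem u_perp : u ∈ perp B X := fun x hx => h.flip_zero (fl.orth x hx)

omit h in
theorem u_not : u ∉ X := fun hu => fl.an (fl.orth u hu)

theorem perp_eq : perp B X = X ⊔ E ∙ u := by
  refine (Submodule.eq_of_le_of_finrank_eq (sup_le (totIso_iff_le_perp.1 fl.ti)
    ((Submodule.span_singleton_le_iff_mem _ _).2 (u_perp h fl))) ?_).symm
  have := h.finrank_add_finrank_perp X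
  have := fl.dim
  rw [Submodule.finrank_sup_span_singleton (u_not fl)]
  omega

theorem dec {v : V} (hv : v ∈ perp B X) : ∃ x ∈ X, ∃ c : E, v = x + c • u := by
  rw [perp_eq h fl] at hv
  obtain ⟨x, hx, y, hy, rfl⟩ := Submodule.mem_sup.1 hv
  obtain ⟨c, rfl⟩ := Submodule.mem_span_singleton.1 hy
  exact ⟨x, hx, c, rfl⟩

theorem lift (C : X ≃ₗ[E] X) : ∃ g : isom B, g.1 u = u ∧ ∀ x : X, g.1 x = C x := by
  obtain ⟨g, hg, e⟩ := h.witt (X.subtype ∘ₗ (C : X →ₗ[E] X))
    (X.injective_subtype.comp C.injective) fun x y =>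
      (fl.ti _ (C x).2 _ (C y).2).trans (fl.ti _ x.2 _ y.2).symm
  have p : ∀ k ∈ X, B k (g u) = 0 := fun k hk => by
    have := e (C.symm ⟨k, hk⟩)
    simp only [LinearMap.comp_apply, LinearEquiv.coe_coe, LinearEquiv.apply_symm_apply,
      Submodule.subtype_apply] at this
    rw [← this, hg]
    exact u_perp h fl _ (C.symm ⟨k, hk⟩).2
  obtain ⟨k, hk, e1, e2⟩ := h.witt_step (H := X) (x := g u) (y := u)
    (fun hu => fl.an ((hg u u).symm.trans (p _ hu))) (u_not fl)
    (fun k hk => (p k hk).trans (u_perp h fl k hk).symm) (hg u u)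
  exact ⟨⟨k * g, mul_mem hk hg⟩, e2, fun x => (congrArg k (e x)).trans (e1 _ (C x).2)⟩

variable {C : X ≃ₗ[E] X} {g : isom B} (gu : g.1 u = u) (gx : ∀ x : X, g.1 x = C x) {p : E[X]}
  (p0 : aeval (C : X →ₗ[E] X) p = 0) (p1 : p.eval 1 ≠ 0)
  (p2 : Function.Injective (aeval ((C⁻¹ : X ≃ₗ[E] X) : X →ₗ[E] X) (p.map σ)))
include gx

omit h fl in
theorem gx' (x : X) : g.1⁻¹ x = C⁻¹ x := by
  conv_lhs => rw [← apply_inv_apply C x, ← gx]
  exact inv_apply_apply _ _

omit fl in
theorem adj' (x : X) (v : V) : B x (aeval (g.1 : V →ₗ[E] V) p v) =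
    B (aeval ((C⁻¹ : X ≃ₗ[E] X) : X →ₗ[E] X) (p.map σ) x) v := by
  rw [adj h.toIsHermSymm g.2]
  exact congrArg (fun y => B y v) (aeval_int X.subtype (gx' gx) _ x)

omit h fl in
include p0 in
theorem kill {x : V} (hx : x ∈ X) : aeval (g.1 : V →ₗ[E] V) p x = 0 := by
  have := aeval_int (f := (C : X →ₗ[E] X)) (f' := (g.1 : V →ₗ[E] V)) X.subtype gx p ⟨x, hx⟩
  rwa [p0, LinearMap.zero_apply, map_zero] at this

include gu p0 p1

include p2 in
theorem mem_of_kill {v : V} (hv : aeval (g.1 : V →ₗ[E] V) p v = 0) : v ∈ X := by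
  obtain ⟨x, hx, c, rfl⟩ := dec h fl (v := v) fun x hx => by
    obtain ⟨y, e⟩ := LinearMap.surjective_of_injective p2 ⟨x, hx⟩
    have := adj' h gx (p := p) y v
    rwa [hv, map_zero, e, eq_comm] at this
  rw [map_add, kill gx p0 hx, zero_add, map_smul,
    Module.End.aeval_apply_of_mem_apply_eq_smul (μ := 1) (by rw [one_smul]; exact gu), smul_smul,
    smul_eq_zero, or_iff_left (by rintro rfl; exact u_not fl X.zero_mem), mul_eq_zero,
    or_iff_left p1] at hv
  rwa [hv, zero_smul, add_zero]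

theorem fix_g {v : V} (hv : g.1 v = v) : ∃ c : E, v = c • u := by
  have k : ∀ x ∈ X, g.1 x = x → x = 0 := fun x hx e => by
    have := kill gx p0 hx
    rwa [Module.End.aeval_apply_of_mem_apply_eq_smul (μ := 1) (by rw [one_smul]; exact e),
      smul_eq_zero, or_iff_right p1] at this
  obtain ⟨x, hx, c, rfl⟩ := dec h fl (v := v) fun x hx => by
    obtain ⟨y, e⟩ := LinearMap.surjective_of_injective
      (f := ((C⁻¹ : X ≃ₗ[E] X) : X →ₗ[E] X) - LinearMap.id) (by
        rw [injective_iff_map_eq_zero]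
        intro y hy
        have e : g.1⁻¹ y = y := by
          rw [gx' gx]; exact congrArg Subtype.val (sub_eq_zero.1 hy)
        exact Subtype.ext (k _ y.2 (by conv_lhs => rw [← e, apply_inv_apply]))) ⟨x, hx⟩
    have e' : g.1⁻¹ y - y = x := by rw [gx' gx]; exact congrArg Subtype.val e
    rw [← e', sub_left, ← isom_adj' g.2, hv, sub_self]
  rw [map_add, map_smul, gu, add_left_inj] at hv
  exact ⟨c, by rw [k x hx hv, zero_add]⟩

omit gu p1 in
include p2 in
theorem eq_one {k : isom B} (hk : k * g = g * k) (k1 : ∀ x ∈ X, k.1 x = x) (k2 : k.1 u = u) :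
    k = 1 := isom_ext fun v => by
  have c : ∀ y, g.1 (k.1 y) = k.1 (g.1 y) := fun y => by rw [← mul_ap, ← hk, mul_ap]
  have m : k ∈ CX B X := mem_CX.2 fun y hy => by
    obtain ⟨x, hx, c, rfl⟩ := dec h fl hy
    rw [map_add, map_smul, k1 x hx, k2]
  have f : ∀ y, k.1 (aeval (g.1 : V →ₗ[E] V) p y) = aeval (g.1 : V →ₗ[E] V) p y := fun y => by
    have := kill gx p0 (sub_mem_of_CX h m y)
    rw [map_sub, sub_eq_zero] at this
    exact (aeval_int (k.1 : V →ₗ[E] V) c p y).symm.trans this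
  have z : aeval ((C⁻¹ : X ≃ₗ[E] X) : X →ₗ[E] X) (p.map σ) ⟨_, sub_mem_of_CX h m v⟩ = 0 :=
    Subtype.ext (h.nondeg _ fun y => by
      rw [← adj' h gx, sub_left, ← f, mem_isom.1 k.2, f, sub_self])
  exact sub_eq_zero.1 (congrArg Subtype.val ((injective_iff_map_eq_zero _).1 p2 _ z))

omit h fl gx gu p0 p1

/-- **TOR** -/
theorem tor : TorStmt.{u} := by
  intro E V _ _ _ _ _ σ B q st u X C fl ⟨_, p, p0, p1, p2⟩
  have h := st.herm
  obtain ⟨g, gu, gx⟩ := lift h fl C
  refine ⟨g, gu, gx, fun k hk => ?_⟩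
  have c : ∀ y, g.1 (k.1 y) = k.1 (g.1 y) := fun y => by rw [← mul_ap, ← hk, mul_ap]
  have kX : ∀ x ∈ X, (k.1 : V →ₗ[E] V) x ∈ X := fun x hx => mem_of_kill h fl gu gx p0 p1 p2 (by
    rw [aeval_int (k.1 : V →ₗ[E] V) c p x, kill gx p0 hx, map_zero])
  obtain ⟨b, hb⟩ := fix_g h fl gu gx p0 p1 (v := k.1 u) (by rw [c, gu])
  refine ⟨⟨LinearEquiv.ofInjectiveEndo ((k.1 : V →ₗ[E] V).restrict kX)
    fun x y e => Subtype.ext (k.1.injective (congrArg Subtype.val e)),
      LinearEquiv.ext fun x => Subtype.ext ?_, fun _ => rfl⟩, ⟨b, hb⟩, fun a ha kx => ?_⟩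
  · change k.1 (C x) = C ⟨k.1 x, kX _ x.2⟩
    rw [← gx, ← gx, c]
  have a0 : a ≠ 0 := by rintro rfl; simp at ha
  have hb' : b * σ b = 1 := by
    have := mem_isom.1 k.2 u u
    rw [hb, smul_left, smul_right, ← mul_assoc, mul_comm (σ b)] at this
    exact mul_left_eq_self₀.1 this |>.resolve_right fl.an
  obtain ⟨r, hr, r1, r2, r3⟩ := h.exists_quasiRefl fl.an (a := σ a * b) (by
    rw [map_mul, h.inv.invol]; linear_combination (b * σ b) * ha + hb')
  let s : isom B := ⟨LinearEquiv.smulOfNeZero E V a a0, fun x y => by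
    change B (a • x) (a • y) = _
    rw [smul_left, smul_right, ← mul_assoc, mul_comm (σ a), ha, one_mul]⟩
  have s1 : ∀ x, s.1 x = a • x := fun _ => rfl
  have c1 : Commute (⟨r, hr⟩ : isom B) g := isom_ext fun y => by
    change r (g.1 y) = g.1 (r y)
    have := mem_isom.1 g.2 u y
    rw [gu] at this
    rw [r1, r1, map_add, map_smul, gu, this]
  have c2 : Commute s g := Zc_comm ⟨a, s1⟩ g
  refine ⟨s, ⟨a, s1⟩, ⟨r, hr⟩, mem_CX_span.2 r3, s1, ?_⟩
  have iv : ∀ y z, (s * ⟨r, hr⟩).1 y = k.1 z → z = y → ((s * ⟨r, hr⟩)⁻¹ * k).1 z = z := by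
    rintro y z e rfl
    rw [mul_ap, ← e]
    exact inv_apply_apply _ _
  exact (inv_mul_eq_one.1 (eq_one h fl gx p0 p2 ((c2.mul_left c1).inv_left.mul_left hk)
    (fun x hx => iv x x (by
      rw [mul_ap, s1, kx x hx]; exact congrArg _ (r3 x (fl.orth x hx))) rfl)
    (iv u u (by
      rw [mul_ap, s1, hb]
      change a • r u = _
      rw [r2, smul_smul, ← mul_assoc, ha, one_mul]) rfl))).symm

end Cfsg.Agent.H53.Uw.H60Tor
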