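import Mathlib
import Cfsg.Agent.H50.E72Defs
import Cfsg.Agent.H47.J2Model

/-!
# The subgroup `5² : S₃` of the Hall-Janko group
-/

set_option autoImplicit false
set_option maxRecDepth 100000

namespace Cfsg.Agent.H60.E72J

open Cfsg.Agent.H50.E72 Cfsg.Agent.H43 Cfsg.Agent.H47 Cfsg.Agent.H47.J2P Multiplicative Equiv

universe u

theorem cfgJ_of {Γ : Type u} [Group Γ] (X Y a t : Γ) (hX : X ^ 5 = 1) (hc : X * Y = Y * X)
    (h1 : a * X = Y * a) (h2 : X * (Y * (a * Y)) = a) (h3 : t * X = Y * t) (h4 : t * Y = X * t)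
    (hne : X ≠ 1) : CfgJ Γ := by
  have e1 : a * X * a⁻¹ = Y := by rw [h1, mul_inv_cancel_right]
  have e3 : t * X * t⁻¹ = Y := by rw [h3, mul_inv_cancel_right]
  have e4 : t * Y * t⁻¹ = X := by rw [h4, mul_inv_cancel_right]
  have hY : Y ^ 5 = 1 := by rw [← e1, conj_pow, hX, mul_one, mul_inv_cancel]
  have hc' : Commute X Y := hc
  have e2 : a * Y * a⁻¹ = X ^ 4 * Y ^ 4 := by
    have h5 : (X * Y) ^ 4 * (X * Y) = 1 := by rw [← pow_succ, hc'.mul_pow, hX, hY, one_mul]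
    rw [← hc'.mul_pow, eq_inv_of_mul_eq_one_left h5]
    refine eq_inv_of_mul_eq_one_right ?_
    rw [← mul_assoc, mul_assoc X, h2, mul_inv_cancel]
  have key : ∀ (Z : Γ), Z ^ 5 = 1 → ∀ i j : ZMod 5, Z ^ (i + j).val = Z ^ i.val * Z ^ j.val :=
    fun Z hZ i j => by rw [ZMod.val_add, ← pow_eq_pow_mod _ hZ, pow_add]
  let x : Multiplicative E5 →* Γ := MonoidHom.mk'
    (fun e => X ^ (toAdd e 0).val * Y ^ (toAdd e 1).val) fun e e' => by
      simp only [toAdd_mul, Pi.add_apply]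
      rw [key X hX, key Y hY]
      exact ((hc'.pow_pow _ _).symm.mul_mul_mul_comm _ _).symm
  have hx : ∀ e : E5, x (ofAdd e) = X ^ (e 0).val * Y ^ (e 1).val := fun _ => rfl
  have x10 : x (ofAdd ![1, 0]) = X := by
    rw [hx]; change X ^ 1 * Y ^ 0 = X; simp
  have x01 : x (ofAdd ![0, 1]) = Y := by
    rw [hx]; change X ^ 0 * Y ^ 1 = Y; simp
  have x44 : x (ofAdd ![4, 4]) = X ^ 4 * Y ^ 4 := rfl
  have ha : ∀ e : E5, a * x (ofAdd e) * a⁻¹ = x (ofAdd ![-e 1, e 0 - e 1]) := fun e => by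
    have : (![-e 1, e 0 - e 1] : E5) = (e 0).val • ![0, 1] + (e 1).val • ![4, 4] := by
      revert e; decide
    rw [this, ofAdd_add, ofAdd_nsmul, ofAdd_nsmul, map_mul, map_pow, map_pow, x01, x44, hx, ← e2,
      ← conj_mul, ← conj_pow, ← conj_pow, e1]
  have ht : ∀ e : E5, t * x (ofAdd e) * t⁻¹ = x (ofAdd ![e 1, e 0]) := fun e => by
    have : (![e 1, e 0] : E5) = (e 0).val • ![0, 1] + (e 1).val • ![1, 0] := by
      revert e; decide
    rw [this, ofAdd_add, ofAdd_nsmul, ofAdd_nsmul, map_mul, map_pow, map_pow, x01, x10, hx,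
      ← conj_mul, ← conj_pow, ← conj_pow, e3, e4]
  refine ⟨x, a, t, (injective_iff_map_eq_one x).2 fun e he => ?_, ha, ht⟩
  by_contra h0
  have h5 : ∀ e : E5, e ≠ 0 → ∃ i j : Fin 5,
      (![1, 0] : E5) = i.val • e + j.val • ![-e 1, e 0 - e 1] := by decide
  obtain ⟨i, j, hij⟩ := h5 (toAdd e) h0
  apply hne
  rw [← x10, hij, ofAdd_add, ofAdd_nsmul, ofAdd_nsmul, map_mul, map_pow, map_pow, ← ha,
    ofAdd_toAdd, he]
  simp

theorem CfgJ.map {Γ Δ : Type u} [Group Γ] [Group Δ] (φ : Γ ≃* Δ) (h : CfgJ Γ) : CfgJ Δ := by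
  obtain ⟨x, a, t, hx, ha, ht⟩ := h
  refine ⟨φ.toMonoidHom.comp x, φ a, φ t, φ.injective.comp hx, fun e => ?_, fun e => ?_⟩
  · simpa using congrArg φ (ha e)
  · simpa using congrArg φ (ht e)

/-- Apply a product of words. -/
noncomputable def ev (ws : List ℕ) : ℕ := ws.foldr (evalW (FK 100 7) h_O) (lab 100 7)

theorem eqns_ev : True := by have := @ev.eq_1; trivial

theorem mov_ev (ws : List ℕ) : Mov 100 7 (ws.map (wordP 100 h_O)).prod (lab 100 7) (ev ws) := by
  induction ws with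
  | nil => exact Mov.refl _ _ _
  | cons w ws ih => exact ih.trans (mov_evalW (rep_FK h_hn.1 7) h_O_ok _ _)

theorem prod_eq {ws ws' : List ℕ} (h : Nat.beq (ev ws) (ev ws') = true) :
    (ws.map (wordP 100 h_O)).prod = (ws'.map (wordP 100 h_O)).prod :=
  (det_lab h_hk ⊤).eq trivial trivial (mov_ev _) (mov_ev _) h

theorem cfg_grp : CfgJ (grp 100 h_O) := by
  refine cfgJ_of ⟨_, wordP_mem 100 h_O 0x70503070503⟩ ⟨_, wordP_mem 100 h_O 0x30705030705⟩
    ⟨_, wordP_mem 100 h_O 0x503⟩ ⟨_, wordP_mem 100 h_O 0x3⟩ (Subtype.ext ?_) (Subtype.ext ?_)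
    (Subtype.ext ?_) (Subtype.ext ?_) (Subtype.ext ?_) (Subtype.ext ?_) fun h => ?_
  · exact wordP_pow_eq_one h_hn (det_lab h_hk ⊤) h_O_ok le_top (by decide +kernel)
  · simpa using prod_eq (ws := [0x70503070503, 0x30705030705])
      (ws' := [0x30705030705, 0x70503070503]) (by decide +kernel)
  · simpa using prod_eq (ws := [0x503, 0x70503070503]) (ws' := [0x30705030705, 0x503])
      (by decide +kernel)
  · simpa using prod_eq (ws := [0x70503070503, 0x30705030705, 0x503, 0x30705030705])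
      (ws' := [0x503]) (by decide +kernel)
  · simpa using prod_eq (ws := [0x3, 0x70503070503]) (ws' := [0x30705030705, 0x3])
      (by decide +kernel)
  · simpa using prod_eq (ws := [0x3, 0x30705030705]) (ws' := [0x70503070503, 0x3])
      (by decide +kernel)
  · exact wordP_ne_one (k := 7) (L := lab 100 7) h_hn h_O_ok (by decide +kernel)
      (congrArg Subtype.val h)

theorem embJ : EmbJStmt := CfgJ.map eH.symm cfg_grp

end Cfsg.Agent.H60.E72J
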