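import Mathlib
import Cfsg.Agent.H6.E82Defs

/-! `E₈(2)`: the points of order `65` over the rational point modulo `13` (piece L65A). -/

set_option autoImplicit false
set_option maxRecDepth 100000

namespace Cfsg.Agent.H60.E82L65a

open Equiv Cfsg.Lie H37 H40 H34 H29 H6.E82 Finset

theorem chk65 : srch cn8 tn8 13 2 [1, 1, 0, 0, 1, 0, 0, 1] (fun M => hornA 5 un8 M [1, 0, 4, 0, 1]
    fun G => allL (fun z => allL (kil 5 · z) G) [[2, 4, 1, 0, 0, 0, 0, 0], [4, 2, 0, 1, 0, 0, 0, 0],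
      [0, 3, 0, 0, 2, 1, 0, 4], [0, 1, 0, 0, 4, 0, 1, 2]]) = true := by
  refine srch_of_split (m := 4) (by decide) fun i hi => ?_
  interval_cases i <;> decide +kernel

theorem red {n m : ℕ} (h : m ∣ n) {x y : ℤ} (hxy : (x : ZMod n) = 2 * y) :
    (x : ZMod m) = (2 : ℕ) * y := by
  have := congrArg (ZMod.castHom h (ZMod m)) hxy
  rw [map_mul, map_intCast, map_intCast, map_ofNat] at this
  rw [this, Nat.cast_ofNat]

theorem crt1 {v : ℕ} {x : ℤ} (h1 : ((1 : ℕ) : ZMod 13) = x) (h2 : (v : ZMod 5) = x) :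
    (((40 + 26 * v) % 65 : ℕ) : ZMod 65) = x := by
  rw [← Int.cast_natCast, ZMod.intCast_eq_intCast_iff_dvd_sub] at h1 h2 ⊢
  push_cast at h1 h2 ⊢
  omega

theorem crt0 {v : ℕ} {x : ℤ} (h1 : ((0 : ℕ) : ZMod 13) = x) (h2 : (v : ZMod 5) = x) :
    (((26 * v) % 65 : ℕ) : ZMod 65) = x := by
  rw [← Int.cast_natCast, ZMod.intCast_eq_intCast_iff_dvd_sub] at h1 h2 ⊢
  push_cast at h1 h2 ⊢
  omega

theorem ex5 (t : ZMod 5) : ∃ a : ℕ, a < 5 ∧ (a : ZMod 5) = t :=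
  ⟨t.val, ZMod.val_lt t, ZMod.natCast_zmod_val t⟩

theorem arith (y : Fin 8 → ℤ) (h13 : ∀ j : Fin 8,
      ((([1, 1, 0, 0, 1, 0, 0, 1] : List ℕ).getD j 0 : ℕ) : ZMod 13) = y j)
    (h5 : ∀ z ∈ ([[2, 4, 1, 0, 0, 0, 0, 0], [4, 2, 0, 1, 0, 0, 0, 0],
      [0, 3, 0, 0, 2, 1, 0, 4], [0, 1, 0, 0, 4, 0, 1, 2]] : List (List ℕ)),
      ((∑ j : Fin 8, (z.getD j 0 : ℕ) * y j : ℤ) : ZMod 5) = 0) :
    ∃ a < 5, ∃ b < 5, ∃ c < 5, ∃ d < 5, ∀ j : Fin 8,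
      (((a65 a b c d).getD j 0 : ℕ) : ZMod 65) = y j := by
  have f1 : (((2 : ℕ) * y 0 + (4 : ℕ) * y 1 + (1 : ℕ) * y 2 + (0 : ℕ) * y 3 + (0 : ℕ) * y 4 +
      (0 : ℕ) * y 5 + (0 : ℕ) * y 6 + (0 : ℕ) * y 7 : ℤ) : ZMod 5) = 0 := by
    have := h5 [2, 4, 1, 0, 0, 0, 0, 0] (by simp)
    rwa [Fin.sum_univ_eight] at this
  have f2 : (((4 : ℕ) * y 0 + (2 : ℕ) * y 1 + (0 : ℕ) * y 2 + (1 : ℕ) * y 3 + (0 : ℕ) * y 4 +
      (0 : ℕ) * y 5 + (0 : ℕ) * y 6 + (0 : ℕ) * y 7 : ℤ) : ZMod 5) = 0 := by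
    have := h5 [4, 2, 0, 1, 0, 0, 0, 0] (by simp)
    rwa [Fin.sum_univ_eight] at this
  have f3 : (((0 : ℕ) * y 0 + (3 : ℕ) * y 1 + (0 : ℕ) * y 2 + (0 : ℕ) * y 3 + (2 : ℕ) * y 4 +
      (1 : ℕ) * y 5 + (0 : ℕ) * y 6 + (4 : ℕ) * y 7 : ℤ) : ZMod 5) = 0 := by
    have := h5 [0, 3, 0, 0, 2, 1, 0, 4] (by simp)
    rwa [Fin.sum_univ_eight] at this
  have f4 : (((0 : ℕ) * y 0 + (1 : ℕ) * y 1 + (0 : ℕ) * y 2 + (0 : ℕ) * y 3 + (4 : ℕ) * y 4 +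
      (0 : ℕ) * y 5 + (1 : ℕ) * y 6 + (2 : ℕ) * y 7 : ℤ) : ZMod 5) = 0 := by
    have := h5 [0, 1, 0, 0, 4, 0, 1, 2] (by simp)
    rwa [Fin.sum_univ_eight] at this
  push_cast at f1 f2 f3 f4
  have h0 : (5 : ZMod 5) = 0 := rfl
  obtain ⟨a, ha, ea⟩ := ex5 (-y 0)
  obtain ⟨b, hb, eb⟩ := ex5 (-y 1)
  obtain ⟨c, hc, ec⟩ := ex5 (y 1 - y 4)
  obtain ⟨d, hd, ed⟩ := ex5 (-y 7)
  refine ⟨a, ha, b, hb, c, hc, d, hd, fun j => ?_⟩
  have g0 : ((4 * a : ℕ) : ZMod 5) = y 0 := by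
    push_cast; rw [ea]; linear_combination (-y 0 : ZMod 5) * h0
  have g1 : ((4 * b : ℕ) : ZMod 5) = y 1 := by
    push_cast; rw [eb]; linear_combination (-y 1 : ZMod 5) * h0
  have g2 : ((2 * a + 4 * b : ℕ) : ZMod 5) = y 2 := by
    push_cast; rw [ea, eb]; linear_combination -f1
  have g3 : ((4 * a + 2 * b : ℕ) : ZMod 5) = y 3 := by
    push_cast; rw [ea, eb]; linear_combination -f2
  have g4 : ((4 * b + 4 * c : ℕ) : ZMod 5) = y 4 := by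
    push_cast; rw [eb, ec]; linear_combination (-y 4 : ZMod 5) * h0
  have g5 : ((2 * c + 4 * d : ℕ) : ZMod 5) = y 5 := by
    push_cast; rw [ec, ed]; linear_combination -f3 + (y 1 : ZMod 5) * h0
  have g6 : ((4 * c + 2 * d : ℕ) : ZMod 5) = y 6 := by
    push_cast; rw [ec, ed]; linear_combination -f4 + (y 1 : ZMod 5) * h0
  have g7 : ((4 * d : ℕ) : ZMod 5) = y 7 := by
    push_cast; rw [ed]; linear_combination (-y 7 : ZMod 5) * h0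
  fin_cases j
  exacts [crt1 (h13 0) g0, crt1 (h13 1) g1, crt0 (h13 2) g2, crt0 (h13 3) g3, crt1 (h13 4) g4,
    crt0 (h13 5) g5, crt0 (h13 6) g6, crt1 (h13 7) g7]

theorem l65a : L65aStmt := by
  intro f hf w hw h1 h2
  have h3 := srch_spec tabOKE8 tabN8 (by decide) hw rfl h2 hf (fun r => red (by decide) (h1 r)) chk65
  rw [hornA_eq, allL_iff] at h3
  refine arith (fun j => f (C8.R.simple j)) h2 fun z hz => ?_
  have hl : z.length = 8 := by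
    simp only [List.mem_cons, List.not_mem_nil, or_false] at hz
    rcases hz with rfl | rfl | rfl | rfl <;> rfl
  have := (kil_all_iff tabOKE8 tabN8 (by decide) hw _ hl).1 (h3 z hz) f hf
  rw [ev_eig (k := 2) fun r => red (by decide) (h1 r), mul_eq_zero] at this
  exact this.resolve_left (by decide)

end Cfsg.Agent.H60.E82L65a
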