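import Mathlib
import Cfsg.Agent.H50.E83Mu

/-! A toral `2⁴` in `E₈` with the relations of `U₄(3)` does not consist of involutions of trace `-8`. -/

set_option autoImplicit false

namespace Cfsg.Agent.H50.E83.H60Lat

open Equiv Cfsg.Lie H37 H40 H34 H29 Module Multiplicative

theorem zmod2 (c : ZMod 2) : (if c = 0 then 1 else 0) + (if c + 1 = 0 then 1 else 0) = 1 := by
  revert c; decide

/-- An additive map to `ZMod 2` vanishes on at least half of `E4`. -/
theorem cnt (φ : E4 → ZMod 2) (h : ∀ e e', φ (e + e') = φ e + φ e') :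
    8 ≤ ∑ e, (if φ e = 0 then 1 else 0) ∧ ((∑ e, if φ e = 0 then 1 else 0) = 8 → ∃ e, φ e ≠ 0) := by
  have hc : Fintype.card E4 = 16 := by simp
  by_cases h0 : ∃ e, φ e ≠ 0
  · obtain ⟨e0, he0⟩ := h0
    have h1 : φ e0 = 1 := by revert he0; generalize φ e0 = c; revert c; decide
    have h2 : (∑ e, if φ e = 0 then 1 else 0) = ∑ e, if φ e + 1 = 0 then 1 else 0 := by
      rw [← Equiv.sum_comp (Equiv.addRight e0)]
      simp only [Equiv.coe_addRight, h, h1]
    have h3 : (∑ e, if φ e = 0 then 1 else 0) + (∑ e, if φ e + 1 = 0 then 1 else 0) = 16 := by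
      rw [← Finset.sum_add_distrib]
      simp only [zmod2, Finset.sum_const, Finset.card_univ, hc, smul_eq_mul]
    exact ⟨by omega, fun _ => ⟨e0, he0⟩⟩
  · push Not at h0
    simp only [h0, if_true, Finset.sum_const, Finset.card_univ, hc, smul_eq_mul]
    omega

/-- No root is killed by all labels. -/
theorem not_killed (F : E4 → Rt → ℤ) (hadd : ∀ e e' r, (F (e + e') r : ZMod 2) = F e r + F e' r)
    (hz : ∀ e, e ≠ 0 → z0 2 (F e) = 112) (r : Rt) : ∃ e, Odd (F e r) := by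
  have hc : Fintype.card E4 = 16 := by simp
  have hr : Fintype.card Rt = 240 := by simp; rfl
  have h0 : z0 2 (F 0) = 240 := by
    have : ∀ r, (F 0 r : ZMod 2) = 0 := fun r => by simpa using hadd 0 0 r
    simp only [z0, this, if_true, Finset.sum_const, Finset.card_univ, hr, smul_eq_mul]
  have h1 : ∑ e, z0 2 (F e) = 1920 := by
    rw [← Finset.add_sum_erase _ _ (Finset.mem_univ 0), h0,
      Finset.sum_congr rfl fun e he => hz e (Finset.ne_of_mem_erase he)]
    simp only [Finset.sum_const, Finset.card_erase_of_mem (Finset.mem_univ _), Finset.card_univ, hc,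
      smul_eq_mul]
  have h2 : ∑ _r : Rt, 8 = ∑ r : Rt, ∑ e, if (F e r : ZMod 2) = 0 then 1 else 0 := by
    rw [Finset.sum_comm]
    simp only [Finset.sum_const, Finset.card_univ, hr, smul_eq_mul]
    exact h1.symm
  have h3 := (Finset.sum_eq_sum_iff_of_le fun r _ =>
    (cnt (fun e => (F e r : ZMod 2)) fun e e' => hadd e e' r).1).1 h2 r (Finset.mem_univ r)
  obtain ⟨e, he⟩ := (cnt (fun e => (F e r : ZMod 2)) fun e e' => hadd e e' r).2 h3.symm
  exact ⟨e, Int.not_even_iff_odd.1 fun h => he (ZMod.intCast_eq_zero_iff_even.2 h)⟩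

theorem nu_rel {ι Φ G : Type*} [Finite Φ] {S : SignedSys ι Φ} [Group G] (P : Split S G) {a y : G}
    (ha : a ∈ P.N) (hy : y ∈ P.N) (aa : a * a = 1) (y3 : y ^ 3 = 1)
    (abc : a * (y * a * y⁻¹) * (y ^ 2 * a * (y ^ 2)⁻¹) ∈ P.H) :
    P.ν y ^ 3 = 1 ∧ P.ν a * P.ν a = 1 ∧
      P.ν a * (P.ν y * P.ν a * (P.ν y)⁻¹) * (P.ν y ^ 2 * P.ν a * (P.ν y ^ 2)⁻¹) = 1 := by
  let a' : P.N := ⟨a, ha⟩
  let y' : P.N := ⟨y, hy⟩
  refine ⟨?_, ?_, ?_⟩
  · show P.νHom y' ^ 3 = 1
    rw [← map_pow, show y' ^ 3 = 1 from Subtype.ext y3, map_one]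
  · show P.νHom a' * P.νHom a' = 1
    rw [← map_mul, show a' * a' = 1 from Subtype.ext aa, map_one]
  · show P.νHom a' * (P.νHom y' * P.νHom a' * (P.νHom y')⁻¹) *
      (P.νHom y' ^ 2 * P.νHom a' * (P.νHom y' ^ 2)⁻¹) = 1
    simp only [← map_pow, ← map_inv, ← map_mul]
    exact Split.ν_H abc

theorem lat (mu : MuStmt) (t0 : T0Stmt) (lat2 : Lat2Stmt) : LatStmt := by
  intro x a y hR hH hτ
  have hsq : ∀ e : E4, x (ofAdd e) ^ 2 = 1 := fun e => by
    have : (ofAdd e) ^ 2 = 1 := by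
      rw [← ofAdd_nsmul]; exact congrArg ofAdd (by revert e; decide)
    rw [← map_pow, this, map_one]
  choose F hF using fun e : E4 => exists_lab (C := C8) prim2 two_ne_zero (hH (ofAdd e)) (hsq e)
  have hadd : ∀ e e' r, (F (e + e') r : ZMod 2) = F e r + F e' r := fun e e' r => by
    have := ((hF (e + e')).eq_iff ((hF e).mul (hF e'))).1 (by rw [ofAdd_add, map_mul]) r
    rw [(zpow_eq_iff prim2).1 this, Int.cast_add]
  have hz : ∀ e, e ≠ 0 → z0 2 (F e) = 112 := fun e he => by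
    have h1 := mu.2.2.2.1 _ _ (hF e)
    rw [hτ _ (by simpa using he)] at h1
    omega
  have hN : ∀ (g : GK) (σ : E4 → E4), (∀ e, g * x (ofAdd e) * g⁻¹ = x (ofAdd (σ e))) → g ∈ P8.N := by
    intro g σ hg
    obtain ⟨n, hn, h⟩ := exists_N C8 g
    have h1 : n⁻¹ * g ∈ P8.N := (t0 E4 _ F hF).2.1 (not_killed F hadd hz) _ fun e => by
      have h2 := h _ (hH (ofAdd e)) (by rw [hg]; exact hH _)
      rw [commute_iff_eq]
      calc _ = n⁻¹ * (n * x (ofAdd e) * n⁻¹) * g := by group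
        _ = _ := by rw [← h2]; group
    simpa using mul_mem hn h1
  have ha := hN a sa hR.ax
  have hy := hN y sy hR.yx
  obtain ⟨e2, e3, e4⟩ := nu_rel (C8.split K) ha hy hR.aa hR.y3 (by
    obtain ⟨e, he⟩ := hR.abc
    exact he ▸ hH e)
  have e5 : ∀ e r, (F (sy e) ((C8.split K).ν y r) : ZMod 2) = F e r := fun e r => by
    have h5 := hF (sy e)
    rw [← hR.yx] at h5
    have h6 := Lab.rel_N (C := C8) prim2 hy (hF e) h5 r
    exact h6
  have e1 : (C8.split K).ν a = 1 :=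
    lat2 F sy _ ((C8.split K).ν_mem a ha) _ ((C8.split K).ν_mem y hy) (fun e => (hF e).1) hadd hz
      (by decide) e5 e2 e3 e4
  have haH : a ∈ P8.H := Split.mem_H_of ha e1
  have h1 := hR.ax ![0, 0, 1, 0]
  have h3 : sa ![0, 0, 1, 0] = ![0, 0, 1, 0] + ![1, 0, 0, 0] := by decide
  have h4 : a * x (ofAdd ![0, 0, 1, 0]) = x (ofAdd ![0, 0, 1, 0]) * a :=
    Cert.H_comm (C := C8) _ haH _ (hH _)
  rw [h4, mul_inv_cancel_right, h3, ofAdd_add, map_mul, left_eq_mul] at h1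
  have h2 := hτ (ofAdd ![1, 0, 0, 0]) (by decide)
  rw [h1, mu.2.2.2.2.2] at h2
  omega

end Cfsg.Agent.H50.E83.H60Lat
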