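import Mathlib
import Cfsg.Agent.H11.ElDefs

/-!
# The centraliser of a `J₁` generated by two members of the class has odd order
-/

set_option autoImplicit false

namespace Cfsg.Agent.H60.ElJ3

open Subgroup Cfsg.Agent.H11.EL

universe u

variable {G : Type u} [Group G]

theorem cj_ct (g : G) (L : Subgroup G) : cj g (Ct L) = Ct (cj g L) := by
  ext x
  rw [mem_cj, mem_centralizer_iff, mem_centralizer_iff]
  constructor
  · intro h y hy
    have := h _ (mem_cj.1 hy)
    have e : y * x = g * (g⁻¹ * y * g * (g⁻¹ * x * g)) * g⁻¹ := by group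
    rw [e, this]; group
  · intro h y hy
    have := h (g * y * g⁻¹) (mem_cj.2 (by simpa [mul_assoc] using hy))
    have e : y * (g⁻¹ * x * g) = g⁻¹ * (g * y * g⁻¹ * x) * g := by group
    rw [e, this]; group

theorem not_inv [Finite G] {E : Subgroup G} (hE : Nat.card E = 11) (h : ∀ e ∈ E, e = e⁻¹) :
    False := by
  have : Nontrivial E := by rw [← Finite.one_lt_card_iff_nontrivial, hE]; norm_num
  obtain ⟨e, he⟩ := exists_ne (1 : E)
  have h1 : (e : G) ^ 11 = 1 := by
    have := pow_card_eq_one' (x := e)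
    rw [hE] at this
    exact_mod_cast congrArg Subtype.val this
  have h2 : (e : G) ^ 2 = 1 := by rw [sq]; nth_rw 2 [h e e.2]; exact mul_inv_cancel _
  apply he
  ext
  rw [show (e : G) = (e : G) ^ 11 * (((e : G) ^ 2) ^ 5)⁻¹ by group, h1, h2]
  simp

theorem j3 (b : Base.{u}) (te : TEStmt.{u}) : J3Stmt.{u} := by
  intro G _ _ D hD A hA B hB hJ
  have := hD.simple
  have JL := b.ja _ hJ
  have mb := b.mb D hD.toCls
  have hAB : A ≠ B := by
    rintro rfl
    have h1 := JL.card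
    rw [sup_idem, hD.card A hA] at h1
    omega
  have key : ∀ (X : Subgroup G) (g : G), X ≠ ⊤ → A ⊔ B ≤ X → cj g (A ⊔ B) ≤ X →
      g ∈ Nm (A ⊔ B) := fun X g hX h1 h2 => by
    have h3 : A ⊔ B ≤ gen D X :=
      sup_le (le_sSup ⟨hA, le_sup_left.trans h1⟩) (le_sSup ⟨hB, le_sup_right.trans h1⟩)
    have h4 : cj g (A ⊔ B) ≤ gen D X := by
      rw [cj_sup] at h2 ⊢
      exact sup_le (le_sSup ⟨hD.conj A hA g, le_sup_left.trans h2⟩)
        (le_sSup ⟨hD.conj B hB g, le_sup_right.trans h2⟩)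
    have h5 : Nat.card (gen D X) ≤ 175560 := by
      rcases hD.ind X hX A hA B hB hAB (le_sup_left.trans h1) (le_sup_right.trans h1) with h | h
      · rw [(b.la _ h).card]; norm_num
      · rw [(b.ja _ h).card]
    rw [← cj_eq_iff, eq_of_le_of_card_ge h4 (by rw [card_cj, JL.card]; exact h5),
      ← eq_of_le_of_card_ge h3 (by rw [JL.card]; exact h5)]
  have hK : Ct (A ⊔ B) ≠ ⊤ := fun h => by
    have h1 : A ⊔ B = ⊥ := eq_bot_iff.2 fun x hx => JL.ctr x hx (h ▸ mem_top x)
    have h2 := JL.card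
    rw [h1, card_bot] at h2
    omega
  have nm : Nm (A ⊔ B) ≤ Nm (Ct (A ⊔ B)) := fun g hg => by
    rw [← cj_eq_iff] at hg ⊢
    rw [cj_ct, hg]
  have ti : ∀ g k : G, k ≠ 1 → k ∈ Ct (A ⊔ B) → k ∈ cj g (Ct (A ⊔ B)) → g ∈ Nm (A ⊔ B) :=
    fun g k hk h1 h2 => by
      rw [cj_ct] at h2
      refine key (C1 k) g (fun h => ?_) (fun x hx => mem_centralizer_singleton_iff.2 (h1 x hx))
        fun x hx => mem_centralizer_singleton_iff.2 (h2 x hx)
      have hc : k ∈ center G := mem_center_iff.2 fun x =>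
        mem_centralizer_singleton_iff.1 (h ▸ mem_top x : x ∈ C1 k)
      rcases IsSimpleGroup.eq_bot_or_eq_top_of_normal (center G) inferInstance with h' | h'
      · exact hk (by simpa [h'] using hc)
      · exact hK (eq_top_iff.2 fun x _ y _ => mem_center_iff.1 (h' ▸ mem_top x : x ∈ center G) y)
  by_contra hev
  rw [Nat.not_odd_iff_even] at hev
  obtain ⟨g, hg, w, hw, hwN, ow⟩ := te (Ct (A ⊔ B)) (A ⊔ B) hev hK
    (fun g hg => eq_bot_iff.2 fun k hk => by
      by_contra h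
      exact hg (nm (ti g k h hk.1 hk.2))) (le_normalizer.trans nm) (Or.inr hJ)
  have w1 : w ≠ 1 := fun h => by simp [h] at ow
  have w2 : w * w = 1 := by rw [← sq, ← ow, pow_orderOf_eq_one]
  have hwL : w ∈ Nm (A ⊔ B) := by
    have : Nontrivial (Ct (A ⊔ B)) := by
      rw [← Finite.one_lt_card_iff_nontrivial]
      have := Nat.card_pos (α := Ct (A ⊔ B))
      obtain ⟨r, hr⟩ := hev
      omega
    obtain ⟨k, hk⟩ := exists_ne (1 : Ct (A ⊔ B))
    exact ti w k (fun h => hk (Subtype.ext h)) k.2 (by rw [cj_eq_iff.2 hwN]; exact k.2)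
  obtain ⟨k, hk, l, hl, rfl⟩ := JL.inn w hwL
  have hc : Commute l k := hk l hl
  have l2 : l * l = 1 := by
    refine JL.ctr _ (mul_mem hl hl) ?_
    have e : l * l = (k * k)⁻¹ := by
      refine eq_inv_of_mul_eq_one_right ?_
      rw [← w2, hc.mul_mul_mul_comm]
    rw [e]
    exact inv_mem (mul_mem hk hk)
  have l1 : l ≠ 1 := by
    rintro rfl
    rw [mul_one] at hw w1
    exact hg (nm (ti g k w1 hk hw))
  obtain ⟨y, hy, y2, hyA⟩ := JL.inv A ⟨le_sup_left, hD.card A hA⟩
  have y1 : y ≠ 1 := by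
    rintro rfl
    exact not_inv (hD.card A hA) fun a ha => by simpa using hyA a ha
  obtain ⟨h, hh, hhy⟩ := JL.cls y hy l hl (orderOf_eq_prime (by rw [sq, y2]) y1)
    (orderOf_eq_prime (by rw [sq, l2]) l1)
  have hE : cj h A ∈ D := hD.conj A hA h
  have hinv : ∀ e ∈ cj h A, k * l * e * (k * l)⁻¹ = e⁻¹ := fun e he => by
    have he' := mem_cj.1 he
    have heL : e⁻¹ ∈ A ⊔ B := by
      have : e = h * (h⁻¹ * e * h) * h⁻¹ := by group
      rw [this]
      exact inv_mem (mul_mem (mul_mem hh (mem_sup_left he')) (inv_mem hh))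
    have h1 : l * e * l⁻¹ = e⁻¹ := by
      have e1 : h * y * h⁻¹ * e * (h * y * h⁻¹)⁻¹ = h * (y * (h⁻¹ * e * h) * y⁻¹) * h⁻¹ := by group
      rw [← hhy, e1, hyA _ he']; group
    have e2 : k * l * e * (k * l)⁻¹ = k * (l * e * l⁻¹) * k⁻¹ := by group
    rw [e2, h1, ← hk _ heL, mul_inv_cancel_right]
  have hN : k * l ∈ Nm (cj h A) := by
    refine mem_normalizer_fintype fun e he => ?_
    rw [hinv e he]
    exact inv_mem he
  rw [cj_ct, cj_sup] at hw
  have hcen := mb.cen _ (hD.conj A hA g) _ hE _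
    (centralizer_le (SetLike.coe_subset_coe.2 le_sup_left) hw) hN
  refine not_inv (hD.card _ hE) fun e he => ?_
  rw [← hinv e he, ← hcen e (mem_sup_right he), mul_inv_cancel_right]

end Cfsg.Agent.H60.ElJ3
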