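import Mathlib
import Cfsg.Agent.H11.ElDefs
import Cfsg.Agent.H60.ElJ3

/-!
# The normaliser of `R A` normalises the line when nothing is mixed
-/

set_option autoImplicit false

namespace Cfsg.Agent.H60.ElN3e

open Subgroup Cfsg.Agent.H11.EL Cfsg.Agent.H60.ElJ3

universe u

theorem le_ct {G : Type u} [Group G] [Finite G] {A : Subgroup G} (hA : Nat.card A = 11) :
    A ≤ Ct A := fun a ha x hx => by
  have : Fact (Nat.Prime 11) := ⟨by norm_num⟩
  have : IsCyclic A := isCyclic_of_prime_card hA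
  exact congrArg Subtype.val (mul_comm' (⟨x, hx⟩ : A) ⟨a, ha⟩)

theorem ct_le_nm {G : Type u} [Group G] (A : Subgroup G) : Ct A ≤ Nm A :=
  centralizer_le_normalizer _

theorem n3e (b : Base.{u}) : N3eStmt.{u} := by
  intro G _ _ D A B R P hM hR hR1 _ n hn
  have hA := P.hA
  have hB := P.hB
  have N := P.ne
  have cA := N.card A hA
  have hRA : R ≤ Ct A := hR.trans (centralizer_le (SetLike.coe_subset_coe.2 le_sup_left))
  have h1 : R ⊔ A ≤ Ct A := sup_le hRA (le_ct cA)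
  have h2 : cj n A ≤ Ct A := by
    refine le_trans ?_ h1
    rw [← cj_eq_iff.2 hn, cj_sup]
    exact le_sup_right
  have h3 : cj n A = A := by
    have : Nontrivial A := by rw [← Finite.one_lt_card_iff_nontrivial, cA]; norm_num
    obtain ⟨a, ha⟩ := exists_ne (1 : A)
    exact N.semi A hA _ (N.conj A hA n) a a.2 (fun h => ha (Subtype.ext h))
      (ct_le_nm _ fun x hx => (h2 hx a a.2).symm)
  have hB' := N.conj B hB n
  have h4 : A ≠ cj n B := fun h => P.AB (by
    have := congrArg (cj n⁻¹) (h3.trans h)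
    rwa [← cj_mul, ← cj_mul, inv_mul_cancel, cj_one, cj_one] at this)
  have h5 : cj n (A ⊔ B) = A ⊔ cj n B := by rw [cj_sup, h3]
  rw [← cj_eq_iff, h5]
  refine N.line A hA B hB A hA _ hB' h4 le_sup_left ?_
  by_contra h6
  obtain ⟨ρ, hρ, ρ1⟩ := (R.bot_or_exists_ne_one).resolve_left hR1
  have h7 : n * ρ * n⁻¹ ∈ R ⊔ A := (mem_normalizer_iff.1 hn ρ).1 (mem_sup_left hρ)
  have h8 : n * ρ * n⁻¹ ∈ Ct (A ⊔ cj n B) := by
    rw [← h5, ← cj_ct, mem_cj]
    simpa [mul_assoc] using hR hρ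
  rw [← SetLike.mem_coe, coe_mul_of_left_le_normalizer_right _ _ (hRA.trans (ct_le_nm A))] at h7
  obtain ⟨ρ', hρ', a, ha, e⟩ := h7
  replace e : ρ' * a = n * ρ * n⁻¹ := e
  have h9 : ρ' = 1 := by
    by_contra h
    refine hM ρ' ⟨hR hρ', h, _, hB', h6, ?_⟩
    rw [eq_mul_inv_of_mul_eq e]
    exact mul_mem (ct_le_nm _ h8) (inv_mem (le_normalizer (mem_sup_left ha)))
  rw [h9, one_mul] at e
  have h10 := (b.la _ (N.lp A hA _ hB' h4).iso).ctr a (mem_sup_left ha) (e ▸ h8)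
  rw [h10, eq_comm, conj_eq_one_iff] at e
  exact ρ1 e

end Cfsg.Agent.H60.ElN3e
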