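import Mathlib
import Cfsg.Agent.H42.FvDefs
import Cfsg.Agent.H74.KGTor

/-!
# A Frobenius stable conjugate of the stabiliser of a filtration is rationally standard
-/

set_option autoImplicit false

namespace Cfsg.Agent.H60.FvRat

open Equiv Cfsg.Lie H37 H40 H34 H29 Module H50.E83 H42.Fv
open scoped Matrix

theorem Ph_mem_U {A : Set Rt} : ∀ g ∈ P8.U A, Ph g ∈ P8.U A := fun _ hg =>
  (Split.U_le (K := (P8.U A).comap Ph) fun r hr x hx =>
    Split.mem_U hr (H73.Phi_mem_X (C := C8) (r := 3) 1 r x hx)) hg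

theorem rat (tri : TriStmt) (reg : RegStmt) (lu : LangUStmt) (ps : PstStmt) (nv : NvgStmt)
    (ad : AddRStmt) (fr : FrobStmt) : RatStmt := by
  intro l g hl dom hg
  obtain ⟨a, ha, n, hn, u, hu, rfl⟩ := P8.bruhat g
  have up : ∀ x ∈ P8.U Pos, x ∈ Pst l := fun x hx => (ps l hl).2 (Split.U_mono dom hx)
  have hu' : u ∈ P8.U Pos := Split.Uinv_le_Up hu
  have ha' : a ∈ P8.U Pos := ha
  have hN : Ph n ∈ P8.N ∧ P8.ν (Ph n) = P8.ν n := H74.KG.Phi_mem_N (C := C8) (r := 3) 1 hn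
  have hh : n⁻¹ * Ph n ∈ Pst l := (ps l hl).1 (Split.inv_mul_mem_H hn hN.1 hN.2.symm)
  have hz : n⁻¹ * (a⁻¹ * Ph a) * n ∈ Pst l := by
    have e : n⁻¹ * (a⁻¹ * Ph a) * n =
        u * ((a * n * u)⁻¹ * Ph (a * n * u)) * (Ph u)⁻¹ * (n⁻¹ * Ph n)⁻¹ := by
      rw [map_mul, map_mul]; group
    rw [e]
    exact mul_mem (mul_mem (mul_mem (up u hu') hg) (inv_mem (up _ (Ph_mem_U u hu')))) (inv_mem hh)
  have hl' : AddR fun r => l (P8.ν n⁻¹ r) := (ad l hl).2.2 _ (P8.ν_mem _ (inv_mem hn))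
  have clo : Clo {r | 0 ≤ l (P8.ν n⁻¹ r)} := fun r hr s hs t h => by
    exact (add_nonneg hr hs).trans ((ad _ hl').1 r s t h).ge
  obtain ⟨h0, h1, h2⟩ := reg
  have h3 : ∀ r, h0 (Sum.inr r) = 0 := fun r => by
    by_contra h
    exact h1 r h
  have h4 : Vge (fun r => l (P8.ν n⁻¹ r)) 0 (act (a⁻¹ * Ph a) h0) := by
    rw [← nv l _ (inv_mem hn), ← act_mul, ← mul_inv_cancel_right (n⁻¹ * (a⁻¹ * Ph a)) n, act_mul,
      mem_Pst.1 hz, nv l _ (inv_mem hn)]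
    exact ⟨fun h => absurd h (lt_irrefl _), fun r _ => h3 r⟩
  have h5 := tri Pos subset_rfl _ clo_pos clo h0 (fun r h => absurd (h3 r) h) (fun r _ _ => h2 r) _
    (mul_mem (inv_mem ha') (Ph_mem_U a ha')) fun r _ hr => h4.2 r (not_le.1 hr)
  obtain ⟨b, hb, e⟩ := lu _ Set.inter_subset_left (clo_pos.inter clo) 1 (one_mem _)
    (fun r hr => by rwa [Split.ν_one]) _ h5
  rw [sg_apply, one_mul, inv_one, mul_one] at e
  obtain ⟨m, hm⟩ := (fr.2.1 (a * b⁻¹)).1 (by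
    rw [map_mul, map_inv, ← mul_inv_cancel_left a (Ph a), ← e]; group)
  refine ⟨m, n, hn, ?_⟩
  have e' : (ι m * n)⁻¹ * (a * n * u) = n⁻¹ * b * n⁻¹⁻¹ * u := by rw [hm]; group
  rw [e']
  refine mul_mem ((ps l hl).2 (Split.conj_U (inv_mem hn) (fun r hr => ?_) hb)) (up u hu')
  have h6 : 0 ≤ l (P8.ν n⁻¹ r) := hr.2
  revert h6
  generalize P8.ν n⁻¹ r = s
  exact id

end Cfsg.Agent.H60.FvRat
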