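import Mathlib
import Cfsg.Agent.H12.GbAssoc
import Cfsg.Agent.H2.GbAvm

/-! Project GB, piece DER2: the block swap and the double coset. -/

set_option autoImplicit false

namespace Cfsg.Agent.H60.GbDer2

open Cfsg Finset Cfsg.Agent.H98.GB Cfsg.Agent.H12.GbAssoc Cfsg.Agent.H2GbAvm
open scoped MatrixGroups

universe u

theorem dcoset {G X : Type*} [Group G] [Fintype G] [Fintype X] (φ : X → G)
    (hφ : ∀ h0 (Φ : G → ℂ), ∑ h, Φ (φ h0 * φ h) = ∑ h, Φ (φ h)) (K : Subgroup G)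
    [DecidablePred (· ∈ K)] (w : G) (T : G → ℂ) (hT : ∀ x, ∀ p ∈ K, T (x * p) = T x)
    (S : G → Prop) [DecidablePred S] (hS : ∀ x, S x ↔ ∃ h, x⁻¹ * φ h * w ∈ K) :
    (∑ h, if w⁻¹ * φ h * w ∈ K then (1 : ℂ) else 0) * ∑ x, (if S x then T x else 0) =
      (∑ x, if x ∈ K then (1 : ℂ) else 0) * ∑ h, T (φ h * w) := by
  have e1 : ∀ x, (∑ h, if w⁻¹ * φ h * w ∈ K then (1 : ℂ) else 0) * (if S x then T x else 0) =
      ∑ h, if x⁻¹ * φ h * w ∈ K then T (φ h * w) else 0 := fun x => by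
    by_cases hx : S x
    · obtain ⟨h0, hp⟩ := (hS x).1 hx
      rw [if_pos hx, ← hφ h0 fun g => if x⁻¹ * g * w ∈ K then T (g * w) else 0, sum_mul]
      refine sum_congr rfl fun h _ => ?_
      have e : x⁻¹ * (φ h0 * φ h) * w = x⁻¹ * φ h0 * w * (w⁻¹ * φ h * w) := by group
      by_cases hh : w⁻¹ * φ h * w ∈ K
      · have hm := K.mul_mem hp hh
        rw [if_pos hh, e, if_pos hm, one_mul, ← hT x _ hm]
        congr 1; group
      · rw [if_neg hh, zero_mul, e, if_neg fun hm => hh ((K.mul_mem_cancel_left hp).1 hm)]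
    · rw [if_neg hx, mul_zero]
      exact (sum_eq_zero fun h _ => if_neg fun hm => hx ((hS x).2 ⟨h, hm⟩)).symm
  rw [mul_sum, sum_congr rfl fun x _ => e1 x, sum_comm, mul_sum]
  refine sum_congr rfl fun h _ => ?_
  rw [sum_mul, ← Equiv.sum_comp ((Equiv.inv G).trans (Equiv.mulLeft (φ h * w)))]
  refine sum_congr rfl fun x _ => ?_
  simp [mul_assoc]

theorem exists_perm {a b m k n b' : ℕ} (h1 : a + b = n) (h2 : m + k = n) (h3 : m + b' = b)
    (h4 : a + b' = k) : ∃ σ : Equiv.Perm (Fin n),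
      (∀ i, σ (eqv h1 (.inl i)) = eqv h2 (.inr (eqv h4 (.inl i)))) ∧
      (∀ i, σ (eqv h1 (.inr (eqv h3 (.inl i)))) = eqv h2 (.inl i)) ∧
      (∀ i, σ (eqv h1 (.inr (eqv h3 (.inr i)))) = eqv h2 (.inr (eqv h4 (.inr i)))) ∧
      Equiv.Perm.sign σ = (-1) ^ (a * m) := by
  let E1 : Fin a ⊕ (Fin m ⊕ Fin b') ≃ Fin n := (Equiv.sumCongr (Equiv.refl _) (eqv h3)).trans (eqv h1)
  let E2 : Fin m ⊕ (Fin a ⊕ Fin b') ≃ Fin n := (Equiv.sumCongr (Equiv.refl _) (eqv h4)).trans (eqv h2)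
  let sw : Fin a ⊕ (Fin m ⊕ Fin b') ≃ Fin m ⊕ (Fin a ⊕ Fin b') :=
    (Equiv.sumAssoc _ _ _).symm.trans
      ((Equiv.sumCongr (Equiv.sumComm _ _) (Equiv.refl _)).trans (Equiv.sumAssoc _ _ _))
  have e : ∀ p, (E1.symm.trans (sw.trans E2)) (E1 p) = E2 (sw p) := fun p => by simp
  refine ⟨E1.symm.trans (sw.trans E2), fun i => e (.inl i), fun i => e (.inr (.inl i)),
    fun i => e (.inr (.inr i)), ?_⟩
  rw [Equiv.Perm.sign_eq_prod_prod_Ioi]
  have e2 : ∀ (i : Fin n) (g : Fin n → ℤˣ), ∏ j ∈ Ioi i, g j = ∏ j, if i < j then g j else 1 :=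
    fun i g => by rw [← prod_filter]; congr 1; ext j; simp
  simp only [e2]
  rw [← E1.prod_comp]
  simp only [← E1.prod_comp, e]
  have v1 : ∀ p, (E1 p : ℕ) = Sum.elim (fun i : Fin a => (i : ℕ))
      (Sum.elim (fun i : Fin m => a + i) fun i : Fin b' => a + (m + i)) p := by
    rintro (p | p | p) <;> simp [E1, eqv]
  have v2 : ∀ p, (E2 (sw p) : ℕ) = Sum.elim (fun i : Fin a => m + (i : ℕ))
      (Sum.elim (fun i : Fin m => (i : ℕ)) fun i : Fin b' => m + (a + i)) p := by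
    rintro (p | p | p) <;> simp [E2, sw, eqv]
  have e3 : ∀ p q, (if E1 p < E1 q then (if E2 (sw p) < E2 (sw q) then (1 : ℤˣ) else -1) else 1) =
      Sum.elim (fun _ : Fin a => Sum.elim (fun _ : Fin a => (1 : ℤˣ))
        (Sum.elim (fun _ : Fin m => -1) fun _ : Fin b' => 1) q) (fun _ => 1) p := by
    intro p q
    have a1 := v1 p
    have a2 := v1 q
    have a3 := v2 p
    have a4 := v2 q
    generalize E1 p = x1 at a1 ⊢
    generalize E1 q = x2 at a2 ⊢
    generalize E2 (sw p) = x3 at a3 ⊢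
    generalize E2 (sw q) = x4 at a4 ⊢
    rcases p with p | p | p <;> rcases q with q | q | q <;>
      simp only [Sum.elim_inl, Sum.elim_inr] at a1 a2 a3 a4 ⊢ <;>
      have := p.2 <;> have := q.2 <;> split_ifs with c1 c2 <;> first | rfl | omega
  simp only [e3]
  simp [Fintype.prod_sum_type, ← pow_mul, mul_comm]

variable {F : Type u} [Field F]

theorem exists_w {n : ℕ} (σ : Equiv.Perm (Fin n)) : ∃ w : GL (Fin n) F,
    (∀ (g : GL (Fin n) F) i j, (g * w).1 i j = g.1 i (σ j)) ∧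
    (∀ (g : GL (Fin n) F) i j, (w⁻¹ * g).1 i j = g.1 (σ i) j) ∧
    ((Matrix.GeneralLinearGroup.det w : Fˣ) : F) = ((Equiv.Perm.sign σ : ℤˣ) : ℤ) := by
  refine ⟨⟨(σ⁻¹).permMatrix F, σ.permMatrix F, ?_, ?_⟩, fun g i j => ?_, fun g i j => ?_, ?_⟩
  · rw [← Matrix.permMatrix_mul]; simp
  · rw [← Matrix.permMatrix_mul]; simp
  · exact congrFun (congrFun (PEquiv.mul_toMatrix_toPEquiv g.1 σ⁻¹) i) j
  · exact congrFun (congrFun (PEquiv.toMatrix_toPEquiv_mul σ g.1) i) j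
  · simp [Matrix.det_permutation]

theorem exists_tri {a b n : ℕ} (h : a + b = n) {g : GL (Fin n) F}
    (hg : ∀ i j, g.1 (eqv h (.inr i)) (eqv h (.inl j)) = 0) : ∃ u c v, g = tri h u c v := by
  set M := g.1.submatrix (eqv h) (eqv h) with hM
  have e : M = Matrix.fromBlocks M.toBlocks₁₁ M.toBlocks₁₂ 0 M.toBlocks₂₂ := by
    conv_lhs => rw [← Matrix.fromBlocks_toBlocks M]
    congr 1
    ext i j
    exact hg i j
  have hd : M.det ≠ 0 := by
    rw [hM, Matrix.det_submatrix_equiv_self]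
    exact g.det_ne_zero
  rw [e, Matrix.det_fromBlocks_zero₂₁] at hd
  refine ⟨.mkOfDetNeZero _ (left_ne_zero_of_mul hd), M.toBlocks₁₂,
    .mkOfDetNeZero _ (right_ne_zero_of_mul hd), Units.ext ?_⟩
  rw [coe_tri]
  exact (Equiv.symm_apply_eq _).1 e

theorem exists_ext {a b n : ℕ} (h : a + b = n) (B : Matrix (Fin n) (Fin a) F)
    (hB : Function.Injective B.mulVec) :
    ∃ y : GL (Fin n) F, ∀ i j, y.1 i (eqv h (.inl j)) = B i j := by
  let J : Matrix (Fin n) (Fin a) F := (1 : Matrix (Fin n) (Fin n) F).submatrix id fun j => eqv h (.inl j)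
  have hJ : Function.Injective J.mulVecLin := fun z z' e => funext fun j => by
    simpa [J, Matrix.mulVec, dotProduct, Matrix.one_apply] using congrFun e (eqv h (.inl j))
  have hB' : Function.Injective B.mulVecLin := hB
  obtain ⟨g, hg⟩ := Submodule.exists_linearEquiv_restrict_eq
    ((LinearEquiv.ofInjective _ hJ).symm.trans (LinearEquiv.ofInjective B.mulVecLin hB'))
  obtain ⟨y, hy⟩ := Matrix.GeneralLinearGroup.toLin.surjective
    (LinearMap.GeneralLinearGroup.ofLinearEquiv g)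
  refine ⟨y, fun i j => ?_⟩
  have e1 := hg (LinearEquiv.ofInjective _ hJ (Pi.single j 1))
  rw [LinearEquiv.trans_apply, LinearEquiv.symm_apply_apply, LinearEquiv.ofInjective_apply,
    LinearEquiv.ofInjective_apply] at e1
  have e2 : ∀ z, g z = y.1.mulVec z := fun z =>
    (congrArg (fun t : LinearMap.GeneralLinearGroup F (Fin n → F) => t.1 z) hy).symm
  rw [e2, Matrix.mulVecLin_apply, Matrix.mulVecLin_apply, Matrix.mulVec_mulVec,
    Matrix.mulVec_single_one, Matrix.mulVec_single_one] at e1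
  have := congrFun e1 i
  simpa [J, Matrix.mul_apply, Matrix.one_apply] using this.symm

end Cfsg.Agent.H60.GbDer2
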