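import Mathlib
import Cfsg.Agent.H60.GbDer2A

/-! Project GB, piece DER2: the open orbit in the Mackey formula. -/

set_option autoImplicit false

namespace Cfsg.Agent.H60.GbDer2

open Cfsg Finset Cfsg.Agent.H98.GB Cfsg.Agent.H12.GbAssoc Cfsg.Agent.H2GbAvm
open scoped MatrixGroups ComplexConjugate

universe u

variable {F : Type u} [Field F] {a b m k n b' : ℕ}

theorem exists_PP (h : a + b = n) : ∃ K : Subgroup (GL (Fin n) F),
    ∀ g, g ∈ K ↔ ∃ u c v, g = tri h u c v :=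
  ⟨{ carrier := {g | ∃ u c v, g = tri h u c v}
     one_mem' := ⟨1, 0, 1, (tri_one h).symm⟩
     mul_mem' := by
       rintro _ _ ⟨u, c, v, rfl⟩ ⟨u', c', v', rfl⟩
       exact ⟨_, _, _, tri_mul ..⟩
     inv_mem' := by
       rintro _ ⟨u, c, v, rfl⟩
       exact ⟨_, _, _, tri_inv ..⟩ }, fun _ => Iff.rfl⟩

theorem mem_std (h : a + b = n) {z : Fin n → F} :
    z ∈ stdS F n a ↔ ∀ i, z (eqv h (.inr i)) = 0 := by
  refine ⟨fun hz i => hz _ (by simp [eqv]), fun hz i hi => ?_⟩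
  obtain ⟨p | p, rfl⟩ := (eqv h).surjective i
  · have := p.2
    simp [eqv] at hi
    omega
  · exact hz p

theorem mulVec_std (h : a + b = n) (g : Matrix (Fin n) (Fin n) F) {z : Fin n → F}
    (hz : z ∈ stdS F n a) (i : Fin n) :
    g.mulVec z i = ∑ j, g i (eqv h (.inl j)) * z (eqv h (.inl j)) := by
  rw [Matrix.mulVec, dotProduct, ← (eqv h).sum_comp, Fintype.sum_sum_type]
  simp [(mem_std h).1 hz]

theorem tri_std (h : a + b = n) (u c v) {z : Fin n → F} (hz : z ∈ stdS F n a) :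
    (tri h u c v).1.mulVec z ∈ stdS F n a := (mem_std h).2 fun i => by
  rw [mulVec_std h _ hz]
  simp [tri_apply]

theorem inj_B (h1 : a + b = n) (h2 : m + k = n) {x : GL (Fin n) F}
    (hx : stdS F n m ⊓ imS a x = ⊥) : Function.Injective
      (Matrix.of fun (i : Fin k) (j : Fin a) => x.1 (eqv h2 (.inr i)) (eqv h1 (.inl j))).mulVec := by
  refine (injective_iff_map_eq_zero (Matrix.mulVecLin _)).2 fun z hz => ?_
  let z' : Fin n → F := fun i => Sum.elim z 0 ((eqv h1).symm i)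
  have h0 : z' ∈ stdS F n a := (mem_std h1).2 fun i => by simp [z']
  have h5 : x.1.mulVec z' ∈ stdS F n m ⊓ imS a x := ⟨(mem_std h2).2 fun i => by
    rw [mulVec_std h1 _ h0]
    simpa [z', Matrix.mulVec, dotProduct] using congrFun hz i, z', h0, rfl⟩
  rw [hx, Submodule.mem_bot] at h5
  have h6 : z' = 0 := by
    simpa [Matrix.mulVec_mulVec] using congrArg (x⁻¹).1.mulVec h5
  exact funext fun j => by simpa [z'] using congrFun h6 (eqv h1 (.inl j))

section w

variable (h1 : a + b = n) (h2 : m + k = n) (h3 : m + b' = b) (h4 : a + b' = k)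
  {σ : Equiv.Perm (Fin n)} {w : GL (Fin n) F}
  (s1 : ∀ i, σ (eqv h1 (.inl i)) = eqv h2 (.inr (eqv h4 (.inl i))))
  (s2 : ∀ i, σ (eqv h1 (.inr (eqv h3 (.inl i)))) = eqv h2 (.inl i))
  (s3 : ∀ i, σ (eqv h1 (.inr (eqv h3 (.inr i)))) = eqv h2 (.inr (eqv h4 (.inr i))))
  (w1 : ∀ (g : GL (Fin n) F) i j, (g * w).1 i j = g.1 i (σ j))
  (w2 : ∀ (g : GL (Fin n) F) i j, (w⁻¹ * g).1 i j = g.1 (σ i) j)

include s1 s2 s3 w1 w2

theorem ident (u : GL (Fin m) F) (c' : Matrix (Fin m) (Fin b') F) (u1 : GL (Fin a) F)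
    (c1 : Matrix (Fin a) (Fin b') F) (v2 : GL (Fin b') F) :
    w⁻¹ * tri h2 u (colsE h4 (0, c')) (tri h4 u1 c1 v2) * w =
      tri h1 u1 (colsE h3 (0, c1)) (tri h3 u c' v2) := by
  refine Units.ext (Matrix.ext fun i j => ?_)
  rw [w1, w2]
  obtain ⟨p | p, rfl⟩ := (eqv h1).surjective i <;> obtain ⟨q | q, rfl⟩ := (eqv h1).surjective j
  · simp [s1, tri_apply]
  · obtain ⟨q | q, rfl⟩ := (eqv h3).surjective q <;> simp [s1, s2, s3, tri_apply, colsE_apply]
  · obtain ⟨p | p, rfl⟩ := (eqv h3).surjective p <;> simp [s1, s2, s3, tri_apply, colsE_apply]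
  · obtain ⟨p | p, rfl⟩ := (eqv h3).surjective p <;> obtain ⟨q | q, rfl⟩ := (eqv h3).surjective q <;>
      simp [s2, s3, tri_apply, colsE_apply]

theorem struct {u : GL (Fin m) F} {c0 : Matrix (Fin m) (Fin a) F} {c' : Matrix (Fin m) (Fin b') F}
    {v : GL (Fin k) F} {u' c'' v'} (e : w⁻¹ * tri h2 u (colsE h4 (c0, c')) v * w = tri h1 u' c'' v') :
    c0 = 0 ∧ ∃ u1 c1 v2, v = tri h4 u1 c1 v2 := by
  have e' : ∀ i j, (tri h2 u (colsE h4 (c0, c')) v).1 (σ (eqv h1 (.inr i))) (σ (eqv h1 (.inl j))) = 0 :=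
    fun i j => by rw [← w2, ← w1, e, tri_apply]; rfl
  refine ⟨Matrix.ext fun i j => ?_, exists_tri h4 fun i j => ?_⟩
  · simpa [s1, s2, tri_apply, colsE_apply] using e' (eqv h3 (.inl i)) j
  · simpa [s1, s3, tri_apply] using e' (eqv h3 (.inr i)) j

omit s2 s3 in
theorem S_iff (x : GL (Fin n) F) : stdS F n m ⊓ imS a x = ⊥ ↔
    ∃ t : Matrix (Fin m) (Fin k) F × GL (Fin k) F, ∃ u c v,
      x⁻¹ * tri h2 1 t.1 t.2 * w = tri h1 u c v := by
  constructor
  · intro hx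
    obtain ⟨y, hy⟩ := exists_ext h4 _ (inj_B h1 h2 hx)
    refine ⟨(colsE h4 (Matrix.of fun i j => x.1 (eqv h2 (.inl i)) (eqv h1 (.inl j)), 0), y),
      exists_tri h1 fun i j => ?_⟩
    have e : ∀ l, (tri h2 1 (colsE h4 (Matrix.of fun i j => x.1 (eqv h2 (.inl i)) (eqv h1 (.inl j)),
        0)) y).1 l (eqv h2 (.inr (eqv h4 (.inl j)))) = x.1 l (eqv h1 (.inl j)) := fun l => by
      obtain ⟨p | p, rfl⟩ := (eqv h2).surjective l <;> simp [tri_apply, colsE_apply, hy]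
    rw [w1, s1, Units.val_mul, Matrix.mul_apply]
    simp only [e]
    rw [← Matrix.mul_apply, Units.inv_mul, Matrix.one_apply_ne (by simp)]
  · rintro ⟨⟨t, y⟩, u, c, v, e⟩
    refine (Submodule.eq_bot_iff _).2 ?_
    rintro _ ⟨hz, z, h0, rfl⟩
    have e1 : (tri h2 1 t y)⁻¹ * x = w * (tri h1 u c v)⁻¹ := by rw [← e]; group
    rw [tri_inv, tri_inv] at e1
    have h5 := tri_std h2 1⁻¹ (-((1 : GL (Fin m) F)⁻¹.1 * t * y⁻¹.1)) y⁻¹ hz
    have h6 := tri_std h1 u⁻¹ (-(u⁻¹.1 * c * v⁻¹.1)) v⁻¹ h0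
    rw [H22.Cusp.natRep_apply, Matrix.mulVec_mulVec, ← Units.val_mul, e1, Units.val_mul,
      ← Matrix.mulVec_mulVec] at h5
    generalize hz1 : (tri h1 u⁻¹ (-(u⁻¹.1 * c * v⁻¹.1)) v⁻¹).1.mulVec z = z1 at h5 h6
    have h7 : ∀ i, w.1.mulVec z1 (σ i) = z1 i := fun i => by
      have : ∀ j, w.1 (σ i) j = (1 : Matrix (Fin n) (Fin n) F) i j := fun j => by
        rw [← w2, inv_mul_cancel, Units.val_one]
      simp only [Matrix.mulVec, dotProduct, this]
      simp [Matrix.one_apply]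
    have h8 : z1 = 0 := funext fun i => by
      obtain ⟨p | p, rfl⟩ := (eqv h1).surjective i
      · rw [← h7, s1]
        exact (mem_std h2).1 h5 _
      · exact (mem_std h1).1 h6 _
    have h9 : z = 0 := by
      have := congrArg (tri h1 u c v).1.mulVec hz1
      rwa [← tri_inv, Matrix.mulVec_mulVec, Units.mul_inv, Matrix.one_mulVec, h8,
        Matrix.mulVec_zero] at this
    rw [h9, map_zero]

variable [Fintype F] [DecidableEq F]

theorem key (f : GL (Fin a) F → ℂ) (f' : GL (Fin b) F → ℂ) (u : GL (Fin m) F) (v : GL (Fin k) F) :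
    ∑ c, Ef h1 f f' (w⁻¹ * tri h2 u c v * w) =
      Ef h4 f (fun v2 => ∑ c', f' (tri h3 u c' v2)) v := by
  rw [← (colsE h4).sum_comp, Fintype.sum_prod_type]
  by_cases hv : ∃ u1 c1 v2, v = tri h4 u1 c1 v2
  · obtain ⟨u1, c1, v2, rfl⟩ := hv
    rw [sum_eq_single 0, Ef_tri, mul_sum]
    · exact sum_congr rfl fun c' _ => by rw [ident h1 h2 h3 h4 s1 s2 s3 w1 w2, Ef_tri]
    · exact fun c0 _ hc => sum_eq_zero fun c' _ => Ef_zero _ _ _ fun _ _ _ e =>
        (hc (struct h1 h2 h3 h4 s1 s2 s3 w1 w2 e).1).elim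
    · simp
  · rw [Ef_zero _ _ _ fun _ _ _ e => (hv ⟨_, _, _, e⟩).elim]
    exact sum_eq_zero fun c0 _ => sum_eq_zero fun c' _ => Ef_zero _ _ _ fun _ _ _ e =>
      (hv (struct h1 h2 h3 h4 s1 s2 s3 w1 w2 e).2).elim

end w

variable [Fintype F] [DecidableEq F]

theorem Ef_conj (η : Fˣ →* ℂˣ) (h : a + b = n) {f : GL (Fin a) F → ℂ} {f' : GL (Fin b) F → ℂ}
    (hf : Tw (dl η a) f) (hf' : Tw (dl η b) f') (s t r) (g : GL (Fin n) F) :
    (dl η n (tri h s t r) : ℂ) * Ef h f f' ((tri h s t r)⁻¹ * g * tri h s t r) = Ef h f f' g := by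
  by_cases hg : ∃ u c v, g = tri h u c v
  · obtain ⟨u, c, v, rfl⟩ := hg
    have e1 := hf s (s⁻¹ * u * s)
    have e2 := hf' r (r⁻¹ * v * r)
    rw [show s * (s⁻¹ * u * s) * s⁻¹ = u by group] at e1
    rw [show r * (r⁻¹ * v * r) * r⁻¹ = v by group] at e2
    rw [tri_inv, tri_mul, tri_mul, Ef_tri, Ef_tri, dl_tri, Units.val_mul]
    conv_rhs => rw [e1, e2]
    ring
  · rw [Ef_zero h _ _ fun u c v e => (hg ⟨u, c, v, e⟩).elim, Ef_zero, mul_zero]
    refine fun u c v e => (hg ?_).elim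
    have : g = tri h s t r * tri h u c v * (tri h s t r)⁻¹ := by rw [← e]; group
    rw [tri_inv, tri_mul, tri_mul] at this
    exact ⟨_, _, _, this⟩

theorem Ef_one (h : a + b = n) {K : Subgroup (GL (Fin n) F)} [DecidablePred (· ∈ K)]
    (hK : ∀ g, g ∈ K ↔ ∃ u c v, g = tri h u c v) (g : GL (Fin n) F) :
    (if g ∈ K then (1 : ℂ) else 0) = Ef h (fun _ => 1) (fun _ => 1) g := by
  split_ifs with hg
  · obtain ⟨u, c, v, rfl⟩ := (hK g).1 hg
    rw [Ef_tri, one_mul]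
  · exact (Ef_zero _ _ _ fun u c v e => (hg ((hK g).2 ⟨u, c, v, e⟩)).elim).symm

omit [Field F] [DecidableEq F] in
theorem card_mat : Fintype.card (Matrix (Fin a) (Fin b) F) = Fintype.card F ^ (a * b) := by
  change Fintype.card (Fin a → Fin b → F) = _
  simp [← pow_mul, mul_comm]

theorem sum_Ef (h : a + b = n) (κ : ℂ) :
    ∑ g : GL (Fin n) F, Ef h (fun _ => 1) (fun _ => κ) g = nP F a b * κ := by
  simp only [Ef]
  rw [sum_comm]
  refine (sum_congr rfl fun u _ => sum_comm.trans (sum_congr rfl fun c _ => sum_comm)).trans ?_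
  simp only [sum_ite_eq', mem_univ, if_true, sum_const, card_univ, card_mat, nsmul_eq_mul, nP]
  push_cast
  ring

theorem cmpS_eq (S : GL (Fin n) F → Prop) [DecidablePred S] (η : Fˣ →* ℂˣ) (h : a + b = n)
    (f : GL (Fin a) F → ℂ) (f' : GL (Fin b) F → ℂ) (g : GL (Fin n) F) :
    cmpS S η h f f' g = (nP F a b)⁻¹ *
      ∑ x, if S x then (dl η n x : ℂ) * Ef h f f' (x⁻¹ * g * x) else 0 := by
  rw [cmpS, nP]
  congr 1
  refine sum_congr rfl fun x _ => ?_
  by_cases hx : S x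
  · simp only [hx, Ef, mul_sum, mul_ite, mul_zero, true_and, mul_assoc, if_true]
    refine sum_congr rfl fun u _ => sum_congr rfl fun c _ => sum_congr rfl fun v _ => ?_
    refine if_congr ⟨fun e => ?_, fun e => ?_⟩ rfl rfl
    · rw [e]; group
    · rw [← e]; group
  · simp [hx]

omit [DecidableEq F] in
theorem sum_shift (h : m + k = n) (Φ : GL (Fin n) F → ℂ) (t u v y) :
    ∑ c, Φ ((tri h 1 t y)⁻¹ * tri h u c v * tri h 1 t y) = ∑ c, Φ (tri h u c (y⁻¹ * v * y)) := by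
  have hb : Function.Bijective fun c : Matrix (Fin m) (Fin k) F =>
      c * y.1 + (u.1 * t - t * (y⁻¹ * v * y).1) :=
    Finite.injective_iff_bijective.1 fun x x' hx => by
      simpa [Matrix.mul_assoc] using congrArg (· * (y⁻¹).1) (add_right_cancel hx)
  rw [← hb.sum_comp fun c => Φ (tri h u c (y⁻¹ * v * y))]
  refine sum_congr rfl fun c _ => congrArg Φ ?_
  rw [mul_assoc, inv_mul_eq_iff_eq_mul, tri_mul, tri_mul]
  congr 1
  · simp
  · simp only [Units.val_one, Matrix.one_mul]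
    abel
  · group

theorem sum_H (h : m + k = n) (h0 : Matrix (Fin m) (Fin k) F × GL (Fin k) F)
    (Φ : GL (Fin n) F → ℂ) :
    ∑ t : Matrix (Fin m) (Fin k) F × GL (Fin k) F, Φ (tri h 1 h0.1 h0.2 * tri h 1 t.1 t.2) =
      ∑ t : Matrix (Fin m) (Fin k) F × GL (Fin k) F, Φ (tri h 1 t.1 t.2) := by
  have hb : Function.Bijective fun t : Matrix (Fin m) (Fin k) F × GL (Fin k) F =>
      (t.1 + h0.1 * t.2.1, h0.2 * t.2) :=
    Finite.injective_iff_bijective.1 fun x x' hx => by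
      obtain ⟨e1, e2⟩ := Prod.mk.inj hx
      have e3 := mul_left_cancel e2
      rw [e3] at e1
      exact Prod.ext (add_right_cancel e1) e3
  rw [← hb.sum_comp fun t => Φ (tri h 1 t.1 t.2)]
  refine sum_congr rfl fun t _ => congrArg Φ ?_
  rw [tri_mul]
  simp

theorem Ef_perp (h3 : m + b' = b) (h4 : a + b' = k) (P : GL (Fin m) F → ℂ) (f : GL (Fin a) F → ℂ)
    (f' : GL (Fin b) F → ℂ) (g : GL (Fin k) F) :
    Ef h4 f (perp1 h3 P f') g = (Nat.card (GL (Fin m) F) : ℂ)⁻¹ *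
      ((Fintype.card F ^ (m * b') : ℕ) : ℂ)⁻¹ *
        ∑ u, conj (P u) * Ef h4 f (fun v2 => ∑ c', f' (tri h3 u c' v2)) g := by
  by_cases hg : ∃ u c v, g = tri h4 u c v
  · obtain ⟨u1, c1, v2, rfl⟩ := hg
    simp only [Ef_tri, perp1, classInner, res, mul_sum]
    simp only [sum_mul, mul_sum]
    exact sum_congr rfl fun u _ => sum_congr rfl fun c _ => by ring
  · have : ∀ f'', Ef h4 f f'' g = 0 := fun f'' =>
      Ef_zero _ _ _ fun u c v e => (hg ⟨u, c, v, e⟩).elim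
    simp [this]

theorem der2 (hT : TWCStmt.{u}) : DER2Stmt.{u} := by
  intro F _ _ _ η a b m k n h1 h2 P f f' hP hf hf'
  classical
  refine ⟨fun b' h3 h4 => ?_, fun hb => ?_⟩
  · obtain ⟨σ, s1, s2, s3, hσ⟩ := exists_perm h1 h2 h3 h4
    obtain ⟨w, w1, w2, hw⟩ := exists_w (F := F) σ
    obtain ⟨K, hK⟩ := exists_PP (F := F) h1
    funext v
    set T : GL (Fin n) F → ℂ := fun x => (dl η n x : ℂ) *
      ∑ u, conj (P u) * ∑ c, Ef h1 f f' (x⁻¹ * tri h2 u c v * x) with hTd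
    have hTK : ∀ x, ∀ p ∈ K, T (x * p) = T x := fun x p hp => by
      obtain ⟨s, t, r, rfl⟩ := (hK p).1 hp
      simp only [hTd, map_mul, Units.val_mul, mul_sum]
      refine sum_congr rfl fun u _ => sum_congr rfl fun c _ => ?_
      rw [← Ef_conj η h1 hf hf' s t r (x⁻¹ * tri h2 u c v * x),
        show (x * tri h1 s t r)⁻¹ * tri h2 u c v * (x * tri h1 s t r) =
          (tri h1 s t r)⁻¹ * (x⁻¹ * tri h2 u c v * x) * tri h1 s t r by group]
      ring
    have hD := dcoset (fun t : Matrix (Fin m) (Fin k) F × GL (Fin k) F => tri h2 1 t.1 t.2)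
      (sum_H h2) K w T hTK (fun x => stdS F n m ⊓ imS a x = ⊥) fun x => by
        simp only [hK]; exact S_iff h1 h2 h4 s1 w1 w2 x
    have hN : ∑ t : Matrix (Fin m) (Fin k) F × GL (Fin k) F,
        (if w⁻¹ * tri h2 1 t.1 t.2 * w ∈ K then (1 : ℂ) else 0) =
        nP F a b' * ((Fintype.card F ^ (m * b') : ℕ) : ℂ) := by
      simp only [Ef_one h1 hK]
      rw [Fintype.sum_prod_type_right, ← sum_Ef h4]
      refine sum_congr rfl fun y _ => ?_
      rw [key h1 h2 h3 h4 s1 s2 s3 w1 w2]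
      simp [card_mat]
    have hK1 : ∑ x, (if x ∈ K then (1 : ℂ) else 0) = nP F a b := by
      simp only [Ef_one h1 hK, sum_Ef, mul_one]
    have hl : ∀ u, (dl η n w : ℂ) * conj (P u) = conj (P u) := fun u => by
      by_cases h0 : P = 0
      · simp [h0]
      have e1 : Matrix.GeneralLinearGroup.det w = ((-1) ^ a) ^ m := Units.ext (by
        rw [hw, hσ]; simp [← pow_mul])
      have e2 := DFunLike.congr_fun ((hT F η).2.2.2.2 m P hP h0) ((-1) ^ a)
      rw [dl, MonoidHom.comp_apply, e1, map_pow, ← MonoidHom.pow_apply, e2]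
      simp
    have hTw : ∀ t y, T (tri h2 1 t y * w) = (dl η k y : ℂ) *
        ∑ u, conj (P u) * Ef h4 f (fun v2 => ∑ c', f' (tri h3 u c' v2)) (y⁻¹ * v * y) := fun t y => by
      have e : ∀ u, ∑ c, Ef h1 f f' ((tri h2 1 t y * w)⁻¹ * tri h2 u c v * (tri h2 1 t y * w)) =
          Ef h4 f (fun v2 => ∑ c', f' (tri h3 u c' v2)) (y⁻¹ * v * y) := fun u => by
        refine Eq.trans ?_ (key h1 h2 h3 h4 s1 s2 s3 w1 w2 f f' u (y⁻¹ * v * y))
        refine Eq.trans ?_ (sum_shift h2 (fun g => Ef h1 f f' (w⁻¹ * g * w)) t u v y)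
        exact sum_congr rfl fun c _ => congrArg (Ef h1 f f') (by group)
      simp only [hTd, e]
      rw [map_mul, dl_tri, map_one, one_mul, Units.val_mul, mul_assoc, mul_sum]
      simp only [← mul_assoc, hl]
    have eL : perp1 h2 P (cmpS (fun x => stdS F n m ⊓ imS a x = ⊥) η h1 f f') v =
        (Nat.card (GL (Fin m) F) : ℂ)⁻¹ * ((Fintype.card F ^ (m * k) : ℕ) : ℂ)⁻¹ * (nP F a b)⁻¹ *
          ∑ x, if stdS F n m ⊓ imS a x = ⊥ then T x else 0 := by
      simp only [perp1, classInner, res, cmpS_eq, hTd, mul_sum, sum_mul]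
      refine (sum_congr rfl fun u _ => sum_comm).trans (sum_comm.trans (sum_congr rfl fun x _ => ?_))
      split_ifs
      · simp only [mul_sum]
        exact sum_congr rfl fun u _ => sum_congr rfl fun c _ => by ring
      · simp
    rw [hN, hK1, Fintype.sum_prod_type] at hD
    simp only [hTw, sum_const, card_univ, card_mat, nsmul_eq_mul] at hD
    have p1 : ∀ a b, nP F a b ≠ 0 := fun a b => by simp [nP]
    have p2 : ∀ j, ((Fintype.card F ^ j : ℕ) : ℂ) ≠ 0 := fun j => by simp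
    rw [eL, cmp_eq, (eq_inv_mul_iff_mul_eq₀ (mul_ne_zero (p1 _ _) (p2 _))).2 hD, ← nP]
    simp only [Ef_perp, mul_left_comm (dl η k _ : ℂ), ← mul_sum]
    have := p1 a b
    have := p1 a b'
    have := p2 (m * k)
    have := p2 (m * b')
    field_simp
  · funext g
    rw [cmpS_eq, sum_eq_zero, mul_zero, Pi.zero_apply]
    refine fun x _ => if_neg fun hx => ?_
    have := LinearMap.finrank_le_finrank_of_injective (f := Matrix.mulVecLin _) (inj_B h1 h2 hx)
    simp only [Module.finrank_fin_fun] at this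
    omega

end Cfsg.Agent.H60.GbDer2
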