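import Cfsg.Agent.H50.L81Defs

/-! Root data for the element of order `40` whose centralizer has four factors `A₁`. -/

set_option autoImplicit false
set_option maxRecDepth 100000

namespace Cfsg.Agent.H60.L81Date

open Equiv Cfsg.Lie H37 H40 H34 H29 Finset H50.E83 H50.L81

section
variable {D : ChevalleyDatum} {C : Cert D} {f : Fin D.nroots → ℤ} {s : ℕ} {a : List ℕ}

theorem rp_word (hs : 0 < s) {A : List (List ℤ)} (hA : A.length = D.rank ∧ ∀ i < D.rank,
    ∀ j < D.rank, gt A i j = D.cartan i (D.simple j)) (l : List (Fin D.rank)) (h : Rp C s a f)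
    (hf : IsAdd C.R f) :
    Rp C s ((l.map Fin.val).foldl (svN s A) a) fun r => f (C.S.word l r) := by
  induction l generalizing a f with
  | nil => exact h
  | cons i l ih =>
    have h1 := ih (a := svN s A a i) (f := fun r => f (C.R.τ (C.R.simple i) r)) (fun j => by
      simp [svN, hA.1, cast_res hs dvd_rfl, hf.τ, ← h _, hA.2, RS.pair_simple_simple, C.A_eq])
      (hf.comp (C.R.τ_mem_W (C.R.simple i)))
    rw [RS.τ_simple] at h1
    rw [SignedSys.word_cons]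
    exact h1

theorem mulw (hs : 0 < s) {A : List (List ℤ)} (hA : A.length = D.rank ∧ ∀ i < D.rank,
    ∀ j < D.rank, gt A i j = D.cartan i (D.simple j)) (l : List (Fin D.rank)) (a : List ℕ)
    (h : ∀ j < D.rank, ((l.map Fin.val).foldl (svN s A) a).getD j 0 % s = 3 * a.getD j 0 % s)
    (r : Fin D.nroots) : (vN C a (C.S.word l r) : ZMod s) = 3 * vN C a r := by
  have h1 := (rp_word hs hA l (rp_vN C s a) (isAdd_vN C a)).vN_eq
    ((isAdd_vN C a).comp (C.S.word_mem_W l)) r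
  rw [← h1]
  simp only [vN, Int.cast_sum, Int.cast_mul, Int.cast_natCast, Finset.mul_sum]
  refine Finset.sum_congr rfl fun j _ => ?_
  rw [(ZMod.natCast_eq_natCast_iff' _ _ _).2 (h j j.2)]
  push_cast
  ring

theorem word_val (l : List (Fin D.rank)) (r : Fin D.nroots) :
    (C.S.word l r : ℕ) = (l.map Fin.val).foldr D.reflectRoot r := by
  induction l with
  | nil => rfl
  | cons i l ih =>
    rw [SignedSys.word_cons, Perm.mul_apply, List.map_cons, List.foldr_cons, ← ih, ← C.refl_val]; rfl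

/-- An invariant of roots under the Weyl group elements preserving `g`. -/
theorem sum_inv (g : Fin D.nroots → ℤ) {w : Perm (Fin D.nroots)} (hw : w ∈ C.S.W)
    (hg : ∀ r, g (w r) = g r) (x : Fin D.nroots) :
    ∑ b, C.R.pair (w x) b ^ 2 * g b = ∑ b, C.R.pair x b ^ 2 * g b := by
  rw [← Equiv.sum_comp w]
  exact sum_congr rfl fun b _ => by rw [C.R.pair_W hw, hg]

theorem sum_neg (g : Fin D.nroots → ℤ) (x : Fin D.nroots) :
    ∑ b, C.R.pair (C.R.neg x) b ^ 2 * g b = ∑ b, C.R.pair x b ^ 2 * g b :=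
  sum_congr rfl fun b _ => by rw [C.R.pair_neg_left, neg_sq]

end

theorem hA : H34.cartE8.length = chevE8.rank ∧ ∀ i < chevE8.rank,
    ∀ j < chevE8.rank, gt H34.cartE8 i j = chevE8.cartan i (chevE8.simple j) := by decide +kernel

theorem zero_tab : ∀ r < 240, (∑ j : Fin 8, gt rcE8 r j * ((rep 4).getD j 0 : ℕ)) % 40 = 0 ↔
    ∃ i : Fin 4, r = chevE8.simple (![1, 2, 6, 4] i : Fin 8) ∨
      r = chevE8.neg (chevE8.simple (![1, 2, 6, 4] i : Fin 8)) := by decide +kernel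

theorem pair_tab : ∀ i j : Fin 4, i ≠ j →
    chevE8.pairing (chevE8.simple (![1, 2, 6, 4] i : Fin 8))
      (chevE8.simple (![1, 2, 6, 4] j : Fin 8)) = 0 ∧
    chevE8.simple (![1, 2, 6, 4] i : Fin 8) ≠ chevE8.simple (![1, 2, 6, 4] j : Fin 8) ∧
    chevE8.simple (![1, 2, 6, 4] i : Fin 8) ≠
      chevE8.neg (chevE8.simple (![1, 2, 6, 4] j : Fin 8)) := by decide +kernel

theorem word_tab : ∃ l : List (Fin chevE8.rank), (∀ j < chevE8.rank,
    ((l.map Fin.val).foldl (svN 40 H34.cartE8) (rep 4)).getD j 0 % 40 =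
      3 * (rep 4).getD j 0 % 40) ∧ ∀ i : Fin 4,
    (l.map Fin.val).foldr chevE8.reflectRoot (chevE8.simple (![1, 2, 6, 4] i : Fin 8)) =
      chevE8.simple (![1, 2, 6, 4] (i + 1) : Fin 8) :=
  ⟨([3, 2, 1, 3, 4, 5, 6, 7, 3, 2, 1, 3, 4, 5, 6, 0, 2, 3, 4, 5, 1, 3, 4, 2, 3, 0, 2, 1, 3, 4, 5, 6,
    7, 0, 2, 3, 4, 5, 1, 3, 4, 2, 3, 0, 2, 1, 3, 4, 5, 6, 5, 4, 3, 2, 1, 3, 4, 5, 0, 2, 3, 4, 1, 3,
    2, 0] : List (Fin 8)), by decide +kernel⟩

theorem cnt_tab : ∀ i : Fin 4, ∑ b ∈ range 240, chevE8.cartan (![1, 2, 6, 4] i : Fin 8) b ^ 2 *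
    (if (∑ j : Fin 8, gt rcE8 b j * ((rep 4).getD j 0 : ℕ)) % 40 ∈ ([2, 5, 35, 38] : List ℤ)
      then 1 else 0) = ((4 * (i : ℕ) : ℕ) : ℤ) := by decide +kernel

theorem ff_eq (r : Rt) : ff 4 r = ∑ j : Fin 8, gt rcE8 r j * ((rep 4).getD j 0 : ℕ) := by
  simp only [ff, vN, rc_eq C8 tabOKE8]
  rfl

theorem aa_val (i : Fin 4) : (aa i : ℕ) = chevE8.simple (![1, 2, 6, 4] i : Fin 8) :=
  C8.simple_val _

theorem ng_val (r : Rt) : (ng r : ℕ) = chevE8.neg r := C8.neg_val r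

theorem zeros (r : Rt) : (ff 4 r : ZMod 40) = 0 ↔ ∃ i, r = aa i ∨ r = ng (aa i) := by
  rw [ZMod.intCast_zmod_eq_zero_iff_dvd, Int.dvd_iff_emod_eq_zero, ff_eq]
  refine (zero_tab r r.2).trans (exists_congr fun i => ?_)
  rw [Fin.ext_iff, Fin.ext_iff, ng_val, aa_val]

theorem cnt (i : Fin 4) : ∑ b, C8.R.pair (aa i) b ^ 2 *
    (if ff 4 b % 40 ∈ ([2, 5, 35, 38] : List ℤ) then 1 else 0) = ((4 * (i : ℕ) : ℕ) : ℤ) := by
  rw [← cnt_tab i, sum_range]
  refine sum_congr rfl fun b _ => ?_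
  have h : C8.R.pair (aa i) b = chevE8.cartan (![1, 2, 6, 4] i : Fin 8) b :=
    (C8.R.pair_simple_left _ b).trans (C8.wt_eq _ _)
  rw [h, ff_eq]

theorem date : DateStmt := by
  refine ⟨zeros, fun i j h => ?_, ?_, fun w hw h i => ?_⟩
  · obtain ⟨h1, h2, h3⟩ := pair_tab i j h
    refine ⟨?_, fun e => h2 ?_, fun e => h3 ?_⟩
    · rw [pair_eq C8, aa_val, aa_val, h1]
    · rw [← aa_val, ← aa_val, e]
    · rw [← aa_val, ← aa_val, ← ng_val, ← e]
  · obtain ⟨l, h1, h2⟩ := word_tab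
    refine ⟨C8.S.word l, C8.S.word_mem_W l, mulw (by decide) hA l _ h1, fun i => Fin.ext ?_⟩
    rw [word_val, aa_val, aa_val, h2]
  · have hg : ∀ r, (if ff 4 (w r) % 40 ∈ ([2, 5, 35, 38] : List ℤ) then 1 else 0 : ℤ) =
        if ff 4 r % 40 ∈ ([2, 5, 35, 38] : List ℤ) then 1 else 0 := fun r => by
      have h1 := h r
      generalize ff 4 (w r) = x at h1 ⊢
      generalize ff 4 r = y at h1 ⊢
      rw [← Int.cast_neg, ZMod.intCast_eq_intCast_iff_dvd_sub] at h1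
      refine if_congr ?_ rfl rfl
      simp only [List.mem_cons, List.not_mem_nil, or_false]
      omega
    have h1 := sum_inv (C := C8)
      (fun r => if ff 4 r % 40 ∈ ([2, 5, 35, 38] : List ℤ) then 1 else 0) hw hg (aa i)
    obtain ⟨j, hj⟩ := (zeros (w (aa i))).1 (by
      rw [h, (zeros (aa i)).2 ⟨i, Or.inl rfl⟩, neg_zero])
    have h2 : j = i := by
      rw [cnt i] at h1
      rcases hj with e | e
      · rw [e, cnt j] at h1
        exact Fin.ext (by omega)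
      · rw [e, sum_neg, cnt j] at h1
        exact Fin.ext (by omega)
    rwa [h2] at hj

end Cfsg.Agent.H60.L81Date
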