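import Cfsg.Agent.H73.LPDefs
import Cfsg.Agent.S0018
import Cfsg.Agent.S0105
import Cfsg.Agent.H4.CoprimeAction
import Cfsg.Agent.H8.SylowIn
import Cfsg.Agent.H3.Cores

/-! Two local reductions for groups of order `p²(p⁴-1)/2`. -/

set_option autoImplicit false

universe u

namespace Cfsg.Agent.H60.LP

open Cfsg Subgroup H8 H73.LP
open scoped Pointwise

variable {G : Type u} [Group G] [Finite G] {p r : ℕ}

/-- A Sylow `r`-subgroup of a `P`-invariant `p'`-group that is centralized by `P`. -/
theorem exists_cent [Fact p.Prime] [Fact r.Prime] {P M : Subgroup G} (hP : IsPGroup p P)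
    (hM : ¬ p ∣ Nat.card M) (hn : P ≤ normalizer (M : Set G)) (sig : Sig P r) :
    ∃ U, IsSylowIn r U M ∧ U ≤ centralizer (P : Set G) := by
  have := hP.isNilpotent
  obtain ⟨k, hk⟩ := IsPGroup.iff_card.1 hP
  obtain ⟨U, hU⟩ := H4.exists_invariant_sylow hn
    (hk ▸ ((Nat.Prime.coprime_iff_not_dvd Fact.out).2 hM).pow_left k) (.inl inferInstance) r
  have h := isSylowIn_map_subtype U
  exact ⟨_, h, le_centralizer_iff.1 (sig _ h.isPGroup hU)⟩

theorem pSolv : PSolv.{u} := by
  intro H _ _ p r _ P hP ⟨n, hn⟩ hr hrp sig hd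
  have : Fact r.Prime := ⟨hr⟩
  set K := derivedSeries H n
  have : K.Normal := derivedSeries_normal H n
  have hs := QuotientGroup.mk'_surjective K
  have : Group.IsSolvable (H ⧸ K) := ⟨n, by
    rw [← map_derivedSeries_eq hs n, Subgroup.map_eq_bot_iff, QuotientGroup.ker_mk']⟩
  have hc : IsMulCommutative (P.mapSurjective hs : Subgroup (H ⧸ K)) :=
    inferInstanceAs (IsMulCommutative ((P : Subgroup H).map (QuotientGroup.mk' K)))
  have h1 := S0018.result p (P.mapSurjective hs) hc
  set M := (pPrimeCore p (H ⧸ K)).comap (QuotientGroup.mk' K) with hM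
  have hMn : M.Normal := inferInstance
  have hMp : ¬ p ∣ Nat.card M := by
    rw [hM, H3.card_comap_mk', (Fact.out : p.Prime).dvd_mul]
    exact fun h => h.elim hn (H3.not_dvd_card_pPrimeCore p _)
  have hY : ((P : Subgroup H) ⊔ M).Normal := by
    have h2 := h1.comap (QuotientGroup.mk' K)
    have hK : K ≤ M := by
      have := ker_le_comap (QuotientGroup.mk' K) (pPrimeCore p (H ⧸ K))
      rwa [QuotientGroup.ker_mk'] at this
    rwa [← comap_sup_eq _ _ _ hs, Sylow.coe_mapSurjective, comap_map_eq, QuotientGroup.ker_mk',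
      ← hM, sup_assoc, sup_of_le_right hK] at h2
  have h3 : normalizer (P : Set H) ⊔ M = ⊤ := by
    rw [eq_top_iff, ← Sylow.normalizer_sup_eq_top' (N := (P : Subgroup H) ⊔ M) P le_sup_left]
    exact sup_le le_sup_left (sup_le (le_sup_of_le_left (le_normalizer (H := (P : Subgroup H))))
      le_sup_right)
  obtain ⟨U, hU, hUc⟩ := exists_cent (r := r) P.2 hMp le_normalizer_of_normal sig
  have h4 := H3.card_sup_mul_card_inf (normalizer (P : Set H)) M
  have h5 : U ≤ normalizer (P : Set H) ⊓ M :=
    le_inf (hUc.trans (centralizer_le_normalizer _)) hU.le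
  rw [h3, card_top, ← (normalizer (P : Set H)).card_mul_index, mul_assoc,
    Nat.mul_right_inj Nat.card_pos.ne', ← H3.card_mul_relIndex hU.le, ← H3.card_mul_relIndex h5,
    mul_left_comm, Nat.mul_right_inj Nat.card_pos.ne', ← P.card_eq_index_normalizer] at h4
  exact hU.not_dvd (h4 ▸ hd.mul_right _)

/-- An element of order `p` in `P` centralizing a Sylow `r`-subgroup. -/
theorem exists_z [hp : Fact p.Prime] [Fact r.Prime] (hrp : r ≠ p) (P : Sylow p G)
    {L : Subgroup G} [L.Normal] (hL : IsPGroup p (G ⧸ L)) (hd : p ∣ L.index)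
    (sig : ∀ X : Subgroup G, IsPGroup p X → Sig X r) :
    ∃ z ∈ (P : Subgroup G), orderOf z = p ∧ ¬ r ∣ (centralizer ({z} : Set G)).index := by
  obtain ⟨U⟩ : Nonempty (Sylow r G) := inferInstance
  have hUL : (U : Subgroup G) ≤ L := by
    have := IsPGroup.disjoint_of_ne r p hrp _ ⊤ (U.2.map (QuotientGroup.mk' L)) (hL.to_subgroup ⊤)
    rwa [disjoint_top, Subgroup.map_eq_bot_iff, QuotientGroup.ker_mk'] at this
  have h1 := Sylow.normalizer_sup_eq_top' U hUL
  rw [← relIndex_top_right, ← h1, relIndex_sup_right] at hd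
  obtain ⟨⟨y, hy⟩, ho⟩ := exists_prime_orderOf_dvd_card' p (hd.trans (relIndex_dvd_card _ _))
  rw [← Subgroup.orderOf_coe] at ho
  have hX : IsPGroup p (zpowers y) := IsPGroup.of_card (n := 1) (by
    rw [Nat.card_zpowers, pow_one]; exact ho)
  have hc := sig _ hX _ U.2 (zpowers_le.2 hy) (mem_zpowers y)
  obtain ⟨g, -, hg⟩ := (isSylowIn_top P).exists_conj_le hX le_top
  refine ⟨g * y * g⁻¹, hg (conj_mem_conj_smul.2 (mem_zpowers y)),
    ((MulAut.conj g).orderOf_eq y).trans ho, fun h => U.not_dvd_index ?_⟩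
  rw [← index_conj_smul _ g]
  refine h.trans (index_dvd_of_le ?_)
  rintro _ ⟨u, hu, rfl⟩
  exact mem_centralizer_singleton_iff.2 (Commute.map (hc u hu) (MulAut.conj g))

theorem pAlpha : PAlpha.{u} := by
  intro G _ _ p hp P hP hO sig x hx hx1 hN
  have hc : IsMulCommutative (P : Subgroup G) := IsPGroup.isMulCommutative_of_card_eq_prime_sq hP
  have cm : ∀ a ∈ (P : Subgroup G), (P : Subgroup G) ≤ centralizer {a} := fun a ha b hb =>
    mem_centralizer_singleton_iff.2 (congrArg Subtype.val (hc.is_comm.comm ⟨b, hb⟩ ⟨a, ha⟩))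
  obtain ⟨L, hL, ⟨e⟩⟩ := S0105.result P hc
  have hq : IsPGroup p (G ⧸ L) := (P.2.to_inf_left).of_equiv e.symm
  have hd : p ∣ L.index := by
    rw [index, Nat.card_congr e.toEquiv]
    have hm : x ∈ (P : Subgroup G) ⊓ centralizer (normalizer (P : Set G) : Set G) :=
      ⟨hx, fun g hg => mem_centralizer_singleton_iff.1 (hN hg)⟩
    exact ((P.2.to_inf_left).dvd_orderOf (g := ⟨x, hm⟩) fun h => hx1 (congrArg Subtype.val h)).trans
      (orderOf_dvd_natCard _)
  have key : ∀ r : ℕ, r.Prime → ¬ r ∣ (centralizer ({x} : Set G)).index := by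
    intro r hr hrx
    by_cases hrp : r = p
    · rw [hrp] at hrx
      exact P.not_dvd_index (hrx.trans (index_dvd_of_le (cm x hx)))
    have : Fact r.Prime := ⟨hr⟩
    obtain ⟨z, hz, ho, hzr⟩ := exists_z hrp P hq hd fun X hX => sig X r hX hr hrp
    by_cases hxz : x ∈ zpowers z
    · refine hzr (hrx.trans (index_dvd_of_le fun g hg => ?_))
      obtain ⟨k, rfl⟩ := hxz
      exact mem_centralizer_singleton_iff.2
        (Commute.zpow_right (mem_centralizer_singleton_iff.1 hg) k)
    have hgen : zpowers z ⊔ zpowers x = P := by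
      have hle : zpowers z ⊔ zpowers x ≤ P := sup_le (zpowers_le.2 hz) (zpowers_le.2 hx)
      obtain ⟨i, hi, ei⟩ := (Nat.dvd_prime_pow hp.out).1 (hP ▸ card_dvd_of_le hle)
      refine eq_of_le_of_card_ge hle ?_
      rw [hP, ei]
      refine Nat.pow_le_pow_right hp.out.pos (not_lt.1 fun h => hxz ?_)
      have : zpowers z = zpowers z ⊔ zpowers x := eq_of_le_of_card_ge le_sup_left (by
        rw [ei, Nat.card_zpowers, ho]
        exact (Nat.pow_le_pow_right hp.out.pos (by omega : i ≤ 1)).trans (pow_one p).le)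
      rw [this]
      exact mem_sup_right (mem_zpowers x)
    set C := centralizer ({z} : Set G)
    have hPC : (P : Subgroup G) ≤ C := cm z hz
    have hB : normalizer (P.subtype hPC : Set C) ≤ centralizer (P.subtype hPC : Set C) := by
      intro g hg a ha
      have h1 : (g : G) ∈ normalizer (P : Set G) := mem_normalizer_fintype fun b hb =>
        (mem_normalizer_iff.1 hg ⟨b, hPC hb⟩).1 hb
      have h2 : (P : Subgroup G) ≤ centralizer {(g : G)} := by
        rw [← hgen]
        exact sup_le (zpowers_le.2 (mem_centralizer_singleton_iff.2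
          (mem_centralizer_singleton_iff.1 g.2).symm)) (zpowers_le.2
          (mem_centralizer_singleton_iff.2 (mem_centralizer_singleton_iff.1 (hN h1)).symm))
      exact Subtype.ext (mem_centralizer_singleton_iff.1 (h2 ha))
    have hK := MonoidHom.ker_transferSylow_isComplement' (P.subtype hPC) hB
    set M := (MonoidHom.transferSylow (P.subtype hPC) hB).ker
    have hMp : ¬ p ∣ Nat.card (M.map C.subtype) := by
      rw [H3.card_map_subtype, ← hK.index_eq_card]
      exact (P.subtype hPC).not_dvd_index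
    have hMn : C ≤ normalizer ((M.map C.subtype : Subgroup G) : Set G) := by
      have := le_normalizer_map (H := M) C.subtype
      rwa [normalizer_eq_top, ← MonoidHom.range_eq_map, range_subtype] at this
    obtain ⟨U, hU, hUc⟩ := exists_cent (r := r) P.2 hMp (hPC.trans hMn) (sig _ r P.2 hr hrp)
    have h3 : (M.map C.subtype).relIndex C = p ^ 2 := by
      rw [relIndex, subgroupOf, comap_map_eq_self_of_injective C.subtype_injective,
        hK.symm.index_eq_card, Sylow.coe_subtype, Nat.card_congr (subgroupOfEquivOfLe hPC).toEquiv,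
        hP]
    have h4 : U ≤ centralizer {x} := hUc.trans (centralizer_le (Set.singleton_subset_iff.2 hx))
    have h5 := hrx.trans (index_dvd_of_le h4)
    rw [← relIndex_mul_index hU.le, ← relIndex_mul_index (map_subtype_le M), h3, hr.dvd_mul,
      hr.dvd_mul] at h5
    rcases h5 with h | h | h
    exacts [hU.not_dvd h, hrp ((Nat.prime_dvd_prime_iff_eq hr hp.out).1 (hr.dvd_of_dvd_pow h)),
      hzr h]
  have h1 : centralizer ({x} : Set G) = ⊤ :=
    index_eq_one.1 (Nat.eq_one_iff_not_exists_prime_dvd.2 key)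
  have : (zpowers x).Normal := ⟨by
    rintro _ ⟨k, rfl⟩ g
    have : Commute g x := mem_centralizer_singleton_iff.1 (h1 ▸ mem_top g)
    simp only
    rw [(this.zpow_right k).eq, mul_inv_cancel_right]
    exact zpow_mem_zpowers x k⟩
  have := H3.le_pCore (P.2.to_le (zpowers_le.2 hx))
  rw [hO] at this
  exact hx1 (this (mem_zpowers x))

end Cfsg.Agent.H60.LP
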