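import Mathlib
import Cfsg.Agent.H54.O84Defs

/-!
# The transversal meets each coset once
-/

set_option autoImplicit false
set_option maxRecDepth 100000

namespace Cfsg.Agent.H60.O84Sep

open Cfsg.Agent.H54.O84 Equiv Cfsg.Lie H37 H40 H34 H29

/-- The table of an element of the transversal. -/
noncomputable def cF (i : Fin 2) (x : Bool × Fin (cL i).length) (r : ℕ) : ℕ :=
  if x.1 then piF i (((cL i).get x.2).foldr (fun i s => rf (i % 8) s) r)
  else ((cL i).get x.2).foldr (fun i s => rf (i % 8) s) r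

/-- The table of its inverse. -/
noncomputable def cI (i : Fin 2) (x : Bool × Fin (cL i).length) (t : ℕ) : ℕ :=
  ((cL i).get x.2).foldl (fun s i => rf (i % 8) s) (if x.1 then piF i (239 - t) else t)

theorem eqns_cF : True := by have := @cF.eq_1; trivial
theorem eqns_cI : True := by have := @cI.eq_1; trivial

theorem cT_val (i : Fin 2) (x : Bool × Fin (cL i).length) (r : Rt) :
    (cT i x r : ℕ) = cF i x r := by
  unfold cT cF
  split_ifs
  · rw [Perm.mul_apply, π_val, wd_val]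
  · rw [one_mul, wd_val]

theorem cI_ok : ∀ (i : Fin 2) (x : Bool × Fin (cL i).length), ∀ t ∈ [130, 162, 123],
    cI i x t < 240 ∧ cF i x (cI i x t) = t := by decide +kernel

set_option synthInstance.maxSize 1000 in
theorem sig_inj : ∀ (i : Fin 2) (x y : Bool × Fin (cL i).length),
    (cI i x 130 ∈ d0L ↔ cI i y 130 ∈ d0L) →
    rcN (cI i x 162) 0 % 2 = rcN (cI i y 162) 0 % 2 →
    rcN (cI i x 162) 5 % 2 = rcN (cI i y 162) 5 % 2 →
    rcN (cI i x 123) 0 % 2 = rcN (cI i y 123) 0 % 2 →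
    rcN (cI i x 123) 5 % 2 = rcN (cI i y 123) 5 % 2 → x = y := by decide +kernel

theorem mv (i : Fin 2) (x y : Bool × Fin (cL i).length) (t : ℕ) (ht : t ∈ [130, 162, 123]) :
    ((cT i x)⁻¹ * cT i y) ⟨cI i y t, (cI_ok i y t ht).1⟩ = ⟨cI i x t, (cI_ok i x t ht).1⟩ := by
  rw [Perm.mul_apply, Perm.inv_eq_iff_eq]
  exact Fin.ext (by rw [cT_val, cT_val]; exact (cI_ok i y t ht).2.trans (cI_ok i x t ht).2.symm)

theorem sep (inv : InvStmt) : SepStmt := by
  intro i x y h
  have h' : (cT i y)⁻¹ * cT i x ∈ WS Ψ0 := by simpa using inv_mem h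
  have k1 : ∀ x y, (cT i x)⁻¹ * cT i y ∈ WS Ψ0 → cI i y 130 ∈ d0L → cI i x 130 ∈ d0L :=
    fun x y h e => by
      have := (inv _ h).1 ⟨cI i y 130, (cI_ok i y 130 (by simp)).1⟩ (mem_Δ0.2 e)
      rw [mv i x y 130 (by simp)] at this
      exact mem_Δ0.1 this
  have k2 : ∀ t ∈ [130, 162, 123], rcN (cI i x t) 0 % 2 = rcN (cI i y t) 0 % 2 ∧
      rcN (cI i x t) 5 % 2 = rcN (cI i y t) 5 % 2 := fun t ht => by
    have := (inv _ h).2 ⟨cI i y t, (cI_ok i y t ht).1⟩
    rw [mv i x y t ht, rc_val, rc_val, rc_val, rc_val] at this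
    exact this
  exact sig_inj i x y ⟨k1 y x h', k1 x y h⟩ (k2 162 (by simp)).1 (k2 162 (by simp)).2
    (k2 123 (by simp)).1 (k2 123 (by simp)).2

end Cfsg.Agent.H60.O84Sep
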