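import Cfsg.Agent.H15.O8H
import Cfsg.Agent.H8.SylowIn

/-! Fusion of the central involution of the large Ree group: the types five, seven, eight. -/

set_option autoImplicit false
set_option linter.unusedSimpArgs false
set_option linter.unnecessarySeqFocus false
set_option linter.unusedSectionVars false

namespace Cfsg.Agent.H60.O8

open Cfsg.Agent.H39 Cfsg.Agent.H83 Cfsg.Agent.H15.O8 Subgroup
open scoped commutatorElement

variable {K : Type*} [Field K] {T : Tits K} {G : Type*} [Group G]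

theorem exists_aut (F : CF T G) {H : Subgroup (U T)} {g : G} (hg : cj g (F.s H) = F.s H) :
    ∃ α : H ≃* H, ∀ k : H, F.φ (α k) = g * F.φ k * g⁻¹ := by
  let e := H.equivMapOfInjective F.φ F.inj
  refine ⟨e.trans (((F.s H).normalizerMonoidHom ⟨g, cj_eq_self_iff.1 hg⟩).trans e.symm),
    fun k => ?_⟩
  exact congrArg Subtype.val (e.apply_symm_apply
    ((F.s H).normalizerMonoidHom ⟨g, cj_eq_self_iff.1 hg⟩ (e k)))

/-- the subgroup generated by the squares -/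
def Sq (H : Subgroup G) : Subgroup G := closure {g | ∃ k ∈ H, g = k * k}

theorem map_Sq {G' : Type*} [Group G'] (f : G →* G') (H : Subgroup G) :
    (Sq H).map f = Sq (H.map f) := by
  rw [Sq, Sq, MonoidHom.map_closure]
  congr 1
  ext x
  constructor
  · rintro ⟨_, ⟨k, hk, rfl⟩, rfl⟩
    exact ⟨_, ⟨k, hk, rfl⟩, map_mul _ _ _⟩
  · rintro ⟨_, ⟨k, hk, rfl⟩, rfl⟩
    exact ⟨_, ⟨k, hk, rfl⟩, map_mul _ _ _⟩

/-- the stabilizer of the series `A ≥ Z ≥ 1` -/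
def Stab (A Z : Subgroup G) : Subgroup G where
  carrier := {k | k ∈ normalizer (A : Set G) ⊓ centralizer (Z : Set G) ∧ ∀ a ∈ A, ⁅a, k⁆ ∈ Z}
  one_mem' := ⟨one_mem _, fun a _ => by simp⟩
  mul_mem' := fun {k k'} h h' => ⟨mul_mem h.1 h'.1, fun a ha => by
    rw [show ⁅a, k * k'⁆ = ⁅a, k⁆ * (k * ⁅a, k'⁆ * k⁻¹) by simp only [commutatorElement_def]; group,
      ← h.1.2 _ (h'.2 a ha), mul_inv_cancel_right]
    exact mul_mem (h.2 a ha) (h'.2 a ha)⟩
  inv_mem' := fun {k} h => ⟨inv_mem h.1, fun a ha => by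
    rw [show ⁅a, k⁻¹⁆ = k⁻¹ * (⁅a, k⁆⁻¹ * k) by simp only [commutatorElement_def]; group,
      h.1.2 _ (inv_mem (h.2 a ha)), inv_mul_cancel_left]
    exact inv_mem (h.2 a ha)⟩

theorem Stab_conj {A Z : Subgroup G} {n k : G} (h1 : n ∈ normalizer (A : Set G))
    (h2 : n ∈ normalizer (Z : Set G)) (hk : k ∈ Stab A Z) : n * k * n⁻¹ ∈ Stab A Z := by
  refine ⟨Subgroup.mem_inf.2 ⟨mul_mem (mul_mem h1 hk.1.1) (inv_mem h1), fun z hz => ?_⟩,
    fun a ha => ?_⟩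
  · rw [show z * (n * k * n⁻¹) = n * (n⁻¹ * z * n * k) * n⁻¹ by group,
      hk.1.2 _ ((mem_normalizer_iff''.1 h2 z).1 hz)]
    group
  · rw [show ⁅a, n * k * n⁻¹⁆ = n * ⁅n⁻¹ * a * n, k⁆ * n⁻¹ by
      simp only [commutatorElement_def]; group]
    exact (mem_normalizer_iff.1 h2 _).1 (hk.2 _ ((mem_normalizer_iff''.1 h1 a).1 ha))

theorem Stab_cent [Finite G] {A Z P : Subgroup G} (hZ : ∀ z ∈ Z, z * z = 1)
    (hP : H8.IsSylowIn 2 P (normalizer (A : Set G) ⊓ centralizer (Z : Set G))) {x : G} (hx : x ∈ A)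
    (h : ∀ p ∈ P, p * x = x * p) {k : G} (hk : k ∈ Stab A Z) : k * x = x * k := by
  have : Fact (Nat.Prime 2) := ⟨Nat.prime_two⟩
  have h1 := hP.inf_of_le_normalizer (N := Stab A Z) fun m hm => mem_normalizer_fintype fun k hk =>
    Stab_conj hm.1 (centralizer_le_normalizer _ hm.2) hk
  rw [inf_of_le_right (show Stab A Z ≤ normalizer (A : Set G) ⊓ centralizer (Z : Set G) from
    fun k hk => hk.1)] at h1
  have cm : ∀ k ∈ Stab A Z, k * x = ⁅x, k⁆ * (x * k) := fun k hk => by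
    rw [← inv_eq_of_mul_eq_one_right (hZ _ (hk.2 x hx)), commutatorElement_def]
    group
  have : ((centralizer {x}).subgroupOf (Stab A Z)).Normal := ⟨fun n hn g => by
    rw [mem_subgroupOf, mem_centralizer_singleton_iff] at hn ⊢
    push_cast
    have e : (g : G)⁻¹ * x = ⁅x, (g : G)⁻¹⁆ * (x * (g : G)⁻¹) := cm _ (inv_mem g.2)
    have e2 := n.2.1.2 _ ((inv_mem g.2).2 x hx)
    calc _ = g * (n * ((g : G)⁻¹ * x * g)) * (g : G)⁻¹ := by group
      _ = g * (((g : G)⁻¹ * x * g) * n) * (g : G)⁻¹ := by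
        rw [e, mul_assoc ⁅x, _⁆, inv_mul_cancel_right, ← mul_assoc (n : G), ← e2,
          mul_assoc _ (n : G), hn, mul_assoc _ x]
      _ = _ := by group⟩
  obtain ⟨j, hj⟩ : Odd ((centralizer {x}).relIndex (Stab A Z)) := Nat.not_even_iff_odd.1 fun e =>
    h1.not_dvd (e.two_dvd.trans (relIndex_dvd_of_le_left _ fun p hp =>
      mem_centralizer_singleton_iff.2 (h p hp.1)))
  have h2 := ((centralizer {x}).subgroupOf (Stab A Z)).pow_index_mem ⟨k, hk⟩
  have h3 : k ^ 2 ∈ centralizer {x} := mem_centralizer_singleton_iff.2 (by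
    rw [pow_two, mul_assoc, cm k hk, ← mul_assoc k, ← hk.1.2 _ (hk.2 x hx), mul_assoc,
      ← mul_assoc k, cm k hk, ← mul_assoc, ← mul_assoc, hZ _ (hk.2 x hx), one_mul, mul_assoc])
  rw [mem_subgroupOf, ← relIndex, hj, pow_succ, pow_mul] at h2
  exact mem_centralizer_singleton_iff.1 ((mul_mem_cancel_left (pow_mem h3 j)).1 h2)

variable [Finite K] [Finite G] {F : CF T G} {τ : G}

theorem card_cent {r r' : U T} {g : G}
    (e : cj g (F.s (centralizer {r'})) = F.s (centralizer {r})) {i j : ℕ}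
    (h1 : Nat.card (centralizer {r}) = Nat.card K ^ i)
    (h2 : Nat.card (centralizer {r'}) = Nat.card K ^ j) : i = j :=
  Nat.pow_right_injective (a := Nat.card K) Finite.one_lt_card (by
    simp only [← h1, ← h2, ← F.card_s, ← e, card_cj])

theorem nc (h2 : UF2 T) (h : Hyp F τ) (g : G) (a : K) (ha : a ≠ 0) :
    g * τ * g⁻¹ ≠ F.φ (x5 T a) := fun e => by
  obtain ⟨g', r', ⟨a', c, ha', hr⟩, e1, -, e3⟩ := h.pair g _ ⟨a, 0, ha, .inr (.inl rfl)⟩ e
  have k := fun j => card_cent e3 (j := j) (c5 a ha ▸ card_Tc)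
  have e4 : centralizer {r'} = Tc T := by
    rcases hr with rfl | rfl | rfl | rfl
    · exact absurd (k _ (c6 (x6 T a') (by o8s) (by o8s; simp [ha']) ▸ card_E)) (by norm_num)
    · exact c5 a' ha'
    · exact absurd (k _ (c7 a' ha' ▸ card_Td)) (by norm_num)
    · exact absurd (k _ (c8 a' c ha' ▸ card_Te)) (by norm_num)
  rw [e4, c5 a ha] at e3
  obtain ⟨α, hα⟩ := exists_aut F e3
  obtain ⟨z, hz, rfl⟩ := h.mem
  have := h2.tc α ⟨z, hz.2.1, hz.2.2.2.2.2.2.2.2.2.1⟩ hz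
  rw [F.inj ((hα _).trans e1)] at this
  exact ha this.2.2.2.2.2.1

theorem de (h2 : UF2 T) (h : Hyp F τ) {g : G} {a c : K} (ha : a ≠ 0) {r : U T}
    (hr : r = x7 T a ∨ r = x8 T a * x4 T c) (e : g * τ * g⁻¹ = F.φ r) :
    ∃ g w, w ∈ W T ∧ w ∉ Z T ∧ g * τ * g⁻¹ = F.φ w := by
  have : Fact (Nat.Prime 2) := ⟨Nat.prime_two⟩
  by_contra! hn
  obtain ⟨g', r', ⟨a', c', ha', hr'⟩, e1, -, e3⟩ := h.pair g _ ⟨a, c, ha, .inr (.inr hr)⟩ e
  have t1 : ∀ {a c : K} {r}, a ≠ 0 → r = x7 T a ∨ r = x8 T a * x4 T c →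
      Nat.card (centralizer {r}) = Nat.card K ^ 8 ∧ Sq (centralizer {r}) = A T ∧
        ⁅A T, centralizer {r}⁆ = Z6 T := by
    rintro a c _ ha (rfl | rfl)
    · rw [c7 a ha]; exact ⟨card_Td, h2.sqd, h2.cmd⟩
    · rw [c8 a c ha]; exact ⟨card_Te, h2.sqe, h2.cme⟩
  obtain ⟨s1, s2, s3⟩ := t1 ha hr
  obtain ⟨-, s2', s3'⟩ := t1 (c := c') (r := r') ha' (by
    rcases hr' with rfl | rfl | hr'
    · exact absurd (card_cent e3 s1 (c6 (x6 T a') (by o8s) (by o8s; simp [ha']) ▸ card_E)) (by norm_num)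
    · exact absurd (card_cent e3 s1 (c5 a' ha' ▸ card_Tc)) (by norm_num)
    · exact hr')
  have nA' : cj g' (F.s (A T)) = F.s (A T) := by
    conv_lhs => rw [← s2', CF.s, map_Sq, cj, map_Sq]
    rw [← s2, CF.s, map_Sq]
    exact congrArg Sq e3
  have nZ' : cj g' (F.s (Z6 T)) = F.s (Z6 T) := by
    conv_lhs => rw [← s3', CF.s, map_commutator, cj_comm]
    rw [← s3, CF.s, map_commutator]
    exact congrArg₂ _ nA' e3
  have Z6W : Z6 T ≤ W T := fun _ ⟨h1, h2, h3, h4, h5, _, h7, h8, h9, h10, h11⟩ =>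
    ⟨h1, h2, h3, h4, h5, h7, h8, h9, h10, h11⟩
  have EW : ∀ p ∈ F.s (E T), ∀ w ∈ F.s (W T), p * w = w * p := fun p hp w hw =>
    ((F.cW.ge hp).2 w hw).symm
  have EM : F.s (E T) ≤ normalizer (F.s (A T) : Set G) ⊓ centralizer (F.s (Z6 T) : Set G) := by
    rintro _ ⟨u, hu, rfl⟩
    refine Subgroup.mem_inf.2 ⟨mem_normalizer_fintype ?_, fun z hz =>
      (EW _ ⟨u, hu, rfl⟩ z (map_mono Z6W hz)).symm⟩
    rintro _ ⟨v, hv, rfl⟩
    exact ⟨_, conj_mem_A hu hv, by simp⟩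
  have syl : H8.IsSylowIn 2 (F.s (E T)) _ := H8.isSylowIn_of_maximal EM (F.isPGroup_s _)
    fun P hP PM EP => by
      by_contra k
      obtain ⟨t, ⟨tP, tN⟩, tE⟩ := SetLike.exists_of_lt
        (H8.lt_inf_normalizer_of_lt hP (lt_of_le_not_ge EP k))
      have t2 : Two t := (hP ⟨t, tP⟩).imp fun _ e => congrArg Subtype.val e
      have tW : t ∈ normalizer (F.s (W T) : Set G) := mem_normalizer_fintype fun w hw => by
        obtain ⟨u, hu, e⟩ := (mem_normalizer_iff.1 tN w).1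
          (map_mono (W_le_R.trans (R_le_V.trans V_le_E)) hw)
        refine ⟨u, cE u fun v hv => F.inj ?_, e⟩
        have := EW _ ((mem_normalizer_iff''.1 tN _).1 ⟨v, hv, rfl⟩) w hw
        rw [map_mul, map_mul, e, show t * w * t⁻¹ * F.φ v = t * (w * (t⁻¹ * F.φ v * t)) * t⁻¹ by
          group, ← this]
        group
      obtain ⟨w, hw, e⟩ := (mem_normalizer_iff.1 tW τ).1 (map_mono Z_le_W h.mem)
      have tC := h.two t (h.nτ t ⟨w, by_contra fun k => hn t w hw k e.symm, e⟩) t2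
      obtain ⟨u, rfl⟩ := F.twoB t ((F.nW t tC).1 tW) t2
      refine tE ⟨u, ?_, rfl⟩
      rw [← c6 (x6 T 1) (by o8s) (by o8s; simp)]
      exact mem_centralizer_singleton_iff.2 (F.inj (by
        rw [map_mul, map_mul]
        exact ((PM tP).2 _ ⟨x6 T 1, mem_Z6.2 (by o8s), rfl⟩).symm))
  have rA : r ∈ A T ∧ r ∉ W T := by rcases hr with rfl | rfl <;> o8s <;> simp [ha]
  refine rA.2 ((h2.cA r rA.1).2 fun p hp k => F.inj ?_)
  have pS : F.φ p ∈ Stab (F.s (A T)) (F.s (Z6 T)) := ⟨EM ⟨p, hp, rfl⟩, by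
    rintro _ ⟨b, hb, rfl⟩
    exact ⟨_, k b hb, map_commutatorElement _ _ _⟩⟩
  have := Stab_cent (by
      rintro _ ⟨z, hz, rfl⟩
      rw [← map_mul, sqV z (R_le_V (W_le_R (Z6W hz))), map_one]) syl
    (map_mono (Z_le_W.trans (W_le_R.trans R_le_A)) h.mem)
    (fun p hp => EW p hp τ (map_mono Z_le_W h.mem))
    (Stab_conj (inv_mem (cj_eq_self_iff.1 nA')) (inv_mem (cj_eq_self_iff.1 nZ')) pS)
  rw [map_mul, map_mul, ← e1, show F.φ p * (g' * τ * g'⁻¹) =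
    g' * (g'⁻¹ * F.φ p * g'⁻¹⁻¹ * τ) * g'⁻¹ by group, this]
  group

end Cfsg.Agent.H60.O8
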