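import Cfsg.Agent.H60.O8Fus

/-! Fusion of the central involution of the large Ree group: the type six. -/

set_option autoImplicit false
set_option linter.unusedSimpArgs false
set_option linter.unnecessarySeqFocus false
set_option linter.unusedSectionVars false

namespace Cfsg.Agent.H60.O8

open Cfsg.Agent.H39 Cfsg.Agent.H83 Cfsg.Agent.H15.O8 Subgroup

variable {K : Type*} [Field K] {T : Tits K} {G : Type*} [Group G] (F : CF T G)

/-- coordinates on `W` -/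
def ww (a b : K) : G := F.φ (x4 T a * x6 T b)

theorem ww_mul (a b a' b' : K) : ww F a b * ww F a' b' = ww F (a + a') (b + b') := by
  rw [ww, ww, ww, ← map_mul]
  congr 1
  ext <;> o8s <;> o8ring T

theorem ww_x1 (t a b : K) : F.φ (x1 T t) * ww F a b * (F.φ (x1 T t))⁻¹ = ww F (a + t * b) b := by
  rw [ww, ww, ← map_inv, ← map_mul, ← map_mul]
  congr 1
  ext <;> o8s <;> o8ring T

theorem ww_d (c : Kˣ) (a b : K) : F.d c * ww F a b * (F.d c)⁻¹ = ww F a (c * T.θ c * b) := by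
  rw [ww, ww, F.dφ]
  congr 1
  ext <;> rw [tor_apply] <;> o8s <;> simp

theorem ww_inj {a b a' b' : K} (e : ww F a b = ww F a' b') : a = a' ∧ b = b' := by
  have h := F.inj e
  have h1 := congrArg U.a4 h
  have h2 := congrArg U.a6 h
  o8s at h1 h2
  exact ⟨h1, h2⟩

theorem ww_4 (a : K) : ww F a 0 = F.φ (x4 T a) := by
  rw [ww]; congr 1; ext <;> o8s

theorem ww_6 (a : K) : ww F 0 a = F.φ (x6 T a) := by
  rw [ww]; congr 1; ext <;> o8s

theorem ww_0 : ww F 0 0 = 1 := by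
  rw [ww, ← map_one F.φ]; congr 1; ext <;> o8s

theorem mem_sW {x : G} : x ∈ F.s (W T) ↔ ∃ a b, x = ww F a b :=
  ⟨fun ⟨w, hw, e⟩ => ⟨_, _, e ▸ congrArg F.φ (eq_x4_x6 hw)⟩,
    fun ⟨a, b, e⟩ => ⟨_, mem_W.2 (by o8s), e.symm⟩⟩

theorem mem_sZ {x : G} : x ∈ F.s (Z T) ↔ ∃ a, x = ww F a 0 :=
  ⟨fun ⟨w, hw, e⟩ => ⟨_, by rw [ww_4, ← e]; exact congrArg F.φ (eq_x4 hw)⟩,
    fun ⟨a, e⟩ => ⟨x4 T a, mem_Z.2 (by o8s), by rw [e, ww_4]⟩⟩

theorem x1_M (t : K) : F.φ (x1 T t) ∈ normalizer (F.s (E T) : Set G) :=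
  F.B_norm nE (fun c _ => tor_E c) (F.φ_mem_B _)

theorem d_M (c : Kˣ) : F.d c ∈ normalizer (F.s (E T) : Set G) :=
  F.B_norm nE (fun c _ => tor_E c) (F.d_mem_B _)

variable [Finite K] [Finite G]

theorem M_W {t : G} (tN : t ∈ normalizer (F.s (E T) : Set G)) :
    t ∈ normalizer (F.s (W T) : Set G) := mem_normalizer_fintype fun w hw => by
  obtain ⟨u, hu, e⟩ := (mem_normalizer_iff.1 tN w).1
    (map_mono (W_le_R.trans (R_le_V.trans V_le_E)) hw)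
  refine ⟨u, cE u fun v hv => F.inj ?_, e⟩
  have := (F.cW.ge ((mem_normalizer_iff''.1 tN _).1 ⟨v, hv, rfl⟩)).2 w hw
  rw [map_mul, map_mul, e, show t * w * t⁻¹ * F.φ v = t * (w * (t⁻¹ * F.φ v * t)) * t⁻¹ by
    group, this]
  group

theorem cj_le_W {m : G} (hm : m ∈ normalizer (F.s (E T) : Set G)) :
    cj m (F.s (Z T)) ≤ F.s (W T) := cj_le_of_norm (map_mono Z_le_W) (M_W F hm)

variable {F} {τ : G} (h : Hyp F τ)
include h

theorem fix_x1 {m : G} (hm : m ∈ normalizer (F.s (E T) : Set G)) {t : K} (ht : t ≠ 0)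
    (e : cj (F.φ (x1 T t)) (cj m (F.s (Z T))) = cj m (F.s (Z T))) :
    cj m (F.s (Z T)) = F.s (Z T) := by
  refine eq_of_le_of_card_ge (fun z hz => ?_) (card_cj _ _).ge
  rw [← F.cj_s] at e
  have h1 := (F.cj m).cZ ((h.cj m).two _ ((h.cj m).nZ.le (cj_eq_self_iff.1 e)) (F.two_φ _)) z
    (F.cj_s m _ ▸ hz)
  obtain ⟨a, b, rfl⟩ := (mem_sW F).1 (cj_le_W F hm hz)
  have h2 := (ww_inj F ((ww_x1 F t a b).symm.trans (mul_inv_eq_iff_eq_mul.2 h1.symm))).1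
  rw [(mul_eq_zero.1 (add_eq_left.1 h2)).resolve_left ht]
  exact (mem_sZ F).2 ⟨a, rfl⟩

theorem ti0 {m : G} (hm : m ∈ normalizer (F.s (E T) : Set G))
    (ne : cj m (F.s (Z T)) ≠ F.s (Z T)) : cj m (F.s (Z T)) ⊓ F.s (Z T) = ⊥ := by
  have := T.charP
  have : Nonempty {m // m ∈ normalizer (F.s (E T) : Set G) ∧ cj m (F.s (Z T)) ≠ F.s (Z T)} :=
    ⟨⟨m, hm, ne⟩⟩
  obtain ⟨⟨n, hn, ne'⟩, mx⟩ := Finite.exists_max fun m : {m // m ∈ normalizer (F.s (E T) : Set G) ∧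
    cj m (F.s (Z T)) ≠ F.s (Z T)} => Nat.card ↥(cj m.1 (F.s (Z T)) ⊓ F.s (Z T))
  suffices k : cj n (F.s (Z T)) ⊓ F.s (Z T) = ⊥ by
    have := mx ⟨m, hm, ne⟩
    simp only [k, card_bot] at this
    exact card_le_one_iff_eq_bot _ |>.1 this
  by_contra k
  obtain ⟨z, ⟨z1, z2⟩, z0⟩ := (bot_or_exists_ne_one _).resolve_left k
  obtain ⟨c, rfl⟩ := (mem_sZ F).1 z2
  have c0 : c ≠ 0 := fun e => z0 (by rw [e, ww_0])
  obtain ⟨w, w1, w2⟩ := SetLike.not_le_iff_exists.1 fun le =>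
    ne' (eq_of_le_of_card_ge le (card_cj _ _).ge)
  obtain ⟨a, b, rfl⟩ := (mem_sW F).1 (cj_le_W F hn w1)
  have b0 : b ≠ 0 := fun e => w2 ((mem_sZ F).2 ⟨a, by rw [e]⟩)
  set s := F.φ (x1 T (c / b)) with hs
  have e1 : cj (n⁻¹ * s * n) (F.s (Z T)) = cj n⁻¹ (cj s (cj n (F.s (Z T)))) := by
    rw [cj_mul, cj_mul]
  have := mx ⟨n⁻¹ * s * n, mul_mem (mul_mem (inv_mem hn) (x1_M F _)) hn, fun e => ne'
    (fix_x1 h hn (div_ne_zero c0 b0) (by rw [← cj_inj (g := n⁻¹), ← e1, e, cj_inv_cj]))⟩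
  simp only [e1] at this
  nth_rewrite 2 [← cj_inv_cj n (F.s (Z T))] at this
  rw [← cj_inf, card_cj] at this
  have le : cj n (F.s (Z T)) ⊓ F.s (Z T) ≤ cj s (cj n (F.s (Z T))) ⊓ cj n (F.s (Z T)) := by
    rintro x ⟨x1, x2⟩
    obtain ⟨y, rfl⟩ := (mem_sZ F).1 x2
    have := conj_mem_cj (g := s) x1
    rw [ww_x1, mul_zero, add_zero] at this
    exact ⟨this, x1⟩
  have h1 := conj_mem_cj (g := s) w1
  rw [ww_x1, div_mul_cancel₀ _ b0] at h1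
  have h2 := mul_mem w1 z1
  rw [ww_mul, add_zero] at h2
  obtain ⟨y, e⟩ := (mem_sZ F).1 ((eq_of_le_of_card_ge le this).ge ⟨h1, h2⟩).2
  exact b0 (ww_inj F e).2

theorem ti {m n x : G} (hm : m ∈ normalizer (F.s (E T) : Set G))
    (hn : n ∈ normalizer (F.s (E T) : Set G)) (h1 : x ∈ cj m (F.s (Z T)))
    (h2 : x ∈ cj n (F.s (Z T))) (x1 : x ≠ 1) : cj m (F.s (Z T)) = cj n (F.s (Z T)) := by
  by_contra ne
  have := ti0 h (mul_mem (inv_mem hn) hm) fun e => ne (by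
    rw [← cj_inj (g := n⁻¹), ← cj_mul, e, cj_inv_cj])
  rw [cj_mul] at this
  nth_rewrite 2 [← cj_inv_cj n (F.s (Z T))] at this
  rw [← cj_inf, cj_eq_bot_iff] at this
  exact x1 (mem_bot.1 (this ▸ ⟨h1, h2⟩))

theorem graph {m : G} (hm : m ∈ normalizer (F.s (E T) : Set G))
    (ne : cj m (F.s (Z T)) ≠ F.s (Z T)) : ∃ l : K → K, (∀ u, ww F (l u) u ∈ cj m (F.s (Z T))) ∧
      ∀ a u, ww F a u ∈ cj m (F.s (Z T)) → a = l u := by
  have := T.charP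
  have uq : ∀ a a' u, ww F a u ∈ cj m (F.s (Z T)) → ww F a' u ∈ cj m (F.s (Z T)) → a = a' :=
    fun a a' u h1 h2 => by
      have h3 := mul_mem h1 h2
      rw [ww_mul, CharTwo.add_self_eq_zero] at h3
      have h4 : ww F (a + a') 0 = 1 := mem_bot.1 (ti0 h hm ne ▸ ⟨h3, (mem_sZ F).2 ⟨_, rfl⟩⟩)
      exact CharTwo.add_eq_zero.1 (ww_inj F (h4.trans (ww_0 F).symm)).1
  choose a b e using fun x : cj m (F.s (Z T)) => (mem_sW F).1 (cj_le_W F hm x.2)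
  have sur := ((Nat.bijective_iff_injective_and_card b).2 ⟨fun x y k => Subtype.ext (by
    rw [e x, e y, k, uq (a x) (a y) (b y) (k ▸ e x ▸ x.2) (e y ▸ y.2)]), by
    rw [card_cj, F.card_s, card_Z, pow_one]⟩).2
  choose l hl using fun u => show ∃ a, ww F a u ∈ cj m (F.s (Z T)) by
    obtain ⟨x, rfl⟩ := sur u
    exact ⟨a x, e x ▸ x.2⟩
  exact ⟨l, hl, fun a u k => uq _ _ _ k (hl u)⟩

theorem trans {m n : G} (hm : m ∈ normalizer (F.s (E T) : Set G))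
    (hn : n ∈ normalizer (F.s (E T) : Set G)) (h1 : cj m (F.s (Z T)) ≠ F.s (Z T))
    (h2 : cj n (F.s (Z T)) ≠ F.s (Z T)) :
    ∃ t, cj (F.φ (x1 T t) * m) (F.s (Z T)) = cj n (F.s (Z T)) := by
  obtain ⟨l, hl, -⟩ := graph h hm h1
  obtain ⟨l', hl', -⟩ := graph h hn h2
  refine ⟨l' 1 - l 1, ti h (mul_mem (x1_M F _) hm) hn ?_ (hl' 1) fun e =>
    one_ne_zero (ww_inj F (e.trans (ww_0 F).symm)).2⟩
  have := conj_mem_cj (g := F.φ (x1 T (l' 1 - l 1))) (hl 1)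
  rwa [ww_x1, mul_one, add_sub_cancel, ← cj_mul] at this

theorem exists_m {m : G} (hm : m ∈ normalizer (F.s (E T) : Set G))
    (ne : cj m (F.s (Z T)) ≠ F.s (Z T)) : ∃ m ∈ normalizer (F.s (E T) : Set G),
      ∀ x, x ∈ cj m (F.s (Z T)) ↔ ∃ u, x = ww F 0 u := by
  have := T.charP
  obtain ⟨l, hl, uq⟩ := graph h hm ne
  have add : ∀ u v, l u + l v = l (u + v) := fun u v => uq _ _ (ww_mul F _ _ _ _ ▸ mul_mem (hl u) (hl v))
  have key : ∀ e, e ≠ 0 → ∀ u, l (e * u) = l u + (l e + l 1) * u := fun e e0 => by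
    obtain ⟨c, rfl⟩ := nrm_surj (T := T) e
    have c0 : c ≠ 0 := left_ne_zero_of_mul e0
    obtain ⟨t, k⟩ := trans h (mul_mem (d_M F (Units.mk0 c c0)) hm) hm (fun k => ne (by
      rwa [cj_mul, ← cj_inj (g := (F.d (Units.mk0 c c0))⁻¹), cj_inv_cj, cj_eq_self
        (centralizer_le_normalizer _ (F.cZ (inv_mem (F.d_mem _))))] at k)) ne
    have k1 : ∀ u, l u + t * (c * T.θ c * u) = l (c * T.θ c * u) := fun u => uq _ _ (by
      have := conj_mem_cj (g := F.φ (x1 T t)) (conj_mem_cj (g := F.d (Units.mk0 c c0)) (hl u))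
      rwa [ww_d, ww_x1, ← cj_mul, ← cj_mul, mul_assoc _ (F.d _), k] at this)
    intro u
    have k2 := k1 1
    rw [mul_one] at k2
    rw [← k1, ← k2]
    grind
  have lin : ∀ u, l u = l 1 * u := fun u => by
    by_cases u0 : u = 0
    · have := add 0 0
      rw [add_zero, add_eq_left] at this
      rw [u0, this, mul_zero]
    by_cases u1 : u + 1 = 0
    · rw [CharTwo.add_eq_zero.1 u1, mul_one]
    have k1 := key u u0 u
    have k2 := key _ u1 u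
    rw [add_mul, ← add, ← add, k1, one_mul] at k2
    grind
  refine ⟨F.φ (x1 T (l 1)) * m, mul_mem (x1_M F _) hm, fun x => ?_⟩
  have e : ∀ u, F.φ (x1 T (l 1)) * ww F (l u) u * (F.φ (x1 T (l 1)))⁻¹ = ww F 0 u := fun u => by
    rw [ww_x1, lin u, CharTwo.add_self_eq_zero]
  rw [cj_mul]
  constructor
  · rintro ⟨y, hy, rfl⟩
    obtain ⟨a, b, rfl⟩ := (mem_sW F).1 (cj_le_W F hm hy)
    obtain rfl := uq _ _ hy
    exact ⟨b, e b⟩
  · rintro ⟨u, rfl⟩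
    exact e u ▸ conj_mem_cj (hl u)

theorem lin {g : G} {w : U T} (hw : w ∈ W T) (hz : w ∉ Z T) (e : g * τ * g⁻¹ = F.φ w) : Lin F := by
  have := T.charP
  obtain ⟨k, ek⟩ := rep6 w hw hz
  have a0 : w.a6 ≠ 0 := fun e => by
    obtain ⟨h1, h2, h3, h4, h5, h6, h7, h8, h9, h10⟩ := hw
    exact hz ⟨h1, h2, h3, h4, h5, h6, h7, e, h8, h9, h10⟩
  have c : ∀ {a : K}, a ≠ 0 → centralizer {x6 T a} = E T := fun ha =>
    c6 _ (by o8s) (by o8s; simp [ha])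
  obtain ⟨g', r', ⟨a', c', ha', hr⟩, e1, -, e3⟩ := h.pair (F.φ k * g) _ ⟨_, 0, a0, .inl rfl⟩ (by
    rw [← ek, map_mul, map_mul, map_inv, ← e]; group)
  have k := fun j => card_cent e3 (j := j) (c a0 ▸ card_E)
  have e4 : centralizer {r'} = E T := by
    rcases hr with rfl | rfl | rfl | rfl
    · exact c ha'
    · exact absurd (k _ (c5 a' ha' ▸ card_Tc)) (by norm_num)
    · exact absurd (k _ (c7 a' ha' ▸ card_Td)) (by norm_num)
    · exact absurd (k _ (c8 a' c' ha' ▸ card_Te)) (by norm_num)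
  rw [e4, c a0] at e3
  obtain ⟨m, hm, k6⟩ := exists_m h (cj_eq_self_iff.1 e3) fun k => by
    have := k.le (conj_mem_cj h.mem)
    rw [e1, ← ww_6] at this
    obtain ⟨a, e⟩ := (mem_sZ F).1 this
    exact a0 (ww_inj F e).2
  have ne : cj m (F.s (Z T)) ≠ F.s (Z T) := fun k => by
    obtain ⟨a, e⟩ := (mem_sZ F).1 (k.le ((k6 _).2 ⟨1, rfl⟩))
    exact one_ne_zero (ww_inj F e).2
  obtain ⟨t, et⟩ := trans h (inv_mem hm) (mul_mem (inv_mem hm) (mul_mem (x1_M F 1) hm))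
    (fun k => ne (by rw [← cj_inj (g := m⁻¹), cj_inv_cj, k]))
    fun k => ne (fix_x1 h hm one_ne_zero (by rw [← cj_mul, ← cj_inj (g := m⁻¹), ← cj_mul, k, cj_inv_cj]))
  set s := m * F.φ (x1 T t) * m⁻¹ with hs
  have s6 : ∀ u, s * ww F 0 u * s⁻¹ = ww F 0 u := fun u => by
    obtain ⟨a, e⟩ := (mem_sZ F).1 (mem_cj.1 ((k6 _).2 ⟨u, rfl⟩))
    rw [show s * ww F 0 u * s⁻¹ = m * (F.φ (x1 T t) * (m⁻¹ * ww F 0 u * m) * (F.φ (x1 T t))⁻¹) * m⁻¹
      by rw [hs]; group, e, ww_x1, mul_zero, add_zero, ← e]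
    group
  have s4 : ∀ u, s * ww F u 0 * s⁻¹ = ww F u u := fun u => by
    have h1 := conj_mem_cj (g := s) ((mem_sZ F).2 ⟨u, rfl⟩)
    rw [hs, mul_assoc m, cj_mul, et, ← cj_mul, mul_inv_cancel_left, cj_mul] at h1
    obtain ⟨y, hy, e⟩ := h1
    obtain ⟨v, rfl⟩ := (k6 y).1 hy
    replace e : s * ww F u 0 * s⁻¹ = ww F v v := by
      rw [hs, mul_assoc m, ← e]
      simpa using ww_x1 F 1 0 v
    obtain ⟨a, b, e'⟩ := (mem_sW F).1 ((mem_normalizer_iff''.1 (M_W F hm) _).1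
      ((mem_sW F).2 ⟨u, 0, rfl⟩))
    obtain ⟨v', e''⟩ := (k6 _).1 (conj_mem_cj (g := m) ((mem_sZ F).2 ⟨t * b, rfl⟩))
    have : s * ww F u 0 * s⁻¹ = ww F u 0 * ww F 0 v' := by
      rw [show s * ww F u 0 * s⁻¹ = m * (F.φ (x1 T t) * (m⁻¹ * ww F u 0 * m) *
        (F.φ (x1 T t))⁻¹) * m⁻¹ by rw [hs]; group, e', ww_x1, ← add_zero b, ← ww_mul, add_zero,
        ← e', ← e'']
      group
    rw [e, ww_mul, add_zero] at this
    rw [e, (ww_inj F this).1]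
  have cc : ∀ x, F.φ (x1 T 1) * s * F.φ (x1 T 1) * x * (F.φ (x1 T 1) * s * F.φ (x1 T 1))⁻¹ =
      F.φ (x1 T 1) * (s * (F.φ (x1 T 1) * x * (F.φ (x1 T 1))⁻¹) * s⁻¹) * (F.φ (x1 T 1))⁻¹ :=
    fun x => by group
  refine ⟨F.φ (x1 T 1) * s * F.φ (x1 T 1), mul_mem (mul_mem (x1_M F 1)
    (mul_mem (mul_mem hm (x1_M F t)) (inv_mem hm))) (x1_M F 1), fun u => ⟨?_, ?_⟩⟩
  · rw [cc, ← ww_4, ← ww_6, ww_x1, mul_zero, add_zero, s4, ww_x1, one_mul, CharTwo.add_self_eq_zero]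
  · have : ww F u u = ww F u 0 * ww F 0 u := by rw [ww_mul, add_zero, zero_add]
    rw [cc, ← ww_4, ← ww_6, ww_x1, one_mul, zero_add, this, ← conj_mul (b := s), s4, s6, ww_mul,
      add_zero, CharTwo.add_self_eq_zero, ww_x1, mul_zero, add_zero]

end Cfsg.Agent.H60.O8
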