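import Mathlib
import Cfsg.Agent.H60.PC
import Cfsg.Agent.H19.KdRel

/-!
# The case of a conjugate inside the extraspecial group
-/

set_option autoImplicit false
set_option maxRecDepth 200000

namespace Cfsg.Agent.H60

open Cfsg Subgroup Equiv Cfsg.Agent.H28 Cfsg.Agent.H49 Cfsg.Agent.H84.U6

variable {G : Type*} [Group G] [Finite G] {Q S : Subgroup G} {z s x y : G} {ρ : centralizer ({z} : Set G) →* Perm V0}
  {κ : G → V0} {ρ' : centralizer ({s} : Set G) →* Perm V0} {κ' : G → V0} {a b : Perm V0}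

theorem odd_index (h : LX Q z) : Odd (centralizer ({z} : Set G)).index := by
  have : Fact (Nat.Prime 2) := ⟨Nat.prime_two⟩
  obtain ⟨T, hT⟩ := H98.exists_sylIn 2 (centralizer ({z} : Set G))
  obtain ⟨P, rfl⟩ := (h.sylIn_top hT).exists_sylow_top
  rw [← Nat.not_even_iff_odd, even_iff_two_dvd]
  exact fun e => P.not_dvd_index (e.trans (index_dvd_of_le hT.le))

theorem cen_le_four (h : XS Q z) (hc : Nat.card Q = 2 ^ 13) {B I : Subgroup G} (hB : B ≤ Q) (h1 : 1024 ≤ Nat.card B)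
    (hy : y ∈ B) (yy : y * y = z) (cy : ∀ b ∈ B, b * y = y * b) (hI : I ≤ B) (hz : z ∉ I)
    (cI : ∀ i ∈ I, ∀ b ∈ B, b * i = i * b) : Nat.card I ≤ 4 := by
  have zB : z ∈ B := yy ▸ mul_mem hy hy
  let J : Subgroup G :=
    { carrier := {u | u ∈ B ⊓ centralizer (B : Set G) ∧ u * u = 1}
      one_mem' := ⟨one_mem _, one_mul _⟩
      mul_mem' := fun {u v} hu hv => ⟨mul_mem hu.1 hv.1, by
        rw [mul_assoc, ← mul_assoc v, hu.1.2 v hv.1.1, mul_assoc, hv.2, mul_one, hu.2]⟩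
      inv_mem' := fun hu => ⟨inv_mem hu.1, by rw [← mul_inv_rev, hu.2, inv_one]⟩ }
  have h2 := two_mul_card_le (A := I) (B := J) (fun i hi => ⟨⟨hI hi, cI i hi⟩, h.sq_of_z_not_mem (hI.trans hB) hz hi⟩)
    ⟨⟨zB, fun b hb => h.cen b (hB hb)⟩, h.zz⟩ hz
  have h3 := two_mul_card_le (A := J) (B := Q ⊓ centralizer (B : Set G)) (fun u hu => ⟨hB hu.1.1, hu.1.2⟩) ⟨hB hy, cy⟩
    fun m => h.ne (yy.symm.trans m.2)
  have h4 := h.card_mul_card_centralizer_of_mem hB zB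
  rw [hc] at h4
  nlinarith

omit [Finite G] in
theorem rh_k (k : Perm V0) (r : Rh ρ x a) : Rh ((MulAut.conj k).toMonoidHom.comp ρ) x (k * a * k⁻¹) :=
  ⟨r.1, congrArg (fun a => k * a * k⁻¹) r.2⟩

namespace FE

omit [Finite G] in
theorem card_im_le (h : FE Q z ρ κ) (p : Pair Q S z s) :
    Nat.card (im ρ S) ≤ 4 * Nat.card ((im ρ S).subgroupOf (K0 ⊓ stb (κ s))) := by
  rw [← inf_subgroupOf_right, Nat.card_congr (subgroupOfEquivOfLe inf_le_right).toEquiv, ← inf_assoc, inf_right_comm,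
    inf_eq_left.2 ((h.im_le_stb p).trans inf_le_right)]
  exact card_K4' (h.im_NK S)

theorem exists_k (h : FE Q z ρ κ) (p : Pair Q S z s) : ∃ k ∈ K0, k (κ s) = dv 85 := by
  refine exists_K0_of_mem ((h.invol p.xQ p.hS.zz p.hS.ne p.ne).resolve_left fun hr => ?_) (MulAction.mem_orbit_self _)
  obtain ⟨k, hk, e⟩ := exists_K0_of_mem hr (MulAction.mem_orbit_self _)
  have h' := h.conj hk
  have h1 := h'.card_im_ge p
  have h2 := h'.card_im_le p
  have h3 := h'.normal_im p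
  rw [e] at h2 h3
  have h4 := @two_Y0 _ h3 (h'.two_im p Y0)
  rw [h4] at h2
  erw [card_bot] at h2
  omega

theorem im85 (h : FE Q z ρ κ) (p : Pair Q S z s) (e : κ s = dv 85) :
    im ρ S ≤ H0 ∧ psi.ker ≤ (im ρ S).subgroupOf X1 ∧ ¬ im ρ S ≤ K0 := by
  have h1 := h.card_im_ge p
  have h3 := h.normal_im p
  have h5 := h.im_le_stb p
  rw [e] at h3 h5
  have h6 : (im ρ S).subgroupOf X1 ≤ psi.ker := @le_ker_psi _ h3 (h.two_im p X1)
  have h2 : im ρ S ≤ H0 := fun a ha => or_iff_not_imp_left.2 fun hK => by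
    obtain ⟨a1, a2⟩ := mem_inf.1 (h5 ha)
    refine coset_h0 (h.add a1) (h.norm a1) hK a2 fun x hx => ?_
    obtain ⟨x1, x2⟩ := mem_inf.1 hx
    have m : a * x * a⁻¹ * x⁻¹ ∈ X1 := mem_inf.2 ⟨mul_mem (conj_mem_of_mem_normalizer (h.norm a1) x1) (inv_mem x1),
      mul_mem (mul_mem (mul_mem a2 x2) (inv_mem a2)) (inv_mem x2)⟩
    have m2 : (⟨_, m⟩ : X1) ∈ psi.ker := h6 (by
      simpa only [mem_subgroupOf, mul_assoc] using mul_mem ha (h.im_conj p ⟨h.le x1, e ▸ x2⟩ (inv_mem ha)))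
    have := psi_acts ⟨_, m⟩
    rwa [MonoidHom.mem_ker.1 m2] at this
  have h7 := card_le_of_le h6
  have h8 := card_le_two_mul_H0 h2
  have h9 : Nat.card ((im ρ S).subgroupOf X1) = Nat.card ↥(im ρ S ⊓ K0) := by
    rw [← inf_subgroupOf_right, Nat.card_congr (subgroupOfEquivOfLe inf_le_right).toEquiv, X1, ← inf_assoc,
      inf_right_comm, inf_eq_left.2 (h5.trans inf_le_right)]
  rw [card_ker_psi] at h7
  exact ⟨h2, (eq_of_le_of_card_ge h6 (by rw [card_ker_psi]; omega)).ge, fun k => by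
    rw [inf_eq_left.2 k] at h9; omega⟩

theorem im_H0 (h : FE Q z ρ κ) (p : Pair Q S z s) : im ρ S ≤ H0 ∧ H0 ≤ ρ.range := by
  obtain ⟨k, hk, e⟩ := h.exists_k p
  obtain ⟨h1, -, h2⟩ := (h.conj hk).im85 p e
  obtain ⟨a, ha, hK⟩ := SetLike.not_le_iff_exists.1 h2
  refine ⟨fun a ha => ?_, H0_le h.le ?_⟩
  · obtain ⟨c, hc, r⟩ := mem_im'.1 ha
    simpa [mul_assoc] using H0_conj (K0_le_NK (inv_mem hk)) (h1 ((rh_k k r).mem_im hc))
  · obtain ⟨c, -, rfl⟩ := id ha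
    exact (mul_mem_cancel_left (mul_mem (mul_mem (h.le hk) ⟨c, rfl⟩) (inv_mem (h.le hk)))).1
      (h.le ((h1 ha).resolve_left hK))

theorem both (h : FE Q z ρ κ) (h' : FE S s ρ' κ') (p : Pair Q S z s) (r : Rh ρ y a) (r' : Rh ρ' y b) (ha : a ∈ H0) :
    b ∈ H0 := by
  obtain ⟨k, hk, e⟩ := h.exists_k p
  replace h := h.conj hk
  replace r := rh_k k r
  replace ha := H0_conj (K0_le_NK hk) ha
  generalize (MulAut.conj k).toMonoidHom.comp ρ = ρ at h r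
  change (fun x => k (κ x)) _ = _ at e
  generalize (fun x => k (κ x)) = κ at h e
  generalize k * a * k⁻¹ = a at r ha
  obtain ⟨h1, h2, h3⟩ := h.im85 p e
  let L := (H0.comap ρ').map (centralizer ({s} : Set G)).subtype
  have mL : ∀ {c g}, Rh ρ' c g → g ∈ H0 → c ∈ L := fun r hg => ⟨⟨_, r.1⟩, (congrArg (· ∈ H0) r.2).mpr hg, rfl⟩
  have l1 : im ρ S ≤ im ρ L := fun g hg => by
    obtain ⟨c, hc, r⟩ := mem_im'.1 hg
    exact r.mem_im (mL (h'.rh_one.2 hc) (one_mem _))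
  have l0 := h.im_cent p.xQ (h.ne_zero p)
  rw [e] at l0
  have l2 : commutator X1 ≤ (im ρ L).subgroupOf X1 := commutator_le.2 fun u _ v _ => by
    obtain ⟨c, hc, r1⟩ := mem_im'.1 (l0.ge ⟨h.le u.2.1, u.2.2⟩)
    obtain ⟨d, hd, r2⟩ := mem_im'.1 (l0.ge ⟨h.le v.2.1, v.2.2⟩)
    obtain ⟨_, s1⟩ := exists_rh (ρ := ρ') (mem_centralizer_singleton_iff.1 hc)
    obtain ⟨_, s2⟩ := exists_rh (ρ := ρ') (mem_centralizer_singleton_iff.1 hd)
    exact (((r1.mul r2).mul r1.inv).mul r2.inv).mem_im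
      (mL (((s1.mul s2).mul s1.inv).mul s2.inv) (K0_le_H0 (comm_K0 (h'.rh_NK s1) (h'.rh_NK s2))))
  have l3 : X1 ≤ im ρ L := fun u hu => by
    have : IsSimpleGroup (alternatingGroup (Fin 6)) := alternatingGroup.isSimpleGroup (by simp)
    obtain ⟨c, hc, e⟩ : psi ⟨u, hu⟩ ∈ (commutator X1).map psi := by
      rw [map_commutator_eq, MonoidHom.range_eq_top.2 psi_surj, ← _root_.commutator_def,
        commutator_alternatingGroup_eq_top (by simp)]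
      exact mem_top _
    exact (mul_mem_cancel_left (inv_mem (l2 hc))).1 (l1 (h2 (x := c⁻¹ * ⟨u, hu⟩) (by
      rw [MonoidHom.mem_ker, map_mul, map_inv, e, inv_mul_cancel])))
  have a2 : a ∈ stb (dv 85) := (l0.le (r.mem_im r'.1)).2
  have l4 : a ∈ im ρ L := by
    by_cases hK : a ∈ K0
    · exact l3 ⟨hK, a2⟩
    obtain ⟨g, hg, g2⟩ := SetLike.not_le_iff_exists.1 h3
    exact (mul_mem_cancel_right (l1 hg)).1 (l3 ⟨mul_K0' ha (h1 hg) hK g2, mul_mem a2 (e ▸ (h.im_le_stb p hg).2)⟩)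
  obtain ⟨_, ⟨c, hc, rfl⟩, r1⟩ := mem_im'.1 l4
  have r2 : Rh ρ' c (ρ' c) := ⟨c.2, rfl⟩
  have m := r1.inv.mul r
  rw [inv_mul_cancel, h.rh_one] at m
  exact (mul_mem_cancel_left (inv_mem (show ρ' c ∈ H0 from hc))).1 ((h'.im_H0 p.symm).1 ((r2.inv.mul r').mem_im m))

theorem exists_x (h : FE Q z ρ κ) (hs : sw ∈ ρ.range) : ∃ x y, ∃ B ≤ Q, Rh ρ x sw ∧ x * x = 1 ∧ 1024 ≤ Nat.card B ∧
    y ∈ B ∧ y * y = z ∧ (∀ b ∈ B, b * y = y * b) ∧ ∀ b ∈ B, b * x = x * b := by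
  obtain ⟨⟨c, hc⟩, e⟩ := hs
  have r : Rh ρ c sw := ⟨hc, e⟩
  obtain ⟨q, hq, e⟩ := h.hQ.exists_conj_eq_conj (U := h.Fx r) (fun _ m => m.1) fun u hu => (h.fix_iff r hu.1).1 hu.2
  have r1 := (h.rh_one.2 hq).inv.mul r
  rw [inv_one, one_mul] at r1
  have c1 : ∀ u ∈ h.Fx r, u * (q⁻¹ * c) = q⁻¹ * c * u := fun u hu =>
    calc u * (q⁻¹ * c) = q⁻¹ * (q * u * q⁻¹) * c := by group
      _ = _ := by rw [e u hu]; group
  generalize q⁻¹ * c = d at r1 c1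
  have c2 : d * d = 1 ∨ d * d = z := h.hQ.cent _ (h.rh_one.1 (sw_sq ▸ r1.mul r1)) fun u hu => by
    have m := mul_mem (inv_mem hu) (h.rh_conj r1 hu)
    have k : κ (u⁻¹ * (d * u * d⁻¹)) = κ u + sw (κ u) := by
      rw [h.mul (inv_mem hu) (h.rh_conj r1 hu), h.kinv hu, h.rh_act r1 hu]
    have k1 := c1 _ ⟨m, by rw [k, sw_lin.1, ← Perm.mul_apply, sw_sq, add_comm]; rfl⟩
    have k2 := sqF_eq_zero.1 ((h.sq m).symm.trans (k ▸ q0_W0 (funext fun i => by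
      fin_cases i
      exacts [(by decide +kernel : ∀ a b : K4, a + b + (b + a) = 0) _ _,
        (by decide +kernel : ∀ a b : K4, a + a + (b + b) = 0) _ _,
        (by decide +kernel : ∀ a b : K4, a + a + (b + b) = 0) _ _])))
    calc d * d * u = u * (u⁻¹ * (d * u * d⁻¹)) * (d * (u⁻¹ * (d * u * d⁻¹))) * d := by group
      _ = _ := by rw [← k1, ← mul_assoc, mul_assoc u, k2, mul_one, mul_assoc]
  obtain ⟨y, hy, e⟩ := h.surj (Pi.single 2 1)
  have y1 : y ∈ h.Fx r := ⟨hy, by rw [e]; decide +kernel⟩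
  have y2 : y * y = z := (h.hQ.sq hy).resolve_left fun f => absurd ((h.sq hy).trans (sqF_eq_zero.2 f)) (by
    rw [e]; decide +kernel)
  have b1 := xs_card_le_two_mul (A := h.Fx r) h.hQ.toXS (fun _ m => m.1) hy
  have b2 := h.card_Fx r
  have b3 := fix_sw
  have b4 : ∀ b ∈ h.Fx r ⊓ centralizer {y}, b * y = y * b := fun b hb => mem_centralizer_singleton_iff.1 hb.2
  obtain ⟨x, x1, x2, x3⟩ : ∃ x, Rh ρ x sw ∧ x * x = 1 ∧ ∀ b ∈ h.Fx r ⊓ centralizer {y}, b * x = x * b := by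
    rcases c2 with c2 | c2
    · exact ⟨d, r1, c2, fun b hb => c1 b hb.1⟩
    · exact ⟨d * y, mul_one sw ▸ r1.mul (h.rh_one.2 hy), by
        rw [mul_assoc, ← mul_assoc y, c1 y y1, mul_assoc, y2, ← mul_assoc, c2, h.hQ.zz],
        fun b hb => (comm_mul (c1 b hb.1).symm (b4 b hb).symm).symm⟩
  exact ⟨x, y, h.Fx r ⊓ centralizer {y}, fun _ m => m.1.1, x1, x2, by omega, ⟨y1, mem_centralizer_singleton_iff.2 rfl⟩, y2, b4, x3⟩

omit [Finite G] in
theorem rel_H0 (h : FE Q z ρ κ) (hs : sw ∈ ρ.range) : H0.relIndex ρ.range = 2 :=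
  relIndex_eq_two_iff_exists_notMem_and.2 ⟨sw, hs, sw_not_H0, fun _ hb => or_iff_not_imp_right.2 (mul_sw_H0 (h.range_le hb))⟩

theorem exists_two (h : FE Q z ρ κ) (hs : sw ∈ ρ.range) : ∃ K : Subgroup G, K.index = 2 := by
  obtain ⟨x, y, B, hB, r, xx, b1, b2, b3, b4, b5⟩ := h.exists_x hs
  refine H19.Kd.transfer_ext (odd_index h.hQ) (M := (H0.comap ρ).map (centralizer ({z} : Set G)).subtype)
    (map_subtype_le _) ?_ (h.hQ.isPGroup.to_le hB) xx b5 fun g hg ⟨c, hc, e⟩ => sw_not_H0 ?_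
  · rw [relIndex, subgroupOf, comap_map_eq_self_of_injective (subtype_injective _), index_comap, h.rel_H0 hs]
  have r1 : Rh ρ (g * x * g⁻¹) (ρ c) := e ▸ ⟨c.2, rfl⟩
  have zB : z ∈ B := b3 ▸ mul_mem b2 b2
  by_cases e1 : g * z * g⁻¹ = z
  · obtain ⟨t, r2⟩ := exists_rh (ρ := ρ) (mul_inv_eq_iff_eq_mul.1 e1)
    have := H0_conj (inv_mem (h.rh_NK r2)) (show ρ c ∈ H0 from hc)
    rw [r1.uniq ((r2.mul r).mul r2.inv)] at this
    simpa [mul_assoc] using this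
  by_cases e2 : g * z * g⁻¹ ∈ Q
  · exact h.both (h.cjg g) (h.hQ.pair (by rw [h.card]; norm_num) e2 e1) r1 (rh_cj r) hc
  exfalso
  have le : cj B g ≤ centralizer {z} := by rintro _ ⟨b, hb, rfl⟩; exact hg b hb
  have h' := h.cjg g
  have h1 := h.card_im (cj B g)
  have h2 := cen_le_four h'.hQ.toXS h'.card (cj_mono hB g) (I := Q ⊓ cj B g) (y := g * y * g⁻¹) (by rwa [card_cj])
    ⟨y, b2, rfl⟩ (by rw [conj_mul, b3]) (by rintro _ ⟨b, hb, rfl⟩; exact comm_conj (b4 b hb) g) inf_le_right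
    (fun m => e2 m.1) fun i hi b hb => by_contra fun n => e2 (h'.hQ.commutator_eq_z (cj_mono hB g hb) (cj_mono hB g hi.2) n ▸
      mul_mem (h.hQ.conj_mem (mem_centralizer_singleton_iff.1 (le hb)) (mem_inf.1 hi).1) (inv_mem (mem_inf.1 hi).1))
  obtain ⟨ζ, r2⟩ := exists_rh (ρ := ρ) (mem_centralizer_singleton_iff.1 (hg z zB))
  have h3 := factA128 (h.im_NK (cj B g)) (ζ := ζ) fun b hb => by
    obtain ⟨c, hc, s⟩ := mem_im'.1 hb
    exact (h'.hQ.sq (cj_mono hB g hc)).imp (fun e => (e ▸ s.mul s).uniq Rh.one) fun e => (e ▸ s.mul s).uniq r2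
  rw [inf_eq_left.2 le, card_cj] at h1
  nlinarith

theorem K_le (h : FE Q z ρ κ) {E : Subgroup G} (hi : E.index = 2) : K0.comap ρ ≤ E.subgroupOf _ := by
  have := normal_of_index_eq_two hi
  have cm : ∀ a b : G, a * b * a⁻¹ * b⁻¹ ∈ E := fun a b => by
    simp only [mul_mem_iff_of_index_two hi, inv_mem_iff]; tauto
  have hz : z ∈ E := by
    obtain ⟨a, ha, b, hb, n⟩ := h.hQ.nonab
    exact h.hQ.commutator_eq_z ha hb n ▸ cm a b
  have hQ : Q ≤ E := fun y hy => by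
    obtain ⟨x, e⟩ := h.le Dm_one_mem_K0
    have r : Rh ρ x (Dm 1) := ⟨x.2, e⟩
    obtain ⟨u, hu, e⟩ := h.surj (w • w • κ y)
    have m := h.rh_conj (r.mul r) hu
    have m2 : x * x * u * (x * x : G)⁻¹ * u⁻¹ ∈ E := cm _ _
    rcases (h.eq_iff (mul_mem m (inv_mem hu)) hy).1 (by
      rw [h.mul m (inv_mem hu), h.kinv hu, h.rh_act (r.mul r) hu, e, Perm.mul_apply, Dm_one_apply, Dm_one_apply, www,
        ← add_eq_zero_V0, add_comm, ← add_assoc, w_cube]) with e | e <;> rw [e]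
    exacts [m2, mul_mem m2 hz]
  have hK : commutator K0 ≤ (im ρ E).subgroupOf K0 := commutator_le.2 fun u _ v _ => by
    obtain ⟨a, e1⟩ := h.le u.2
    obtain ⟨b, e2⟩ := h.le v.2
    exact ⟨a * b * a⁻¹ * b⁻¹, cm _ _, by rw [map_mul, map_mul, map_mul, map_inv, map_inv, e1, e2]; rfl⟩
  intro c hc
  obtain ⟨d, hd, e⟩ := hK (K0_perfect.ge (mem_top ⟨_, hc⟩))
  exact (mul_mem_cancel_left (inv_mem hd)).1 (hQ ((h.ker (d⁻¹ * c)).1 (by
    rw [map_mul, map_inv, e]; exact inv_mul_cancel _)))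

end FE

end Cfsg.Agent.H60
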