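import Mathlib

/-! Arithmetic and eigenspace counts for the three primes theorem. -/

set_option autoImplicit false

namespace Cfsg.Agent.H60.Pf

open Module Polynomial

theorem lte {u A j np e : ℕ} (hu : u.Prime) (hA : u ∣ A - 1) (A2 : 2 ≤ A)
    (h : (A ^ u) ^ j - 1 = np * (A ^ u - 1)) (hJ : u ^ e ∣ np) : u ^ e ∣ j := by
  have B1 : 1 < A ^ u := Nat.one_lt_pow hu.ne_zero A2
  have B2 : 1 ≤ (A ^ u) ^ j := Nat.one_le_pow _ _ (by omega)
  zify [B1.le, B2, show 1 ≤ A by omega] at h hA hJ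
  have pu : Prime (u : ℤ) := Nat.prime_iff_prime_int.1 hu
  have d1 : (u : ℤ) ∣ A ^ u - 1 := hA.trans (sub_one_dvd_pow_sub_one _ _)
  have d2 : ¬ (u : ℤ) ∣ A ^ u := fun d => pu.not_dvd_one (by simpa using dvd_sub d d1)
  have key : emultiplicity (u : ℤ) (((A : ℤ) ^ u) ^ j - 1 ^ j) =
      emultiplicity (u : ℤ) ((A : ℤ) ^ u - 1) + emultiplicity u j := by
    rcases hu.eq_two_or_odd' with rfl | ho
    · rw [← Int.natCast_emultiplicity]
      refine Int.two_pow_sub_pow' j ?_ d2
      obtain ⟨k, hk⟩ := hA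
      exact ⟨k * (k + 1), by rw [show (A : ℤ) = 2 * k + 1 by push_cast at hk; omega]; ring⟩
    · exact Int.emultiplicity_pow_sub_pow hu ho d1 d2 j
  rw [one_pow, h, emultiplicity_mul pu, add_comm] at key
  have f : emultiplicity (u : ℤ) ((A : ℤ) ^ u - 1) ≠ ⊤ := by
    refine finiteMultiplicity_iff_emultiplicity_ne_top.1
      (Int.finiteMultiplicity_iff.2 ⟨by simpa using hu.ne_one, ?_⟩)
    have : (1 : ℤ) < A ^ u := by exact_mod_cast B1
    omega
  exact pow_dvd_of_le_emultiplicity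
    ((le_emultiplicity_of_pow_dvd hJ).trans_eq (ENat.add_right_injective_of_ne_top f key))

theorem arith {u q a c np i iP e : ℕ} (hu : u.Prime) (hq : u ∣ q - 1) (q2 : 2 ≤ q) (hc : 0 < c)
    (h1 : (q ^ a) ^ u - 1 = np * ((q ^ c) ^ u - 1)) (hn : 1 < np)
    (h2 : i * (q ^ a - 1) = np * iP * (q ^ c - 1)) (hi : 0 < iP) (hJ : u ^ e ∣ np)
    (h3 : e = 0 → i ≤ iP) (h4 : i ≤ 4 * u ^ e * iP) (h5 : u = 2 → e ≠ 1) : False := by
  have u2 := hu.two_le
  obtain ⟨j, rfl⟩ : c ∣ a := by
    have k := Nat.pow_sub_one_gcd_pow_sub_one q (c * u) (a * u)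
    rw [Nat.gcd_eq_left (by rw [pow_mul, pow_mul, h1]; exact dvd_mul_left _ _)] at k
    have p1 := Nat.one_le_pow (c * u) q (by omega)
    have p2 := Nat.one_le_pow ((c * u).gcd (a * u)) q (by omega)
    have k1 := Nat.pow_right_injective q2 (show q ^ (c * u) = q ^ (c * u).gcd (a * u) by omega)
    exact Nat.dvd_of_mul_dvd_mul_right hu.pos (k1 ▸ Nat.gcd_dvd_right _ _)
  have hA : u ∣ q ^ c - 1 := hq.trans (Nat.sub_one_dvd_pow_sub_one q c)
  have A2 : 2 ≤ q ^ c := Nat.one_lt_pow hc.ne' q2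
  rw [pow_mul] at h1 h2
  generalize q ^ c = A at *
  have Au : u + 1 ≤ A := by have := Nat.le_of_dvd (by omega) hA; omega
  have B1 : 1 < A ^ u := Nat.one_lt_pow hu.ne_zero A2
  have hj : u ^ e ∣ j := lte hu hA A2 (by rw [← h1, ← pow_mul, ← pow_mul, mul_comm]) hJ
  have j2 : 2 ≤ j := by
    by_contra k
    obtain rfl | rfl : j = 0 ∨ j = 1 := by omega
    · rw [pow_zero, one_pow, Nat.sub_self, eq_comm, Nat.mul_eq_zero] at h1
      omega
    · rw [pow_one] at h1
      have := Nat.mul_lt_mul_of_lt_of_le hn (le_refl (A ^ u - 1)) (by omega)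
      omega
  have S1 : 1 < A ^ j := Nat.one_lt_pow (by omega) A2
  obtain ⟨w, rfl⟩ : ∃ w, u = w + 1 := ⟨u - 1, by omega⟩
  obtain ⟨r, hr⟩ : ∃ r, j * w = w + 1 + r := ⟨j * w - (w + 1), by
    have : 2 * w ≤ j * w := Nat.mul_le_mul_right _ j2
    omega⟩
  have key : ∀ m, i ≤ m * iP → (A - 1) * A ^ r < m := fun m hm => by
    have p1 : (A ^ j) ^ w = A ^ (w + 1) * A ^ r := by rw [← pow_mul, hr, pow_add]
    have p2 : 1 ≤ (A ^ j) ^ w := Nat.one_le_pow _ _ (by omega)
    have p3 : 1 ≤ (A ^ j) ^ (w + 1) := Nat.one_le_pow _ _ (by omega)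
    rw [pow_succ (A ^ j), p1] at h1 p3
    rw [p1] at p2
    generalize A ^ j = S at *
    generalize A ^ (w + 1) = B at *
    generalize A ^ r = R at *
    by_contra k
    zify [B1.le, S1.le, p3, show 1 ≤ A by omega] at h1 h2 hm k hi B1 S1 p2 A2
    have e1 : (i : ℤ) * (S - 1) * (B - 1) = iP * (A - 1) * (B * R * S - 1) := by
      rw [h2, h1]; ring
    have i0 : (0 : ℤ) ≤ i := Int.natCast_nonneg _
    have e2 : (i : ℤ) ≤ (A - 1) * R * iP := hm.trans (mul_le_mul_of_nonneg_right (not_lt.1 k) hi.le)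
    have e3 : (i : ℤ) * ((S - 1) * (B - 1)) ≤ (A - 1) * R * iP * ((S - 1) * (B - 1)) :=
      mul_le_mul_of_nonneg_right e2 (mul_nonneg (by omega) (by omega))
    have e4 : (0 : ℤ) < iP * (A - 1) := mul_pos hi (by omega)
    have R0 : (0 : ℤ) ≤ R := Int.natCast_nonneg _
    have e5 : (R : ℤ) * ((S - 1) * (B - 1)) < B * R * S - 1 := by
      have : (0 : ℤ) < R := lt_of_le_of_ne R0 fun e => by rw [← e, mul_zero] at p2; omega
      nlinarith
    nlinarith
  have R1 : 1 ≤ A ^ r := Nat.one_le_pow _ _ (by omega)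
  rcases Nat.eq_zero_or_pos e with rfl | e0
  · have := key 1 (by rw [one_mul]; exact h3 rfl)
    have := Nat.mul_le_mul (show 1 ≤ A - 1 by omega) R1
    omega
  have k1 := key (4 * j) (h4.trans (Nat.mul_le_mul_right _
    (Nat.mul_le_mul_left _ (Nat.le_of_dvd (by omega) hj))))
  have k2 := Nat.le_of_dvd (by omega) hj
  rcases (show w = 1 ∨ 2 ≤ w by omega) with rfl | w2
  · have e2 : 2 ≤ e := by have := h5 rfl; omega
    have := Nat.pow_le_pow_right (show 0 < 1 + 1 by omega) e2
    have b : ∀ k, 2 * (k + 4) ≤ 3 ^ (k + 2) := fun k => by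
      induction k with
      | zero => norm_num
      | succ k ih => rw [show k + 1 + 2 = k + 2 + 1 by ring, pow_succ]; omega
    obtain ⟨k, rfl⟩ : ∃ k, r = k + 2 := ⟨r - 2, by omega⟩
    have := b k
    have := Nat.mul_le_mul (show 2 ≤ A - 1 by omega) (Nat.pow_le_pow_left (show 3 ≤ A by omega) (k + 2))
    omega
  · have := Nat.pow_le_pow_right (show 0 < w + 1 by omega) e0
    have r1 : j ≤ r := by nlinarith
    have b : ∀ k, 2 * k ≤ 4 ^ k := fun k => by
      induction k with
      | zero => norm_num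
      | succ k ih =>
        have := Nat.one_le_pow k 4 (by omega)
        rw [pow_succ]; omega
    have := b r
    have := Nat.mul_le_mul (show 2 ≤ A - 1 by omega) (Nat.pow_le_pow_left (show 4 ≤ A by omega) r)
    omega

/-- the eigenspaces of an element of prime order are permuted cyclically -/
theorem finrank_eq {K W : Type*} [Field K] [AddCommGroup W] [Module K W] [Module.Finite K W]
    {f g : Module.End K W} {u : ℕ} {ζ : K} (hu : 0 < u) (hζ : IsPrimitiveRoot ζ u) (hf : f ^ u = 1)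
    (hg : Function.Injective g) (h : ∀ v, f (g v) = ζ • g (f v)) :
    finrank K W = finrank K (f.eigenspace 1) * u := by
  have m : Monotone fun i : ℕ => finrank K (f.eigenspace (ζ ^ i)) := monotone_nat_of_le_succ fun i =>
    LinearMap.finrank_le_finrank_of_injective
      (f := g.restrict (p := f.eigenspace (ζ ^ i)) (q := f.eigenspace (ζ ^ (i + 1))) fun v hv => by
        rw [Module.End.mem_eigenspace_iff] at hv ⊢
        rw [h, hv, map_smul, smul_smul, pow_succ'])
      fun x y e => Subtype.ext (hg (congrArg Subtype.val e))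
  have e : ∀ i ≤ u, finrank K (f.eigenspace (ζ ^ i)) = finrank K (f.eigenspace 1) := fun i hi =>
    le_antisymm ((m hi).trans_eq (by simp only []; rw [hζ.pow_eq_one]))
      (le_of_eq_of_le (by simp only []; rw [pow_zero]) (m i.zero_le))
  have k : ∀ n ≤ u, finrank K (LinearMap.ker (aeval f (∏ i ∈ Finset.range n, (X - C (ζ ^ i * 1))))) =
      finrank K (f.eigenspace 1) * n := fun n hn => by
    induction n with
    | zero =>
      rw [Finset.prod_range_zero, map_one, Module.End.one_eq_id, LinearMap.ker_id, finrank_bot,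
        mul_zero]
    | succ n ih =>
      have c : IsCoprime (∏ i ∈ Finset.range n, (X - C (ζ ^ i * 1))) (X - C (ζ ^ n * 1)) :=
        IsCoprime.prod_left fun i hi => isCoprime_X_sub_C_of_isUnit_sub (sub_ne_zero.2 fun e => by
          have := Finset.mem_range.1 hi
          have := hζ.pow_inj (by omega) (by omega) (mul_right_cancel₀ one_ne_zero e)
          omega).isUnit
      have := Submodule.finrank_sup_add_finrank_inf_eq
        (LinearMap.ker (aeval f (∏ i ∈ Finset.range n, (X - C (ζ ^ i * 1)))))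
        (LinearMap.ker (aeval f (X - C (ζ ^ n * 1))))
      rw [sup_ker_aeval_eq_ker_aeval_mul_of_coprime f c, (disjoint_ker_aeval_of_isCoprime f c).eq_bot,
        finrank_bot, ih (by omega), add_zero] at this
      rw [Finset.prod_range_succ, this, mul_add, mul_one, mul_one, ← e n (by omega),
        Module.End.eigenspace_def, map_sub, aeval_X, aeval_C, Algebra.algebraMap_eq_smul_one]
  rw [← k u le_rfl, ← X_pow_sub_C_eq_prod hζ hu (one_pow u), map_sub, map_pow, aeval_X, hf, map_one,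
    map_one, sub_self, LinearMap.ker_zero, finrank_top]

end Cfsg.Agent.H60.Pf
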