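import Cfsg.Agent.H4.PfDefs
import Cfsg.Agent.H7.CommCalc
import Cfsg.Agent.H53.FlavCount
import Cfsg.Agent.H58.DegG
import Cfsg.Agent.H60.PfA

/-! The counting lemma for the three primes theorem. -/

set_option autoImplicit false

namespace Cfsg.Agent.H60.Pf

open Cfsg Cfsg.Agent.H12.RO Cfsg.Agent.H4.Pf Module Subgroup MulAction
open scoped commutatorElement Pointwise

universe u

section Grp

variable {G : Type u} [Group G] [Finite G] {p : ℕ} [Fact p.Prime]

theorem ncard_conj {Y : Set G} (hY : ∀ x, ∀ y ∈ Y, x * y * x⁻¹ ∈ Y) (P Q : Sylow p G) :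
    (Y ∩ centralizer (P : Set G)).ncard = (Y ∩ centralizer (Q : Set G)).ncard := by
  have k : ∀ P Q : Sylow p G,
      (Y ∩ centralizer (P : Set G)).ncard ≤ (Y ∩ centralizer (Q : Set G)).ncard := fun P Q => by
    obtain ⟨x, rfl⟩ := exists_smul_eq G P Q
    refine Set.ncard_le_ncard_of_injOn (fun y => x * y * x⁻¹) (fun y hy => ⟨hY x y hy.1, ?_⟩)
      (fun a _ b _ e => by simpa using e) (Set.toFinite _)
    rintro _ ⟨g, hg, rfl⟩
    change x * g * x⁻¹ * _ = _ * (x * g * x⁻¹)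
    rw [conj_mul, conj_mul, hy.2 g hg]
  exact le_antisymm (k P Q) (k Q P)

variable {u : ℕ} [Fact u.Prime] {T : Subgroup G} [hN : T.Normal]

omit [Finite G] in
theorem cen_of_smul (pu : p ≠ u) (hT : IsPGroup u T) {t : G} (ht : t ∈ T) {P : Sylow p G}
    (e : t • P = P) : t ∈ centralizer (P : Set G) := fun g hg => by
  refine commutatorElement_eq_one_iff_mul_comm.1 (disjoint_def.1
    (IsPGroup.disjoint_of_ne p u pu _ _ P.isPGroup' hT) ?_ ?_)
  · rw [commutatorElement_def, mul_assoc, mul_assoc, ← mul_assoc t]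
    exact mul_mem hg ((mem_normalizer_iff.1 (Sylow.smul_eq_iff_mem_normalizer.1 e) _).1 (inv_mem hg))
  · exact mul_mem (hN.conj_mem t ht g) (inv_mem ht)

theorem index_dvd (pu : p ≠ u) (hT : IsPGroup u T) (P : Sylow p G) {J : ℕ}
    (hJ : Nat.card T = J * Nat.card ↥(T ⊓ centralizer (P : Set G))) :
    J ∣ Nat.card (Sylow p G) := by
  have := Fintype.ofFinite (orbitRel.Quotient T (Sylow p G))
  rw [Nat.card_congr (selfEquivSigmaOrbitsQuotientStabilizer T (Sylow p G)), Nat.card_sigma]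
  refine Finset.dvd_sum fun ω _ => dvd_of_eq ?_
  have e : stabilizer T ω.out = (T ⊓ centralizer (ω.out : Set G)).subgroupOf T := by
    ext t
    exact ⟨fun h => ⟨t.2, cen_of_smul pu hT t.2 h⟩, fun h =>
      Sylow.smul_eq_iff_mem_normalizer.2 (centralizer_le_normalizer _ h.2)⟩
  have k := index_mul_card (stabilizer T ω.out)
  have k1 : Nat.card (stabilizer T ω.out) = Nat.card ↥(T ⊓ centralizer (P : Set G)) := by
    rw [e, Nat.card_congr (subgroupOfEquivOfLe inf_le_left).toEquiv]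
    exact ncard_conj (Y := T) (fun x y hy => hN.conj_mem y hy x) ω.out P
  rw [k1, hJ] at k
  exact (Nat.eq_of_mul_eq_mul_right Nat.card_pos k).symm

/-- a partner centralising the Sylow subgroup -/
theorem partner (pu : p ≠ u) (hT : IsPGroup u T) (P : Sylow p G) {t x : G}
    (ht : t ∈ centralizer (P : Set G)) (hx : x ∈ T) (hc : ⁅x, t⁆ ∈ centralizer (P : Set G))
    (hn : ¬ Commute t x) : ∃ s ∈ T, s ∈ centralizer (P : Set G) ∧ ¬ Commute t s := by
  have h1 : x * t * x⁻¹ ∈ centralizer (P : Set G) := by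
    simpa [commutatorElement_def] using mul_mem hc ht
  have k := H53.Flav.card_modEq_pred P.isPGroup' (fun y => y ∈ T ∧ y * t * y⁻¹ = x * t * x⁻¹)
    fun g hg y hy => ⟨hN.conj_mem y hy.1 g, by
      calc _ = g * (y * (g⁻¹ * t * g) * y⁻¹) * g⁻¹ := by group
        _ = _ := by
          rw [ht _ ((P : Subgroup G).inv_mem hg), inv_mul_cancel_right, hy.2, h1 g hg, mul_inv_cancel_right]⟩
  have k1 : Nat.card {y // y ∈ T ∧ y * t * y⁻¹ = x * t * x⁻¹} =
      Nat.card ↥(T ⊓ centralizer {t}) := Nat.card_congr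
    { toFun y := ⟨x⁻¹ * y, T.mul_mem (T.inv_mem hx) y.2.1, mem_centralizer_singleton_iff.2 (by
        calc _ = x⁻¹ * (y * t * (y : G)⁻¹) * y := by group
          _ = _ := by rw [y.2.2]; group)⟩
      invFun c := ⟨x * c, T.mul_mem hx c.2.1, by
        rw [mul_assoc x, mem_centralizer_singleton_iff.1 c.2.2]; group⟩
      left_inv y := Subtype.ext (by simp)
      right_inv c := Subtype.ext (by simp) }
  obtain ⟨n, e⟩ := (hT.to_le (inf_le_left : T ⊓ centralizer {t} ≤ T)).exists_card_eq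
  by_contra hh
  have : IsEmpty {y // (y ∈ T ∧ y * t * y⁻¹ = x * t * x⁻¹) ∧ y ∈ centralizer ((P : Subgroup G) : Set G)} :=
    ⟨fun y => hh ⟨y, y.2.1.1, y.2.2, fun c => hn (by
      have := y.2.1.2
      rw [c.symm.mul_inv_cancel, eq_mul_inv_iff_mul_eq] at this
      exact this)⟩⟩
  rw [k1, e, Nat.card_of_isEmpty, Nat.modEq_zero_iff_dvd] at k
  exact pu ((Nat.prime_dvd_prime_iff_eq Fact.out Fact.out).1 ((Fact.out : p.Prime).dvd_of_dvd_pow k))

end Grp

variable {G V K : Type u} [Group G] [Finite G] [AddCommGroup V] [Finite V] [Nontrivial V]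
  [DistribMulAction G V] [Field K] [Finite K] [Module K V] {σ : G →* RingAut K}
  {U To E : Subgroup G} (h : Str G V K σ U To E)
include h

omit [Finite G] in
theorem eig_card {u : ℕ} (hu : u.Prime) {t s : G} (ht : σ t = 1) (hs : σ s = 1) (h1 : t ^ u = 1)
    (hU : ⁅t, s⁆ ∈ U) (hn : ¬ Commute t s) (X : Submodule K V) (Xt : ∀ v ∈ X, t • v ∈ X)
    (Xs : ∀ v ∈ X, s • v ∈ X) : u ∣ Nat.card K - 1 ∧ ∃ c,
      {v | v ∈ X ∧ t • v = v}.ncard = Nat.card K ^ c ∧ Nat.card X = (Nat.card K ^ c) ^ u := by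
  have := Fact.mk hu
  have := Fintype.ofFinite K
  obtain ⟨ζ, hζ⟩ := h.Usc _ hU
  obtain ⟨v, hv⟩ := exists_ne (0 : V)
  have k : ∀ n, ⁅t, s⁆ ^ n • v = ζ ^ n • v := fun n => by
    induction n with
    | zero => simp
    | succ n ih => rw [pow_succ', mul_smul, ih, hζ, smul_smul, pow_succ']
  have z1 : ζ ^ u = 1 := smul_left_injective K hv (by
    change ζ ^ u • v = (1 : K) • v
    rw [← k, ← H7.comm_pow_left (h.comm_U ht hU).symm, h1, commutatorElement_one_left, one_smul,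
      one_smul])
  have z2 : ζ ≠ 1 := fun e => hn (commutatorElement_eq_one_iff_commute.1
    (h.faith _ fun x => by rw [hζ, e, one_smul]))
  have pr : IsPrimitiveRoot ζ u := orderOf_eq_prime z1 z2 ▸ IsPrimitiveRoot.orderOf ζ
  refine ⟨pr.dvd_of_pow_eq_one _ (by
    rw [Nat.card_eq_fintype_card]
    exact FiniteField.pow_card_sub_one_eq_one ζ (pr.ne_zero hu.ne_zero)),
    finrank K (Module.End.eigenspace ((h.toEnd t ht).restrict Xt) 1), ?_, ?_⟩
  · rw [← Module.natCard_eq_pow_finrank, ← Nat.card_coe_set_eq]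
    exact Nat.card_congr
      { toFun w := ⟨⟨w, w.2.1⟩, Module.End.mem_eigenspace_iff.2
          (Subtype.ext (w.2.2.trans (one_smul K _).symm))⟩
        invFun w := ⟨w.1, w.1.2, (congrArg Subtype.val
          (Module.End.mem_eigenspace_iff.1 w.2)).trans (one_smul K _)⟩
        left_inv _ := rfl
        right_inv _ := rfl }
  · rw [← pow_mul, ← finrank_eq (g := (h.toEnd s hs).restrict Xs) hu.pos pr ?_
      (fun x y e => Subtype.ext (smul_left_cancel s (congrArg Subtype.val e)))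
      fun w => Subtype.ext ?_, Module.natCard_eq_pow_finrank (K := K)]
    · refine (Module.End.pow_restrict (f' := h.toEnd t ht) u Xt).trans ?_
      exact LinearMap.ext fun w => Subtype.ext ((h.toEnd_pow t ht u w).trans (by
        rw [h1, one_smul]; rfl))
    · change t • s • (w : V) = ζ • s • t • (w : V)
      rw [← hζ]
      simp [commutatorElement_def, mul_smul]

/-- the fixed space of a linear subgroup -/
def CV {P : Subgroup G} (hP : P ≤ σ.ker) : Submodule K V where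
  carrier := {v | ∀ g ∈ P, g • v = v}
  add_mem' ha hb g hg := by rw [smul_add, ha g hg, hb g hg]
  zero_mem' g _ := smul_zero g
  smul_mem' c v hv g hg := by rw [h.lin (hP hg), hv g hg]

theorem core {p : ℕ} [Fact p.Prime] (hp : p ∣ Nat.card G) (hq : Uq p G V)
    (hP : ∀ P : Sylow p G, (P : Subgroup G) ≤ σ.ker) {u : ℕ} (hu : u.Prime) {T : Subgroup G}
    [hN : T.Normal] (hT : IsPGroup u T) (Tσ : ∀ t ∈ T, σ t = 1) (TU : ∀ a ∈ T, ∀ b ∈ T, ⁅a, b⁆ ∈ U)
    (par : ∀ t ∈ T, t ∉ U → ∃ s ∈ T, ¬ Commute t s)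
    (qu : ∀ t ∈ T, t ^ u = 1 → ∀ x ∈ T, ¬ Commute t x → x ^ u = 1 ∨ (x * t) ^ u = 1)
    {t₀ : G} (h0 : t₀ ∈ T) (h1 : t₀ ^ u = 1) : t₀ ∈ U := by
  classical
  have := Fact.mk hu
  have := Fintype.ofFinite V
  have := Fintype.ofFinite G
  have := Fintype.ofFinite (Sylow p G)
  by_contra h2
  have triv : ∀ g : G, (∀ P : Sylow p G, g ∈ (P : Subgroup G)) → g = 1 := fun g hg =>
    h.faith g fun v => by
      by_cases hv : v = 0
      · rw [hv, smul_zero]
      · obtain ⟨P, k, -⟩ := hq v hv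
        exact k g (hg P)
  have pu : p ≠ u := fun e => h2 (by
    subst e
    rw [triv t₀ fun P => hT.le_sylow_of_normal P h0]
    exact one_mem _)
  have cen : ∀ t ∈ T, ∀ v : V, v ≠ 0 → t • v = v → ∀ P : Sylow p G,
      (∀ g ∈ (P : Subgroup G), g • v = v) → t ∈ centralizer (P : Set G) := fun t ht v hv e P k =>
    cen_of_smul pu hT ht ((hq v hv).unique (by
      rintro _ ⟨g, hg, rfl⟩
      change (t * g * t⁻¹) • v = v
      rw [mul_smul, mul_smul, inv_smul_eq_iff.2 e.symm, k g hg, e]) k)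
  let I : Set G := {t | t ∈ T ∧ t ∉ U ∧ t ^ u = 1}
  have i0 : t₀ ∈ I := ⟨h0, h2, h1⟩
  have V1 : 1 < Nat.card V := Finite.one_lt_card
  have eV : ∀ t ∈ I, u ∣ Nat.card K - 1 ∧ ∃ a, {v : V | t • v = v}.ncard = Nat.card K ^ a ∧
      Nat.card V = (Nat.card K ^ a) ^ u := fun t ht => by
    obtain ⟨s, hs, hn⟩ := par t ht.1 ht.2.1
    simpa using eig_card h hu (Tσ t ht.1) (Tσ s hs) ht.2.2 (TU t ht.1 s hs) hn ⊤
      (fun _ _ => trivial) fun _ _ => trivial
  have par' : ∀ P : Sylow p G, ∀ t ∈ I, t ∈ centralizer (P : Set G) →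
      ∃ s ∈ T, s ∈ centralizer (P : Set G) ∧ ¬ Commute t s := fun P t ht hc => by
    obtain ⟨x, hx, hn⟩ := par t ht.1 ht.2.1
    exact partner pu hT P hc hx (fun g hg => (h.comm_U (hP P hg) (TU x hx t ht.1)).symm) hn
  have eC : ∀ P : Sylow p G, ∀ t ∈ I, t ∈ centralizer (P : Set G) → ∃ c,
      {v : V | (∀ g ∈ (P : Subgroup G), g • v = v) ∧ t • v = v}.ncard = Nat.card K ^ c ∧
      Nat.card V - 1 = Nat.card (Sylow p G) * ((Nat.card K ^ c) ^ u - 1) := fun P t ht hc => by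
    obtain ⟨s, hs, sc, hn⟩ := par' P t ht hc
    have inv : ∀ x ∈ centralizer (P : Set G), ∀ v ∈ CV h (hP P), x • v ∈ CV h (hP P) :=
      fun x hx v hv g hg => by rw [← mul_smul, hx g hg, mul_smul, hv g hg]
    obtain ⟨-, c, e1, e2⟩ := eig_card h hu (Tσ t ht.1) (Tσ s hs) ht.2.2 (TU t ht.1 s hs) hn
      (CV h (hP P)) (inv t hc) (inv s sc)
    refine ⟨c, e1, ?_⟩
    have := cnt G V p hq P ⊤ fun _ _ _ => trivial
    rw [AddSubgroup.card_top] at this
    rw [this, ← e2]
    simp only [AddSubgroup.mem_top, true_and]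
    rfl
  obtain ⟨hK, a, a1, a2⟩ := eV t₀ i0
  obtain ⟨v₀, v1, v2⟩ : ∃ v : V, t₀ • v = v ∧ v ≠ 0 := by
    refine Set.exists_ne_of_one_lt_ncard (s := {v : V | t₀ • v = v}) ?_ 0
    rw [a1]
    refine Nat.one_lt_pow (fun e => ?_) Finite.one_lt_card
    rw [a2, e, pow_zero, one_pow] at V1
    omega
  obtain ⟨P, hPv, -⟩ := hq v₀ v2
  have c0 := cen t₀ h0 v₀ v2 v1 P hPv
  obtain ⟨c, c1, c2⟩ := eC P t₀ i0 c0
  have n1 : 1 < Nat.card (Sylow p G) := by
    by_contra k
    have := Finite.card_le_one_iff_subsingleton.1 (not_lt.1 k)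
    have k1 := P.dvd_card_of_dvd_card hp
    rw [show (P : Subgroup G) = ⊥ from eq_bot_iff.2 fun g hg =>
      triv g fun Q => Subsingleton.elim P Q ▸ hg, card_bot] at k1
    exact (Fact.out : p.Prime).not_dvd_one k1
  have iC : ∀ Q : Sylow p G, (I ∩ centralizer (Q : Set G)).ncard =
      (I ∩ centralizer (P : Set G)).ncard := fun Q => ncard_conj (Y := I) (fun x y hy =>
    ⟨hN.conj_mem y hy.1 x, fun k => hy.2.1 (by simpa [mul_assoc] using h.Un.conj_mem _ k x⁻¹),
      by rw [conj_pow, hy.2.2, mul_one, mul_inv_cancel]⟩) Q P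
  have dc : I.ncard * (Nat.card K ^ a - 1) = Nat.card (Sylow p G) *
      (I ∩ centralizer (P : Set G)).ncard * (Nat.card K ^ c - 1) := by
    let F : G → Sylow p G → Finset V := fun t Q =>
      Finset.univ.filter fun v => v ≠ 0 ∧ (∀ g ∈ (Q : Subgroup G), g • v = v) ∧ t • v = v
    have f1 : ∀ t ∈ I, Nat.card K ^ a - 1 = ∑ Q, (F t Q).card := fun t ht => by
      obtain ⟨-, a', b1, b2⟩ := eV t ht
      rw [← Nat.pow_left_injective hu.ne_zero (b2.symm.trans a2), ← b1,
        ← Set.ncard_sdiff_singleton_of_mem (show (0 : V) ∈ {v : V | t • v = v} from smul_zero t),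
        ← Finset.card_biUnion, ← Set.ncard_coe_finset]
      · congr 1
        ext v
        simp only [F, Finset.coe_biUnion, Finset.coe_univ, Set.mem_univ, Set.iUnion_true,
          Set.mem_iUnion, Finset.coe_filter, Finset.mem_univ, true_and, Set.mem_ofPred_eq,
          Set.mem_sdiff, Set.mem_singleton_iff]
        exact ⟨fun k => (hq v k.2).exists.imp fun Q hQ => ⟨k.2, hQ, k.1⟩,
          fun ⟨_, k⟩ => ⟨k.2.2, k.1⟩⟩
      · intro Q _ Q' _ hne
        refine Finset.disjoint_left.2 fun v k1 k2 => hne ?_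
        simp only [F, Finset.mem_filter, Finset.mem_univ, true_and] at k1 k2
        exact (hq v k1.1).unique k1.2.1 k2.2.1
    have f2 : ∀ t ∈ I, ∀ Q, (F t Q).card =
        if t ∈ centralizer (Q : Set G) then Nat.card K ^ c - 1 else 0 := fun t ht Q => by
      split_ifs with k
      · obtain ⟨c', b1, b2⟩ := eC Q t ht k
        have b3 := Nat.eq_of_mul_eq_mul_left (by omega) (b2.symm.trans c2)
        have p1 := Nat.one_le_pow u _ (Nat.pow_pos (n := c) (Nat.card_pos (α := K)))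
        have p2 := Nat.one_le_pow u _ (Nat.pow_pos (n := c') (Nat.card_pos (α := K)))
        rw [← Nat.pow_left_injective hu.ne_zero
          (show (Nat.card K ^ c') ^ u = (Nat.card K ^ c) ^ u by omega), ← b1,
          ← Set.ncard_sdiff_singleton_of_mem (show (0 : V) ∈ {v : V | (∀ g ∈ (Q : Subgroup G),
            g • v = v) ∧ t • v = v} from ⟨fun g _ => smul_zero g, smul_zero t⟩),
          ← Set.ncard_coe_finset]
        congr 1
        ext v
        simp only [F, Finset.coe_filter, Finset.mem_univ, true_and, Set.mem_ofPred_eq,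
          Set.mem_sdiff, Set.mem_singleton_iff]
        tauto
      · refine Finset.card_eq_zero.2 (Finset.filter_eq_empty_iff.2 fun v _ hv => k ?_)
        exact cen t ht.1 v hv.1 hv.2.2 Q hv.2.1
    have f3 : ∀ Q : Sylow p G, ∑ t ∈ I.toFinset, (F t Q).card =
        (I ∩ centralizer (P : Set G)).ncard * (Nat.card K ^ c - 1) := fun Q => by
      rw [Finset.sum_congr rfl fun t ht => f2 t (Set.mem_toFinset.1 ht) Q, ← Finset.sum_filter,
        Finset.sum_const, smul_eq_mul, ← iC Q, ← Set.ncard_coe_finset]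
      congr 2
      ext t
      simp
    rw [Set.ncard_eq_toFinset_card', ← smul_eq_mul, ← Finset.sum_const,
      Finset.sum_congr rfl fun t ht => f1 t (Set.mem_toFinset.1 ht), Finset.sum_comm,
      Finset.sum_congr rfl fun Q _ => f3 Q, Finset.sum_const, Finset.card_univ, smul_eq_mul,
      Nat.card_eq_fintype_card (α := Sylow p G), mul_assoc]
  obtain ⟨e, e1, e2⟩ := H58.DG.exists_pow_modEq P.isPGroup'
    (le_top.trans (normalizer_eq_top T).ge) pu hT
  have d4 : Nat.card ↥(T ⊓ centralizer (P : Set G)) ≤ 4 * (I ∩ centralizer (P : Set G)).ncard := by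
    obtain ⟨s, hs, sc, hn⟩ := par' P t₀ i0 c0
    let N : Set G := {x | x ∈ T ⊓ centralizer (P : Set G) ∧ ¬ Commute t₀ x}
    have im : ∀ (Y : Set G) (g : G), ((· * g) '' Y).ncard = Y.ncard := fun Y g =>
      Set.ncard_image_of_injective Y (mul_left_injective g)
    have k1 : ((T ⊓ centralizer (P : Set G) : Subgroup G) : Set G) ⊆ N ∪ (· * s⁻¹) '' N :=
      fun x hx => by
        by_cases k : Commute t₀ x
        · exact Or.inr ⟨x * s, ⟨mul_mem hx ⟨hs, sc⟩, fun k' => hn (by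
            simpa using k.inv_right.mul_right k')⟩, by simp⟩
        · exact Or.inl ⟨hx, k⟩
    have nU : ∀ x, ¬ Commute t₀ x → x ∉ U := fun x k hx => k (h.comm_U (Tσ t₀ h0) hx).symm
    have k2 : N ⊆ (I ∩ centralizer (P : Set G)) ∪ (· * t₀⁻¹) '' (I ∩ centralizer (P : Set G)) :=
      fun x hx => (qu t₀ h0 h1 x hx.1.1 hx.2).imp (fun k => ⟨⟨hx.1.1, nU x hx.2, k⟩, hx.1.2⟩)
        fun k => ⟨x * t₀, ⟨⟨mul_mem hx.1.1 h0, nU _ fun k' => hx.2 (by
          simpa using k'.mul_right (Commute.refl t₀).inv_right), k⟩, mul_mem hx.1.2 c0⟩, by simp⟩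
    have k3 := (Set.ncard_le_ncard k1 (Set.toFinite _)).trans (Set.ncard_union_le _ _)
    have k4 := (Set.ncard_le_ncard k2 (Set.toFinite _)).trans (Set.ncard_union_le _ _)
    rw [im] at k3 k4
    change ((T ⊓ centralizer (P : Set G) : Subgroup G) : Set G).ncard ≤ _
    omega
  refine arith hu hK Finite.one_lt_card (Nat.pos_of_ne_zero fun k => ?_) (a2 ▸ c2) n1 dc
    ((Set.ncard_pos (Set.toFinite _)).2 ⟨t₀, i0, c0⟩) (index_dvd pu hT P e2) (fun k => ?_) ?_
    fun k k' => ?_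
  · rw [k, pow_zero, one_pow, Nat.sub_self, mul_zero] at c2
    omega
  · rw [k, pow_zero, one_mul] at e2
    exact Set.ncard_le_ncard (fun t ht => ⟨ht, ((eq_of_le_of_card_ge inf_le_left e2.le).ge ht.1).2⟩)
      (Set.toFinite _)
  · calc _ ≤ (T : Set G).ncard := Set.ncard_le_ncard (fun t ht => ht.1) (Set.toFinite _)
      _ = _ := e2
      _ ≤ u ^ e * (4 * _) := Nat.mul_le_mul_left _ d4
      _ = _ := by ring
  · rw [k, k'] at e1
    exact (Fact.out : p.Prime).not_dvd_one ((Nat.modEq_iff_dvd' (by norm_num)).1 e1.symm)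

omit h in
/-- **N** -/
theorem n : NStmt.{u} := by
  intro G V K _ _ _ _ _ _ _ _ _ σ U To E h p _ hp hq hP
  refine ⟨fun t ht => ?_, fun t ht h1 => ?_⟩
  · obtain ⟨n, ho, hs, hn⟩ := h.expo
    have := h.Un
    by_contra h2
    have m1 : orderOf (t : G ⧸ U) ≠ 1 := fun e =>
      h2 ((QuotientGroup.eq_one_iff t).1 (orderOf_eq_one_iff.1 e))
    obtain ⟨u, hu, d1⟩ := Nat.exists_prime_and_dvd m1
    obtain ⟨k, rfl⟩ : u ∣ n := d1.trans (orderOf_dvd_of_pow_eq_one (by
      rw [← QuotientGroup.mk_pow, hn t ht, QuotientGroup.mk_one]))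
    have uk : ¬ u ∣ k := fun d => hu.ne_one (Nat.isUnit_iff.1 (hs u (mul_dvd_mul_left u d)))
    have u2 : u ≠ 2 := fun e => Nat.not_even_iff_odd.2 ho (e ▸ even_two.mul_right k)
    have cm : ∀ a ∈ To, ∀ b ∈ To, ∀ c ∈ To, Commute c ⁅a, b⁆ := fun a ha b hb c hc =>
      (h.comm_U (h.σT c hc) (h.commT a ha b hb)).symm
    let T : Subgroup G :=
      { carrier := {t | t ∈ To ∧ t ^ u = 1}
        one_mem' := ⟨one_mem _, one_pow _⟩
        mul_mem' := fun {a b} ha hb => ⟨mul_mem ha.1 hb.1, H7.mul_pow_eq_one_of_class2 hu u2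
          (cm b hb.1 a ha.1 a ha.1) (cm b hb.1 a ha.1 b hb.1) ha.2 hb.2⟩
        inv_mem' := fun {a} ha => ⟨inv_mem ha.1, by rw [inv_pow, ha.2, inv_one]⟩ }
    have : T.Normal := ⟨fun a ha g => ⟨h.Ton.conj_mem a ha.1 g, by
      rw [conj_pow, ha.2, mul_one, mul_inv_cancel]⟩⟩
    have pk : ∀ s ∈ To, s ^ k ∈ T := fun s hs =>
      ⟨pow_mem hs k, by rw [← pow_mul, mul_comm, hn s hs]⟩
    have key := core h hp hq hP hu (T := T) (fun a => ⟨1, Subtype.ext (by simpa using a.2.2)⟩)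
      (fun a ha => h.σT a ha.1) (fun a ha b hb => h.commT a ha.1 b hb.1) (fun a ha k1 => by
        obtain ⟨s, k2⟩ := not_forall.1 fun k => k1 (h.cent a (h.σT a ha.1) k (h.comm a ha.1))
        obtain ⟨hs', k3⟩ := Classical.not_imp.1 k2
        refine ⟨s ^ k, pk s hs', fun k4 => k3 (commutatorElement_eq_one_iff_commute.1 ?_)⟩
        have z1 : ⁅a, s⁆ ^ u = 1 := by
          rw [← H7.comm_pow_left (cm a ha.1 s hs' a ha.1), ha.2, commutatorElement_one_left]
        have z2 : ⁅a, s⁆ ^ k = 1 := by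
          rw [← H7.comm_pow_right (cm a ha.1 s hs' s hs'), k4.commutator_eq]
        exact (pow_eq_one_iff_of_coprime (hu.coprime_iff_not_dvd.2 uk)).1 ⟨z1, z2⟩)
      (fun _ _ _ x hx _ => Or.inl hx.2) (pk t ht) (pk t ht).2
    exact uk (d1.trans (orderOf_dvd_of_pow_eq_one (by
      rw [← QuotientGroup.mk_pow, (QuotientGroup.eq_one_iff _).2 key])))
  · have := h.En
    refine core h hp hq hP Nat.prime_two (T := E) (fun a => ⟨2, Subtype.ext ?_⟩) h.σE h.commE
      (fun a ha k1 => ?_) (fun a ha a2 x hx k => (h.E_sq hx).imp id fun k1 => h.faith _ fun v => ?_)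
      ht h1
    · have := h.EU _ (pow_mem a.2 2) (h.sqE a a.2)
      rw [← pow_mul] at this
      exact this
    · obtain ⟨s, k2⟩ := not_forall.1 fun k => k1 (h.cent a (h.σE a ha)
        (fun b hb => (h.comm b hb a ha).symm) k)
      exact ⟨s, Classical.not_imp.1 k2⟩
    · rw [sq, mul_smul, mul_smul, mul_smul, (h.E_comm ha hx).resolve_left k, smul_neg, k1, neg_neg,
        ← mul_smul, ← sq, a2, one_smul]

end Cfsg.Agent.H60.Pf
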