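import Cfsg.Agent.H40.SgDefs
import Cfsg.Agent.S0191
import Cfsg.Agent.H13.Solomon

/-! Project SG: two fixed characters of odd degree in the principal `2`-block are linear. -/

set_option autoImplicit false
open Cfsg

namespace Cfsg.Agent.H60.SgTrk

open Cfsg.Agent.H40.Sg Cfsg.Agent.H19

universe u

variable {G : Type u} [Group G] [Finite G] {M : Ideal Cfsg.AlgInt}

open Classical in
theorem sum_red [Fintype (IrrCharacter G)] {p : ℕ} (hM : IsPModular p M)
    {B : Set (IrrCharacter G)} (hB : IsPBlock M B) (hG : p ∣ Nat.card G) {x : G}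
    (hx : ¬ p ∣ orderOf x) :
    ∑ χ ∈ Finset.univ.filter (· ∈ B), (charDegree χ.1 : kk M) * red M (χ.1 x) = 0 := by
  have : Fact p.Prime := ⟨hM.1⟩
  let _ := Fintype.ofFinite G
  obtain ⟨y, hy⟩ := exists_prime_orderOf_dvd_card' (G := G) p hG
  have h := H21.weak_orth' hM hB (x := y) (y := x⁻¹) (hy ▸ dvd_rfl) (by rwa [orderOf_inv])
  rw [H17.finsum_mem_irr] at h
  have h2 := congrArg (red M) h
  rw [red_zero, red_sum] at h2
  · rw [← h2]
    refine Finset.sum_congr rfl fun χ _ => ?_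
    rw [H11.conj_apply (H11.irr_isCharacter χ), inv_inv,
      red_mul (irr_mem_Vr χ y) (irr_mem_Vr χ x),
      red_char_p_elem hM (H11.irr_isCharacter χ) (x := y) (k := 1)
        (by rw [pow_one, ← hy, pow_orderOf_eq_one]),
      ← charDegree_cast_irr, red_natCast]
  · intro χ _
    rw [H11.conj_apply (H11.irr_isCharacter χ)]
    exact mul_mem (irr_mem_Vr χ _) (irr_mem_Vr χ _)

theorem lin (χ : IrrCharacter G) (nz : ∀ g, χ.1 g ≠ 0) : χ.1 1 = 1 := by
  obtain ⟨χ, n, ρ, hρ, rfl⟩ := χ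
  have h1 : ρ.character 1 = (Module.finrank ℂ (Fin n → ℂ) : ℂ) := ρ.char_one
  change ρ.character 1 = 1
  rw [h1]
  rcases lt_trichotomy 1 (Module.finrank ℂ (Fin n → ℂ)) with l | l | l
  · obtain ⟨g, hg⟩ := S0191.result ρ l
    exact absurd hg (nz g)
  · rw [← l, Nat.cast_one]
  · exact absurd (h1.trans (by rw [Nat.lt_one_iff.1 l, Nat.cast_zero])) (nz 1)

theorem trk : TrkStmt.{u} := by
  intro G _ _ M hM hev k hk₁ hk₂ h2 χ
  classical
  let _ : Fintype (Cfsg.IrrCharacter G) := Fintype.ofFinite _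
  have := charP_kk hM
  have hk₂' : ∀ g : G, (orderOf g).Coprime 2 → g ^ k = g := fun g h =>
    hk₂ g (Nat.coprime_two_right.1 h)
  have hk := coprime_of_parts Nat.prime_two (by norm_num) hk₁ hk₂'
  have hpow := pow_pow_eq_of_parts Nat.prime_two (by norm_num [Nat.ModEq]) hk₁ hk₂'
  have key : ∀ x : G, (orderOf x).Coprime 2 → ∑ ψ : Fx (G := G) M k, red M (ψ.1.1 x) = 0 := by
    intro x hx
    have h0 := sum_red hM (isPBlock_principalBlock (G := G)) hev.two_dvd (x := x)
      ((Nat.Prime.coprime_iff_not_dvd Nat.prime_two).1 hx.symm)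
    rw [Finset.sum_filter, sum_irr_eq_sum_fixed Nat.prime_two hk hpow] at h0
    · rw [← Finset.sum_subtype (Finset.univ.filter fun ψ : IrrCharacter G =>
        ψ ∈ Cfsg.principalBlock M G ∧ Odd (Cfsg.charDegree (ψ : G → ℂ)) ∧
          ∀ g : G, (ψ : G → ℂ) (g ^ k) = (ψ : G → ℂ) g) (by simp) fun ψ => red M (ψ.1 x), ← h0,
        Finset.sum_filter, Finset.sum_filter]
      refine Finset.sum_congr rfl fun χ _ => ?_
      by_cases h1 : χ ∈ Cfsg.principalBlock M G
      · by_cases h2 : ∀ g : G, χ.1 (g ^ k) = χ.1 g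
        · rcases Nat.even_or_odd (Cfsg.charDegree χ.1) with h3 | h3
          · have : (Cfsg.charDegree χ.1 : kk M) = 0 :=
              (CharP.cast_eq_zero_iff (kk M) 2 _).2 h3.two_dvd
            simp [h1, h2, Nat.not_odd_iff_even.2 h3, this]
          · have : (Cfsg.charDegree χ.1 : kk M) = 1 := by
              obtain ⟨j, hj⟩ := h3
              have h2 : ((2 : ℕ) : kk M) = 0 := CharP.cast_eq_zero _ 2
              rw [hj, Nat.cast_add, Nat.cast_mul, h2, zero_mul, zero_add, Nat.cast_one]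
            simp [h1, h2, h3, this]
        · simp [h2]
      · simp [h1]
    · intro χ
      simp only [powIrr_mem_principalBlock_iff, charDegree_powIrr, powIrr_apply, hk₂' x hx]
    · intro χ
      rw [nsmul_eq_mul, CharP.cast_eq_zero, zero_mul]
  let o : Fx (G := G) M k := ⟨⟨fun _ => 1, H11.isIrrCharacter_one⟩, fun g =>
    ⟨0, 1, M.zero_mem, fun h1 => hM.2.1.ne_top ((Ideal.eq_top_iff_one M).2 h1), by simp⟩,
    by simp [charDegree], fun _ => rfl⟩
  have h1 : χ.1.1 1 = 1 := by
    by_cases e : χ = o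
    · rw [e]
    refine lin _ fun g hg => ?_
    obtain ⟨a, v, ha, hv, e1, ⟨j, hj⟩, hc⟩ := H13.exists_p_parts Nat.prime_two g
    have h3 := red_char_mul hM (H11.irr_isCharacter χ.1) hj (y := v) (by
      obtain ⟨m, rfl⟩ := ha
      obtain ⟨n, rfl⟩ := hv
      exact Commute.zpow_zpow_self g m n)
    rw [← e1] at h3
    have h4 := key v hc
    have h5 : (Finset.univ : Finset (Fx (G := G) M k)) = {χ, o} :=
      (Finset.eq_univ_of_card _ (by
        rw [Finset.card_pair e, ← Nat.card_eq_fintype_card, h2])).symm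
    rw [h5, Finset.sum_pair e, ← h3, hg, red_zero, zero_add] at h4
    exact one_ne_zero (red_one.symm.trans h4)
  simp [charDegree, h1]

end Cfsg.Agent.H60.SgTrk
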