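import Cfsg.Agent.H56.SpDefs

/-! Project CY, chapter SP: the torus centralising a fixed point free involution is cyclic of
order `p + 1`. -/

set_option autoImplicit false

namespace Cfsg.Agent.H60.SpP4

open Subgroup Matrix Cfsg.Agent.H11.Cy Cfsg.Agent.H56.Sp
open scoped MatrixGroups

section Mat
variable {F : Type} [Field F]

theorem scalar {N : Matrix (Fin 2) (Fin 2) F} (h : ∀ s : SL(2, F), N * s.1 = s.1 * N) :
    ∃ c : F, N = c • 1 := by
  have h1 := h ⟨!![1, 1; 0, 1], by simp [det_fin_two_of]⟩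
  have h2 := h ⟨!![1, 0; 1, 1], by simp [det_fin_two_of]⟩
  have a1 := congrFun (congrFun h1 0) 0
  have a2 := congrFun (congrFun h1 0) 1
  have a3 := congrFun (congrFun h2 0) 0
  simp [mul_apply, Fin.sum_univ_two] at a1 a2 a3
  refine ⟨N 0 0, ?_⟩
  ext i j
  fin_cases i <;> fin_cases j <;> simp [a1, a3]
  linear_combination -a2

theorem cancel {M X Y : Matrix (Fin 2) (Fin 2) F} (h : M.det ≠ 0) (e : X * M = Y * M) : X = Y :=
  ((isUnit_iff_isUnit_det M).2 h.isUnit).mul_right_cancel e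

/-- The elements of `SL₂` commuting with a traceless matrix without eigenvalues. -/
theorem torus [Fintype F] (ho : Fintype.card F % 2 = 1) {M : Matrix (Fin 2) (Fin 2) F}
    (ht : M 1 1 = -M 0 0) (hd : ∀ r : F, r ^ 2 ≠ -M.det) :
    ∃ (C : Type) (_ : Group C) (ψ : C →* SL(2, F)), IsCyclic C ∧
      Nat.card C = Fintype.card F + 1 ∧ Function.Injective ψ ∧
      ∀ s : SL(2, F), s ∈ ψ.range ↔ M * s.1 = s.1 * M := by
  classical
  obtain ⟨d, hdd⟩ : ∃ d, d = -M.det := ⟨_, rfl⟩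
  have e : d = M 0 0 ^ 2 + M 0 1 * M 1 0 := by rw [hdd, det_fin_two, ht]; ring
  rw [← hdd] at hd
  have : Fact (∀ r : F, r ^ 2 ≠ d + 0 * r) := ⟨fun r => by simpa using hd r⟩
  have hM : M * M = d • (1 : Matrix (Fin 2) (Fin 2) F) + (0 : F) • M := by
    ext i j
    fin_cases i <;> fin_cases j <;> simp [mul_apply, Fin.sum_univ_two, ht, e] <;> ring
  let φ := QuadraticAlgebra.lift (R := F) (a := d) (b := 0) ⟨M, hM⟩
  have hφ : ∀ z, φ z = z.re • (1 : Matrix (Fin 2) (Fin 2) F) + z.im • M := fun _ => rfl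
  have hn : ∀ z, (φ z).det = QuadraticAlgebra.norm z := fun z => by
    rw [hφ, QuadraticAlgebra.norm_def, det_fin_two]
    simp [ht, e]
    ring
  let n : (QuadraticAlgebra F d 0)ˣ →* Fˣ := Units.map QuadraticAlgebra.norm
  have hb : M 0 1 ≠ 0 := fun h => hd (M 0 0) (by rw [e, h]; ring)
  have hs : Function.Surjective n := fun c => by
    have d0 : d ≠ 0 := fun h => hd 0 (by rw [h]; ring)
    obtain ⟨a, b, h⟩ := FiniteField.exists_root_sum_quadratic
      (f := Polynomial.X ^ 2 - Polynomial.C (c : F)) (g := Polynomial.C (-d) * Polynomial.X ^ 2)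
      (Polynomial.degree_X_pow_sub_C (by decide) _)
      (Polynomial.degree_C_mul_X_pow 2 (neg_ne_zero.2 d0)) ho
    simp at h
    have h1 : QuadraticAlgebra.norm (⟨a, b⟩ : QuadraticAlgebra F d 0) = c := by
      rw [QuadraticAlgebra.norm_def]
      simp
      linear_combination h
    refine ⟨Units.mk0 ⟨a, b⟩ fun h0 => c.ne_zero ?_, Units.ext h1⟩
    rw [← h1, h0, QuadraticAlgebra.norm_zero]
  have : Finite (QuadraticAlgebra F d 0) := .of_equiv _ (QuadraticAlgebra.equivProd d 0).symm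
  let ψ : n.ker →* SL(2, F) :=
    { toFun := fun z => ⟨φ z.1.1, (hn _).trans (congrArg Units.val z.2)⟩
      map_one' := Subtype.ext (map_one φ)
      map_mul' := fun z w => Subtype.ext (map_mul φ z.1.1 w.1.1) }
  refine ⟨n.ker, inferInstance, ψ, inferInstance, ?_, fun z w h => Subtype.ext (Units.ext
    (φ.toRingHom.injective (congrArg Subtype.val h))), fun s => ⟨?_, fun h => ?_⟩⟩
  · have h1 := n.ker.card_mul_index
    rw [index_ker, MonoidHom.range_eq_top.2 hs, card_top, Nat.card_units, Nat.card_units,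
      Nat.card_congr (QuadraticAlgebra.equivProd d 0), Nat.card_prod,
      Nat.card_eq_fintype_card (α := F)] at h1
    have h2 := Fintype.one_lt_card (α := F)
    obtain ⟨q, hq⟩ : ∃ q, Fintype.card F = q + 1 := ⟨_, (Nat.sub_add_cancel h2.le).symm⟩
    rw [hq] at h1 h2 ⊢
    refine Nat.eq_of_mul_eq_mul_right (m := q) (by omega) ?_
    rw [Nat.add_sub_cancel] at h1
    rw [h1]
    exact Nat.sub_eq_of_eq_add (by ring)
  · rintro ⟨z, rfl⟩
    change M * φ z.1.1 = φ z.1.1 * M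
    rw [hφ]
    simp [mul_add, add_mul]
  · have a1 := congrFun (congrFun h 0) 0
    have a2 := congrFun (congrFun h 0) 1
    simp only [mul_apply, Fin.sum_univ_two, ht] at a1 a2
    have h1 : φ ⟨s.1 0 0 - s.1 0 1 / M 0 1 * M 0 0, s.1 0 1 / M 0 1⟩ = s.1 := by
      rw [hφ]
      ext i j
      fin_cases i <;> fin_cases j <;> simp [ht]
      · field_simp
      · field_simp
        linear_combination -a1
      · field_simp
        linear_combination -a2
    have h2 := hn ⟨s.1 0 0 - s.1 0 1 / M 0 1 * M 0 0, s.1 0 1 / M 0 1⟩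
    rw [h1, s.2] at h2
    refine ⟨⟨Units.mk0 _ fun h0 => one_ne_zero (h2.trans ?_), Units.ext h2.symm⟩, Subtype.ext h1⟩
    rw [h0, QuadraticAlgebra.norm_zero]

end Mat

section Grp
variable {G : Type} [Group G] {L : Subgroup G} {F : Type} [Field F] (e : L ≃* SL(2, F)) {g : G}
  {M : Matrix (Fin 2) (Fin 2) F} (hg : g ∈ normalizer (L : Set G)) (h0 : M.det ≠ 0)
  (hM : ∀ f f' : L, (f' : G) = g * f * g⁻¹ → M * (e f).1 = (e f').1 * M)
include hg h0 hM

theorem comm_iff (f f' : L) : (f' : G) = g * f * g⁻¹ ↔ M * (e f).1 = (e f').1 * M := by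
  refine ⟨hM f f', fun h => ?_⟩
  have h1 := hM f ⟨_, (mem_normalizer_iff.1 hg f).1 f.2⟩ rfl
  exact congrArg Subtype.val (e.injective (Subtype.ext (cancel h0 (h.symm.trans h1))))

theorem trace_zero (h2 : g * g ∈ centralizer (L : Set G)) (h1 : g ∉ centralizer (L : Set G)) :
    M 1 1 = -M 0 0 := by
  obtain ⟨c, hc⟩ := scalar (N := M * M) fun s => by
    obtain ⟨f, rfl⟩ := e.surjective s
    have k1 := (mem_normalizer_iff.1 hg f).1 f.2
    have k2 := hM ⟨_, k1⟩ f (by
      change (f : G) = g * (g * f * g⁻¹) * g⁻¹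
      rw [← mul_assoc, ← mul_assoc, ← h2 f f.2]; group)
    rw [mul_assoc, hM f ⟨_, k1⟩ rfl, ← mul_assoc, k2, mul_assoc]
  by_contra ht
  refine h1 fun f hf => ?_
  have a1 := congrFun (congrFun hc 0) 0
  have a2 := congrFun (congrFun hc 0) 1
  have a3 := congrFun (congrFun hc 1) 0
  have a4 := congrFun (congrFun hc 1) 1
  simp [mul_apply, Fin.sum_univ_two] at a1 a2 a3 a4
  have t0 : M 0 0 + M 1 1 ≠ 0 := fun h => ht (by linear_combination h)
  have b1 : M 0 1 = 0 := mul_left_cancel₀ t0 (by linear_combination a2)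
  have b2 : M 1 0 = 0 := mul_left_cancel₀ t0 (by linear_combination a3)
  have b3 : M 1 1 = M 0 0 := mul_left_cancel₀ t0 (by linear_combination a4 - a1)
  have b4 : M = M 0 0 • 1 := by
    ext i j
    fin_cases i <;> fin_cases j <;> simp [b1, b2, b3]
  have := (comm_iff e hg h0 hM ⟨f, hf⟩ ⟨f, hf⟩).2 (by rw [b4]; simp)
  exact mul_inv_eq_iff_eq_mul.1 this.symm |>.symm

omit hg h0 hM in
theorem emul (a b : L) : (e a).1 * (e b).1 = (e (a * b)).1 := by rw [map_mul]; rfl

theorem fk_iff : (∃ f ∈ L, ∃ k ∈ centralizer (L : Set G), g = f * k) ↔ IsSquare M.det := by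
  constructor
  · rintro ⟨f, hf, k, hk, rfl⟩
    obtain ⟨c, hc⟩ := scalar (N := (e ⟨f, hf⟩⁻¹).1 * M) fun s => by
      obtain ⟨t, rfl⟩ := e.surjective s
      rw [mul_assoc, hM t (⟨f, hf⟩ * t * ⟨f, hf⟩⁻¹) (by
        change f * t * f⁻¹ = _
        rw [mul_assoc f k, ← hk t t.2]; group), ← mul_assoc, ← mul_assoc, emul, emul]
      congr 3
      group
    have := congrArg det hc
    rw [det_mul, (e _).2, one_mul] at this
    exact ⟨c, by simpa [sq] using this⟩
  · rintro ⟨r, hr⟩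
    have r0 : r ≠ 0 := fun h => h0 (by rw [hr, h, zero_mul])
    obtain ⟨f, hf⟩ := e.surjective ⟨r⁻¹ • M, by rw [det_smul, hr]; simp; field_simp⟩
    refine ⟨f, f.2, (f : G)⁻¹ * g, fun t ht => ?_, by group⟩
    have := (comm_iff e hg h0 hM ⟨t, ht⟩ (f * ⟨t, ht⟩ * f⁻¹)).2 (by
      have h1 : M = r • (e f).1 := by rw [hf]; simp [smul_smul, r0]
      rw [h1, smul_mul_assoc, mul_smul_comm, emul, emul, inv_mul_cancel_right])
    change (f : G) * t * (f : G)⁻¹ = g * t * g⁻¹ at this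
    calc t * ((f : G)⁻¹ * g) = (f : G)⁻¹ * ((f : G) * t * (f : G)⁻¹) * g := by group
      _ = _ := by rw [this]; group

end Grp

theorem p4 : P4Stmt := by
  rintro G _ _ Ω _ _ p A S p2 - x y - - ⟨F, _, _, e, hF, co⟩ q2 g hi fp
  obtain ⟨M, h0, hM⟩ := co g hi.1
  have ho : Fintype.card F % 2 = 1 := by rw [hF]; exact (S.pp.eq_two_or_odd).resolve_left p2
  have h1 : IsSquare M.det ↔ p % 4 = 3 := (fk_iff e hi.1 h0 hM).symm.trans ((q2 g hi).1 fp)
  have h2 := FiniteField.isSquare_neg_one_iff (F := F)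
  rw [hF] at h2
  obtain ⟨C, _, ψ, c1, c2, c3, c4⟩ := torus ho (trace_zero e hi.1 h0 hM hi.2.1 hi.2.2) fun r hr => by
    by_cases h : p % 4 = 3
    · obtain ⟨s, hs⟩ := h1.2 h
      have s0 : s ≠ 0 := fun h => h0 (by rw [hs, h, zero_mul])
      exact h2.1 ⟨r / s, by field_simp; linear_combination hs - hr⟩ h
    · obtain ⟨i, hi⟩ := h2.2 h
      exact h (h1.1 ⟨i * r, by linear_combination hr + r ^ 2 * hi⟩)
  let Ψ : C →* G := (Fl A x y).subtype.comp (e.symm.toMonoidHom.comp ψ)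
  have i1 : Function.Injective Ψ := Subtype.val_injective.comp (e.symm.injective.comp c3)
  have i2 : Ψ.range = Tl A x y g := by
    ext t
    constructor
    · rintro ⟨c, rfl⟩
      refine ⟨(e.symm (ψ c)).2, mem_centralizer_singleton_iff.2 ?_⟩
      have := (comm_iff e hi.1 h0 hM (e.symm (ψ c)) (e.symm (ψ c))).2 (by
        rw [e.apply_symm_apply]; exact (c4 _).1 ⟨c, rfl⟩)
      exact (mul_inv_eq_iff_eq_mul.1 this.symm).symm
    · rintro ⟨t1, t2⟩
      obtain ⟨c, hc⟩ := (c4 (e ⟨t, t1⟩)).2 (hM _ _ (by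
        change t = g * t * g⁻¹
        rw [← mem_centralizer_singleton_iff.1 t2, mul_inv_cancel_right]))
      refine ⟨c, ?_⟩
      change ((e.symm (ψ c) : Fl A x y) : G) = t
      rw [hc, e.symm_apply_apply]
  rw [← i2, ← hF, ← c2]
  exact ⟨(MonoidHom.ofInjective i1).isCyclic.1 c1,
    (Nat.card_congr (MonoidHom.ofInjective i1).toEquiv).symm⟩

end Cfsg.Agent.H60.SpP4
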