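import Mathlib
import Cfsg.Agent.H4.SvDefs

/-! Project SV, piece TR: the weight spaces of a Sylow `2`-subgroup of `Sp₆(2)`. -/

set_option autoImplicit false

namespace Cfsg.Agent.H60.SvTr

open H4.SV Module
open H50.E83 hiding cls

theorem tr (mu : MuStmt) (br : BrStmt) (t4 : Tr4Stmt) (c : H4.SV.CntStmt) (n : H4.SV.NumStmt)
    (f : H4.SV.FusStmt) :
    H4.SV.TrStmt := by
  intro φ s hφ hc
  obtain ⟨c1, c2, c3, c4, c5, c6, c7⟩ := c
  obtain ⟨τ, hτ⟩ : ∃ τ : ℕ → ℤ, ∀ g, tau (ι (φ g)) = τ (cls g) := by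
    classical
    refine ⟨fun j => if h : ∃ g, cls g = j then tau (ι (φ h.choose)) else 0, fun g => ?_⟩
    have h : ∃ g', cls g' = cls g := ⟨g, rfl⟩
    have h1 := ι.map_isConj (f G0 φ s hc _ _ h.choose_spec)
    simp only [dif_pos h, tau, mu.1 _ _ _ h1]
  have hv : ∀ k < 16, val k τ = 512 * (finrank K (E (ι.comp φ) k) : ℤ) := fun k hk => by
    rw [← c1 k hk τ, ← show (Fintype.card T9 : ℤ) = 512 by rw [c4]; rfl]
    simp only [← hτ]
    exact br T9 c3 (ι.comp φ) (chi k)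
  have h4 : ∀ g : T9, g ^ 4 = 1 → Opt (τ (cls (g ^ 2))) (τ (cls g)) := fun g hg => by
    rw [← hτ, ← hτ, map_pow]
    exact (t4 (φ g) (by rw [← map_pow, hg, map_one])).2
  obtain ⟨e0, e1, e2, e4⟩ := n τ (by rw [← (c2 1).2 rfl, ← hτ, map_one, map_one, mu.2.2.2.2.2])
    (fun j hj => by
      obtain ⟨g, rfl, hg⟩ := c5 j hj
      rw [← hτ]
      refine (t4 (φ g) (by rw [← map_pow, show 4 = 2 * 2 from rfl, pow_mul, hg, one_pow, map_one])).1
        (by rw [← map_pow, hg, map_one]) fun h => ?_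
      rw [(c2 g).2 (hφ (h.trans (map_one φ).symm))] at hj
      simp at hj)
    (fun j hj => by
      obtain ⟨g, rfl, hg, h2⟩ := c6 j hj
      exact h2 ▸ h4 g hg)
    (fun j hj => by
      obtain ⟨g, rfl, hg, h2⟩ := c7 j hj
      exact h2 ▸ h4 g hg)
    fun k hk => ⟨_, hv k hk⟩
  have a0 := hv 0 (by norm_num)
  have a1 := hv 1 (by norm_num)
  have a2 := hv 2 (by norm_num)
  have a4 := hv 4 (by norm_num)
  omega

end Cfsg.Agent.H60.SvTr
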