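import Mathlib
import Cfsg.Agent.H58.SWDefs

/-! Project SW, piece HALF: pairs of totally isotropic blocks. -/

set_option autoImplicit false

namespace Cfsg.Agent.H60.SwHalf

open Matrix Cfsg Cfsg.Agent.H58.SW
open scoped commutatorElement

variable {F : Type} [Field F] {n : ℕ}

theorem exists_fac {e : Mt n F} (he : e * e = e) {m : ℕ} (hm : e.rank = m) :
    ∃ (P : Matrix (Fin n) (Fin m) F) (P' : Matrix (Fin m) (Fin n) F), P' * P = 1 ∧ P * P' = e := by
  let b := (Module.finBasisOfFinrankEq F (LinearMap.range e.mulVecLin) hm).equivFun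
  refine ⟨LinearMap.toMatrix' ((LinearMap.range e.mulVecLin).subtype ∘ₗ b.symm.toLinearMap),
    LinearMap.toMatrix' (b.toLinearMap ∘ₗ e.mulVecLin.rangeRestrict), ?_, ?_⟩
  · rw [← LinearMap.toMatrix'_comp, ← LinearMap.toMatrix'_id]
    congr 1
    refine LinearMap.ext fun x => ?_
    obtain ⟨⟨_, y, rfl⟩, rfl⟩ := b.surjective x
    simp only [LinearMap.comp_apply, LinearEquiv.coe_coe, LinearEquiv.symm_apply_apply,
      LinearMap.id_apply]
    congr 1
    exact Subtype.ext (by simp [he])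
  · rw [← LinearMap.toMatrix'_comp]
    refine Eq.trans ?_ (LinearMap.toMatrix'_toLin' e)
    congr 1
    exact LinearMap.ext fun x => by simp

theorem not_scal (hn : 2 ≤ n) {e : Mt n F} (he : e * e = e) (h0 : e ≠ 0) (h1 : e ≠ 1) : ¬ Scal e := by
  rintro ⟨a, rfl⟩
  have h : a ^ 2 = a := by
    simpa [sq] using congrFun (congrFun he ⟨0, by omega⟩) ⟨0, by omega⟩
  rcases eq_zero_or_one_of_sq_eq_self h with rfl | rfl
  · exact h0 (zero_smul _ _)
  · exact h1 (one_smul _ _)

theorem half (hA : KAStmt) (hT : KTStmt) (hV : KVStmt) (hW : KWStmt) (hC : CentStmt)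
    (hN : NglStmt) : HalfStmt := by
  intro F _ _ _ n c r H Q L hr hu e he hst hinv
  have ka := hA F n c
  have kt := hT F n c
  have kv := hV F n c
  have hn := c.hn
  have : Nonempty (Fin n) := ⟨⟨0, by omega⟩⟩
  have st0 : c.st 0 = 0 := by simpa using ka.st_sub hu 0 0
  have e0 : e ≠ 0 := by
    rintro rfl
    rw [st0, sub_zero] at hst
    exact zero_ne_one hst
  have e1 : e ≠ 1 := by
    rintro rfl
    rw [ka.st_one, sub_self] at hst
    exact one_ne_zero hst
  have ef : e * (1 - e) = 0 := by rw [mul_sub, he, mul_one, sub_self]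
  have fe : (1 - e) * e = 0 := by rw [sub_mul, he, one_mul, sub_self]
  have hne : e ≠ 1 - e := fun h => e0 (by rw [← he]; nth_rw 2 [h]; exact ef)
  have hrk : 2 ≤ e.rank := by
    have h1 := (hW F n c).rksum {e, 1 - e} ⟨by
      simp only [Finset.mem_insert, Finset.mem_singleton, forall_eq_or_imp, forall_eq]
      exact ⟨he, by rw [mul_sub, fe, mul_one, sub_zero]⟩, by
      simp only [Finset.mem_insert, Finset.mem_singleton, forall_eq_or_imp, forall_eq]
      exact ⟨e0, fun h => e1 (sub_eq_zero.1 h).symm⟩, by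
      simp only [Finset.mem_insert, Finset.mem_singleton, forall_eq_or_imp, forall_eq]
      exact ⟨⟨fun h => (h rfl).elim, fun _ => ef⟩, fun _ => fe, fun h => (h rfl).elim⟩, by
      rw [Finset.sum_pair hne, add_sub_cancel]⟩
    rw [Finset.sum_pair hne, ← hst, ka.st_rank hu] at h1
    have h2 : n ≠ 2 := fun h => by simpa [hu] using (c.hn2 h).1
    omega
  obtain ⟨Y, hY, hYi, hYm⟩ := (hC F n c r H Q L _ hinv ⟨e, .inl rfl, not_scal hn he e0 e1⟩).2
  obtain ⟨m, hm⟩ : ∃ m, e.rank = m := ⟨_, rfl⟩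
  rw [hm] at hrk
  obtain ⟨P, P', hP, hPe⟩ := exists_fac he hm
  have hP1 : P' * e = P' := by rw [← hPe, ← Matrix.mul_assoc, hP, Matrix.one_mul]
  have hP2 : e * P = P := by rw [← hPe, Matrix.mul_assoc, hP, Matrix.mul_one]
  have rmul : ∀ x y : Mt n F, Commute x e → P' * x * P * (P' * y * P) = P' * (x * y) * P :=
    fun x y hx => by
      calc _ = P' * (x * (P * P')) * y * P := by simp only [Matrix.mul_assoc]
        _ = P' * e * (x * y) * P := by rw [hPe, hx.eq]; simp only [Matrix.mul_assoc]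
        _ = _ := by rw [hP1]
  have cinv : ∀ (x : Gl n F) (y : Mt n F), Commute (x : Mt n F) y →
      Commute ((x⁻¹ : Gl n F) : Mt n F) y := fun x y h => Commute.units_inv_left h
  have rinv : ∀ (x : Gl n F) (g : GL (Fin m) F), Commute (x : Mt n F) e → g.1 = P' * x.1 * P →
      (g⁻¹).1 = P' * (x⁻¹).1 * P := fun x g hx hg =>
    Units.inv_eq_of_mul_eq_one_right (by
      rw [hg, rmul _ _ hx, Units.mul_inv, Matrix.mul_one, hP])
  have tv : ∀ (i j : Fin m) (a : F), i ≠ j → ∃ t ∈ Y, Unip t ∧ Commute (t : Mt n F) e ∧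
      Matrix.transvection i j a = P' * t.1 * P ∧ ∀ x ∈ c.St, Commute (x : Mt n F) e →
        (∃ l : F, (x : Mt n F) * e = l • e) → Commute t x := fun i j a hij => by
    obtain ⟨ν, hν⟩ : ∃ ν, ν = P * Matrix.single i j a * P' := ⟨_, rfl⟩
    have n1 : e * ν = ν := by rw [hν, ← Matrix.mul_assoc, ← Matrix.mul_assoc, hP2]
    have n2 : ν * e = ν := by rw [hν, Matrix.mul_assoc, hP1]
    have n3 : ν * ν = 0 := by
      have : Matrix.single i j a * Matrix.single i j a = 0 :=
        Matrix.single_mul_single_of_ne _ _ _ _ hij.symm _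
      calc ν * ν = P * (Matrix.single i j a * (P' * P) * Matrix.single i j a) * P' := by
            rw [hν]; simp only [Matrix.mul_assoc]
        _ = 0 := by rw [hP, Matrix.mul_one, this, Matrix.mul_zero, Matrix.zero_mul]
    have m1 : e * c.st ν = 0 := by
      rw [← n2, ka.st_mul hu, hst, ← mul_assoc, ef, zero_mul]
    have m2 : c.st ν * e = 0 := by
      rw [← n1, ka.st_mul hu, hst, mul_assoc, fe, mul_zero]
    have m3 : c.st ν * c.st ν = 0 := by rw [← ka.st_mul hu, n3, st0]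
    have m4 : ν * c.st ν = 0 := by rw [← n2, mul_assoc, n2, m1, mul_zero]
    have m5 : c.st ν * ν = 0 := by
      calc _ = c.st ν * e * ν := by rw [mul_assoc, n1]
        _ = 0 := by rw [m2, zero_mul]
    have m6 : (ν - c.st ν) * (ν - c.st ν) = 0 := by
      rw [mul_sub, sub_mul, sub_mul, n3, m3, m4, m5]; simp
    obtain ⟨t, ht, hd, hU⟩ := kv.nil (ν - c.st ν) ⟨2, by rw [sq, m6]⟩
    have hte : Commute (t : Mt n F) e := by
      rw [Commute, SemiconjBy, ht, add_mul, mul_add, sub_mul, mul_sub, n1, n2, m1, m2, one_mul, mul_one]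
    refine ⟨t, (hYm t).2 ⟨(ka.mem_S t).2 ⟨(ka.mem_St t).2 fun _ => ?_, hd⟩, ?_⟩, hU, hte, ?_,
      fun x hx hxe ⟨l, hl⟩ => ?_⟩
    · rw [ht, ka.st_add hu, ka.st_one, ka.st_sub hu, ka.st_st hu]
      calc _ = 1 - (ν - c.st ν) * (ν - c.st ν) := by noncomm_ring
        _ = 1 := by rw [m6, sub_zero]
    · rintro _ (rfl | rfl)
      · exact hte
      · exact (Commute.one_right _).sub_right hte
    · have a1 : P' * c.st ν = 0 := by rw [← hP1, Matrix.mul_assoc, m1, Matrix.mul_zero]
      have a2 : P' * ν * P = Matrix.single i j a := by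
        calc _ = P' * P * Matrix.single i j a * (P' * P) := by rw [hν]; simp only [Matrix.mul_assoc]
          _ = _ := by rw [hP, Matrix.mul_one, Matrix.one_mul]
      rw [ht, Matrix.mul_add, Matrix.mul_sub, a1, sub_zero, Matrix.add_mul, Matrix.mul_one, hP, a2,
        Matrix.transvection]
    · have c1 : Commute (x : Mt n F) ν := by
        have b1 : (x : Mt n F) * ν = l • ν := by rw [← n1, ← mul_assoc, hl, smul_mul_assoc]
        have b2 : ν * (x : Mt n F) = l • ν := by
          rw [← n2, mul_assoc, ← hxe.eq, hl, mul_smul_comm]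
        exact b1.trans b2.symm
      have c2 : c.st x = ((x⁻¹ : Gl n F) : Mt n F) :=
        (Units.inv_eq_of_mul_eq_one_left ((ka.mem_St x).1 hx hu)).symm
      have c3 : Commute ((x⁻¹ : Gl n F) : Mt n F) (c.st ν) := by
        rw [← c2, Commute, SemiconjBy, ← ka.st_mul hu, ← ka.st_mul hu, c1.eq]
      have c4 := cinv _ _ c3
      rw [inv_inv] at c4
      refine Units.ext ?_
      rw [Units.val_mul, Units.val_mul, ht]
      exact ((Commute.one_right _).add_right (c1.sub_right c4)).symm.eq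
  let R : Subgroup (GL (Fin m) F) :=
    { carrier := {g | ∃ x ∈ Q, Commute (x : Mt n F) e ∧ g.1 = P' * x.1 * P}
      one_mem' := ⟨1, one_mem _, Commute.one_left _, by simp [hP]⟩
      mul_mem' := by
        rintro g g' ⟨x, hx, h1, h2⟩ ⟨y, hy, h3, h4⟩
        exact ⟨x * y, mul_mem hx hy, h1.mul_left h3, by
          rw [Units.val_mul, h2, h4, rmul _ _ h1, Units.val_mul]⟩
      inv_mem' := by
        rintro g ⟨x, hx, h1, h2⟩
        exact ⟨x⁻¹, inv_mem hx, cinv _ _ h1, rinv x g h1 h2⟩ }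
  have hq := ka.two_le
  have key := hN F (Fin m) c.p r c.chr L.prime hr (by simpa using hrk) (fun _ => by
    rw [c.hq, if_pos hu]; nlinarith) R (by
      rintro g ⟨x, hx, h1, h2⟩
      obtain ⟨k, hk⟩ := L.rgrp x hx
      obtain ⟨a, -, ha⟩ := (ka.mem_Z _).1 hk
      have : ∀ N : ℕ, (g ^ N).1 = P' * (x ^ N).1 * P := fun N => by
        induction N with
        | zero => simp [hP]
        | succ N ih => rw [pow_succ', pow_succ', Units.val_mul, ih, h2, rmul _ _ h1, Units.val_mul]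
      exact ⟨k, a, by rw [this, ha, Matrix.mul_smul, Matrix.smul_mul, Matrix.mul_one, hP]⟩) (by
      rintro t' i j a hij ht' g ⟨x, hx, h1, h2⟩
      obtain ⟨t, htY, -, hte, e1, -⟩ := tv i j a hij
      rw [← ht'] at e1
      refine ⟨t * x * t⁻¹, kt.hatG H Q L.inv t (hY htY) x hx,
        (hte.mul_left h1).mul_left (cinv _ _ hte), ?_⟩
      rw [Units.val_mul, Units.val_mul, rinv t t' hte e1, e1, h2, rmul _ _ hte,
        rmul _ _ (hte.mul_left h1), Units.val_mul, Units.val_mul])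
  have hij : (⟨0, by omega⟩ : Fin m) ≠ ⟨1, by omega⟩ := by simp
  obtain ⟨t, htY, hU, -, e1, hc⟩ := tv _ _ 1 hij
  let C : Subgroup (Gl n F) :=
    { carrier := {x | Commute (x : Mt n F) e}
      one_mem' := Commute.one_left _
      mul_mem' := fun h1 h2 => Commute.mul_left h1 h2
      inv_mem' := fun h => cinv _ _ h }
  have hYC : Y ⊔ c.Z ≤ C := sup_le (fun y hy => ((hYm y).1 hy).2 e (.inl rfl)) fun z hz => by
    obtain ⟨a, -, ha⟩ := (ka.mem_Z _).1 hz
    change Commute (z : Mt n F) e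
    rw [ha]
    exact (Commute.one_left _).smul_left a
  have htQ := L.chr Y hY hYi t htY fun x hx => by
    have h1 : Commute (x : Mt n F) e := hYC hx.2
    obtain ⟨l, hl⟩ := key ⟨P' * x.1 * P, P' * (x⁻¹).1 * P,
      by rw [rmul _ _ h1, Units.mul_inv, Matrix.mul_one, hP],
      by rw [rmul _ _ (cinv _ _ h1), Units.inv_mul, Matrix.mul_one, hP]⟩ ⟨x, hx.1, h1, rfl⟩
    have h2 : (x : Mt n F) * e = l • e := by
      calc _ = e * x * e := by rw [← h1.eq, mul_assoc, he]
        _ = P * (P' * x.1 * P) * P' := by rw [← hPe]; simp only [Matrix.mul_assoc]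
        _ = _ := by
          rw [show P' * x.1 * P = l • 1 from hl, Matrix.mul_smul, Matrix.smul_mul, Matrix.mul_one, hPe]
    rw [(hc x (L.qh hx.1).1 h1 ⟨l, h2⟩).commutator_eq]
    exact one_mem _
  rw [kv.nouni r H Q L hr t htQ hU, Units.val_one, Matrix.mul_one, hP] at e1
  have := congrFun (congrFun e1 ⟨0, by omega⟩) ⟨1, by omega⟩
  simp [Matrix.transvection] at this

theorem pair (hA : KAStmt) (hT : KTStmt) (hV : KVStmt) (hC : CentStmt) (hH : HalfStmt) :
    PairStmt := by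
  intro F _ _ _ n c r H Q L hr hu E fam hinv hs e he
  have ka := hA F n c
  have kt := hT F n c
  have kv := hV F n c
  by_contra hne
  have he' := hs e he
  have o1 : e * c.st e = 0 := fam.orth e he _ he' (Ne.symm hne)
  have o2 : c.st e * e = 0 := fam.orth _ he' e he hne
  have i1 := fam.idem e he
  have i2 := fam.idem _ he'
  by_cases hf : e + c.st e = 1
  · have h1 : c.st e = 1 - e := eq_sub_of_add_eq' hf
    have h2 : ∀ g ∈ E, g = e ∨ g = 1 - e := fun g hg => by
      by_contra h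
      rw [not_or, ← h1] at h
      refine fam.ne0 g hg ?_
      rw [← mul_one g, ← hf, mul_add, fam.orth g hg e he h.1, fam.orth g hg _ he' h.2, add_zero]
    refine hH F n c r H Q L hr hu e i1 h1 fun ψ hψ t ht x hx => h2 _ (hinv ψ hψ t ht x ?_)
    rcases hx with rfl | rfl
    · exact he
    · exact h1 ▸ he'
  have hc := (hC F n c r H Q L {x | ∃ g ∈ E, c.st g ≠ g ∧ x = g + c.st g} (by
    rintro ψ hψ t ht _ ⟨g, hg, h1, rfl⟩
    refine ⟨t.ap g, hinv ψ hψ t ht g hg, fun h => h1 ((kt.bij t).1 ?_), ?_⟩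
    · rw [kt.st t ψ ht hu, h]
    · rw [kt.add, kt.st t ψ ht hu]) ⟨_, ⟨e, he, hne, rfl⟩, not_scal c.hn (by
      rw [add_mul, mul_add, mul_add, i1, i2, o1, o2, add_zero, zero_add]) (fun h => fam.ne0 e he (by
        have := congrArg (e * ·) h
        rwa [mul_add, o1, i1, add_zero, mul_zero] at this)) hf⟩).1
  obtain ⟨w0, hw0⟩ : ∃ w0, c.st e *ᵥ w0 ≠ 0 := by
    by_contra h
    push Not at h
    exact fam.ne0 _ he' (Matrix.ext_of_mulVec_single fun i => by rw [h, Matrix.zero_mulVec])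
  obtain ⟨v, hv⟩ : ∃ v, v = c.st e *ᵥ w0 := ⟨_, rfl⟩
  rw [← hv] at hw0
  have v1 : c.st e *ᵥ v = v := by rw [hv, Matrix.mulVec_mulVec, i2]
  have v2 : ∀ g : Mt n F, g * c.st e = 0 → g *ᵥ v = 0 := fun g hg => by
    rw [hv, Matrix.mulVec_mulVec, hg, Matrix.zero_mulVec]
  have hf0 : ∀ w, c.hf w 0 = 0 := fun w => by
    simpa using ka.hf_add' hu w 0 0
  have hvv : c.hf v v = 0 := by
    nth_rw 1 [← v1]
    rw [ka.hf_adj hu, ka.st_st hu, v2 e o1, hf0]
  obtain ⟨b, hb⟩ := ka.fr_ne hu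
  have ha : (b - b ^ c.q) ^ c.q = -(b - b ^ c.q) := by
    have := ka.fr_add hu (b - b ^ c.q) (b ^ c.q)
    rw [sub_add_cancel, ka.fr_fr hu] at this
    linear_combination -this
  obtain ⟨s, hsS, -, hs1⟩ := kv.tvU hu v _ hvv ha
  have hsH := hc s hsS (by
    rintro _ ⟨g, hg, h1, rfl⟩
    have k1 : c.st (g + c.st g) = g + c.st g := by rw [ka.st_add hu, ka.st_st hu, add_comm]
    have k2 := ka.st_vec hu v v
    have k3 : ∃ l : F, l ^ c.q = l ∧ (g + c.st g) *ᵥ v = l • v := by
      by_cases g1 : g = c.st e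
      · exact ⟨1, one_pow _, by rw [g1, ka.st_st hu, Matrix.add_mulVec, v1, v2 e o1, add_zero, one_smul]⟩
      by_cases g2 : g = e
      · exact ⟨1, one_pow _, by rw [g2, Matrix.add_mulVec, v1, v2 e o1, zero_add, one_smul]⟩
      refine ⟨0, zero_pow (by have := ka.two_le; omega), ?_⟩
      rw [Matrix.add_mulVec, v2 g (fam.orth g hg _ he' g1), v2 _ (fam.orth _ (hs g hg) _ he' fun h =>
        g2 (by rw [← ka.st_st hu g, h, ka.st_st hu])), add_zero, zero_smul]
    obtain ⟨l, hl, k3⟩ := k3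
    have k4 : (g + c.st g) * vecMulVec v (c.bar v) = l • vecMulVec v (c.bar v) := by
      rw [Matrix.mul_vecMulVec, k3, Matrix.smul_vecMulVec]
    have k5 : vecMulVec v (c.bar v) * (g + c.st g) = l • vecMulVec v (c.bar v) := by
      have := congrArg c.st k4
      rwa [ka.st_mul hu, k1, ka.st_smul, k2, hl] at this
    rw [hs1]
    exact (Commute.one_left _).add_left (Commute.smul_left (k5.trans k4.symm) _))
  have hE : cj s e ∈ E := kt.hatM H _ hinv s hsH e he
  obtain ⟨w, hw⟩ : ∃ w, c.hf w v ≠ 0 := by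
    by_contra h
    push Not at h
    exact hw0 (ka.hf_nd v h)
  rw [← v1, ← ka.hf_adj hu] at hw
  obtain ⟨u, hu'⟩ : ∃ u, u = e *ᵥ w := ⟨_, rfl⟩
  rw [← hu'] at hw
  have u1 : e *ᵥ u = u := by rw [hu', Matrix.mulVec_mulVec, i1]
  have u2 : c.st e *ᵥ u = 0 := by rw [hu', Matrix.mulVec_mulVec, o2, Matrix.zero_mulVec]
  have s1 : (s : Mt n F) *ᵥ u = u + ((b - b ^ c.q) * c.hf u v) • v := by
    rw [hs1, Matrix.add_mulVec, Matrix.one_mulVec, Matrix.smul_mulVec, ka.vec_ap, smul_smul]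
  have s2 : cj s e *ᵥ ((s : Mt n F) *ᵥ u) = (s : Mt n F) *ᵥ u := by
    rw [cj, Matrix.mulVec_mulVec, mul_assoc, Units.inv_mul, mul_one, ← Matrix.mulVec_mulVec, u1]
  by_cases h : e = cj s e
  · have := congrArg (c.st e *ᵥ ·) s2
    simp only [← h] at this
    rw [Matrix.mulVec_mulVec, o2, Matrix.zero_mulVec, s1, Matrix.mulVec_add, u2, Matrix.mulVec_smul, v1,
      zero_add, eq_comm, smul_eq_zero] at this
    exact this.elim (mul_ne_zero (sub_ne_zero.2 hb.symm) hw) hw0
  · have := congrArg (e *ᵥ ·) s2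
    rw [Matrix.mulVec_mulVec, fam.orth e he _ hE h, Matrix.zero_mulVec, s1, Matrix.mulVec_add, u1,
      Matrix.mulVec_smul, v2 e o1, smul_zero, add_zero] at this
    rw [← this, ← zero_smul F (0 : Vc n F), ka.hf_smul, zero_mul] at hw
    exact hw rfl

end Cfsg.Agent.H60.SwHalf
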