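import Cfsg.Agent.H97.U4Defs

/-!
# U4F, piece V6: the automizer of `J` contains the reflection and the torus
-/

set_option autoImplicit false

namespace Cfsg.Agent.H60.U4V6

open Cfsg.Agent.H97 Cfsg.Agent.H97.U4
open Cfsg.Agent.H97.U5 (Hm)
open Subgroup

universe u

variable {K : Type u} [Field K] {T : Hm K}

theorem vX_z (t : K) {z : VV T} (hz : zV z) : vX T t z = z := by
  apply vext <;> simp [hz.1, hz.2]

theorem split {v : VV T} (hv : vm v = 0) :
    ∃ z e : VV T, zV z ∧ (va e = 0 ∧ vm e = 0) ∧ v = z + e :=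
  ⟨mkV (va v) 0 0 (va_sk v) (by simp), mkV 0 0 (vd v) (by simp) (vd_sk v), ⟨rfl, rfl⟩, ⟨rfl, rfl⟩,
    by apply vext <;> simp [hv]⟩

theorem norm_of [Finite K] (k : Equiv.Perm (VV T)) (hadd : ∀ x y, k (x + y) = k x + k y)
    (h1 : ∀ z, zV z → zV (k z))
    (h2 : ∀ e, va e = 0 ∧ vm e = 0 → va (k e) = 0 ∧ vm (k e) = 0)
    (h3 : ∀ v, vd v = 0 → vd (k v) = 0)
    (h5 : ∀ t, ∃ r, ∀ e, va e = 0 ∧ vm e = 0 → ∃ e', (va e' = 0 ∧ vm e' = 0) ∧
      k (vX T t e) = vX T r e') (s : K) : ∃ t, k * vX T t = vX T s * k := by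
  choose π hπ using h5
  have hd : ∀ v w, vd v = vd w → vd (k v) = vd (k w) := fun v w H => by
    have := h3 (v - w) (by simp [H])
    rw [← sub_add_cancel v w, hadd, vd_add, this, zero_add]
  have hm : ∀ v w, vm v = vm w → vm (k v) = vm (k w) := fun v w H => by
    obtain ⟨z, e, hz, he, hv⟩ := split (v := v - w) (by simp [H])
    rw [← sub_add_cancel v w, hv, hadd, hadd, vm_add, vm_add, (h1 z hz).1, (h2 e he).2, zero_add,
      zero_add]
  have he : ∀ t e, va e = 0 ∧ vm e = 0 → k (vX T t e) = vX T (π t) (k e) := fun t e he => by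
    obtain ⟨e', he', H⟩ := hπ t e he
    have h4 := hd (vX T t e) e rfl
    rw [H, vd_vX] at h4
    rw [H, vext (he'.1.trans (h2 e he).1.symm) (he'.2.trans (h2 e he).2.symm) h4]
  obtain ⟨e0, a0, m0, d0⟩ : ∃ e0 : VV T, va e0 = 0 ∧ vm e0 = 0 ∧ vd e0 = T.ep :=
    ⟨mkV 0 0 T.ep (by simp) (by simp), rfl, rfl, rfl⟩
  have k0 : k 0 = 0 := by
    have := hadd 0 0
    rwa [add_zero, left_eq_add] at this
  have hk0 : vd (k e0) ≠ 0 := fun H => by
    have : k e0 = k 0 := by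
      rw [k0]; exact vext (h2 e0 ⟨a0, m0⟩).1 (h2 e0 ⟨a0, m0⟩).2 H
    rw [k.injective this] at d0
    exact T.ep_ne d0.symm
  have hpa : ∀ t u, π (t + u) = π t + π u := fun t u => by
    have := hm (vX T (t + u) e0) (vX T t e0 + vX T u e0) (by simp [m0]; ring)
    rw [hadd, he _ _ ⟨a0, m0⟩, he _ _ ⟨a0, m0⟩, he _ _ ⟨a0, m0⟩] at this
    simp only [vm_add, vm_vX, (h2 e0 ⟨a0, m0⟩).2, zero_add] at this
    exact mul_right_cancel₀ hk0 (by rw [this, add_mul])
  have hinj : Function.Injective π := fun t u H => by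
    have := he t e0 ⟨a0, m0⟩
    rw [H, ← he u e0 ⟨a0, m0⟩] at this
    have := congrArg vm (k.injective this)
    simp only [vm_vX, d0, add_right_inj] at this
    exact mul_right_cancel₀ T.ep_ne this
  obtain ⟨t, rfl⟩ := Finite.surjective_of_injective hinj s
  refine ⟨t, Equiv.ext fun v => ?_⟩
  obtain ⟨z, e, hz, hE, hv⟩ := split (v := v - vX T (vm v / T.ep) e0) (by
    have := T.ep_ne
    simp only [vm_sub, vm_vX, m0, d0]; field_simp; ring)
  have hX : ∀ a b (w : VV T), vX T a (vX T b w) = vX T (a + b) w := fun a b w => by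
    rw [← vX_mul]; rfl
  change k (vX T t v) = vX T (π t) (k v)
  rw [sub_eq_iff_eq_add] at hv
  rw [hv, vX_add, vX_add, hadd, hadd, hadd, hadd, vX_add, vX_add, vX_z t hz, vX_z _ (h1 z hz),
    he t e hE, hX, he _ _ ⟨a0, m0⟩, he _ _ ⟨a0, m0⟩, hX, hpa]

theorem weyl (c : Kˣ) :
    vX T c * (vW T * vX T (c : K)⁻¹ * vW T) * vX T c = lamV T (c, c⁻¹) 1 * vW T :=
  Equiv.ext fun v => by
    have h1 := c.ne_zero
    have h2 := T.σ_ne_zero h1
    apply vext <;> simp [σ_va, σ_vd] <;> field_simp <;> ring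

theorem lamV_one : lamV T (1, 1⁻¹) 1 = 1 := Equiv.ext fun v => by apply vext <;> simp

theorem v6 [Finite K] {p : ℕ} : V6Stmt T p := by
  rintro Γ hG hB hO ⟨g, hg, S1, S2⟩
  have gz : ∀ z, zV z → va (g z) = 0 ∧ vm (g z) = 0 := fun z hz => by
    obtain ⟨h1, h2⟩ := (S1 (g z)).1 ⟨z, hz, rfl⟩
    exact ⟨by rw [h2, zero_mul], h1⟩
  have zg : ∀ e, va e = 0 ∧ vm e = 0 → ∃ z, zV z ∧ e = g z := fun e he =>
    (S1 e).2 ⟨he.2, by rw [he.1, zero_mul]⟩
  obtain ⟨e0, a0, m0, d0⟩ : ∃ e0 : VV T, va e0 = 0 ∧ vm e0 = 0 ∧ vd e0 = T.ep :=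
    ⟨mkV 0 0 T.ep (by simp) (by simp), rfl, rfl, rfl⟩
  obtain ⟨z0, hz0, hez⟩ := zg e0 ⟨a0, m0⟩
  have gN : g ∉ NV T := fun H => T.ep_ne (by rw [← d0, hez]; exact ((hB.nz g hg H).1 z0 hz0).2)
  have xG : ∀ t, vX T t ∈ Γ := fun t => hG.le (vX_mem T t)
  have xN : ∀ t, vX T t ∈ NV T := fun t => le_normalizer (vX_mem T t)
  obtain ⟨s, hs⟩ := hO g hg gN g⁻¹ (inv_mem hg) (fun H => gN (inv_mem_iff.1 H))
  rw [inv_inv] at hs
  have g'G : g * vX T s ∈ Γ := mul_mem hg (xG s)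
  have key := norm_of (vW T * (g * vX T s)) (fun x y => by
      change vW T ((g * vX T s) (x + y)) = vW T _ + vW T _
      rw [hG.add _ g'G]
      apply vext <;> simp)
    (fun z hz => by
      change zV (vW T (g (vX T s z)))
      rw [vX_z s hz]
      exact ⟨by simp [(gz z hz).2], (gz z hz).1⟩)
    (fun e he => by
      obtain ⟨z, hz, rfl⟩ := zg e he
      have := (hB.nz _ (mul_mem g'G hg) hs).1 z hz
      exact ⟨this.2, by rw [← map_zero T.σ, ← this.1]; rfl⟩)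
    (fun v hv => by
      have := (S2 (g (vX T s v))).1 ⟨vX T s v, hv, rfl⟩
      rw [zero_mul] at this
      exact this)
    (fun t => by
      by_cases ht : t = 0
      · refine ⟨0, fun e he => ⟨(vW T * (g * vX T s)) e, ?_, by rw [ht, vX_zero]; rfl⟩⟩
        obtain ⟨z, hz, rfl⟩ := zg e he
        have := (hB.nz _ (mul_mem g'G hg) hs).1 z hz
        exact ⟨this.2, by rw [← map_zero T.σ, ← this.1]; rfl⟩
      have hG' : g * vX T s * vX T t * g ∈ Γ := mul_mem (mul_mem g'G (xG t)) hg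
      have hN : g * vX T s * vX T t * g ∉ NV T := fun H => by
        have h1 := mul_mem H (inv_mem hs)
        rw [show g * vX T s * vX T t * g * (g * vX T s * g)⁻¹ =
          g * vX T s * vX T t * (g * vX T s)⁻¹ by group] at h1
        have h2 := hB.pn _ g'G _ (vX_mem T t) (fun H => ht ((vX_eq_one T).1 H)) h1
        exact gN ((mul_mem_cancel_right (xN s)).1 h2)
      obtain ⟨r, hr⟩ := hO g hg gN _ hG' hN
      have hn := (hB.nz _ (inv_mem (mul_mem (mul_mem (inv_mem hG') (xG r)) hg)) (inv_mem hr)).1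
      have hv : ∀ z, g (vX T s (vX T t (g z))) =
          vX T r (g (((g * vX T s * vX T t * g)⁻¹ * vX T r * g)⁻¹ z)) := fun z => by
        change (g * vX T s * vX T t * g) z =
          (vX T r * g * ((g * vX T s * vX T t * g)⁻¹ * vX T r * g)⁻¹) z
        congr 1
        group
      have hr0 : r ≠ 0 := by
        rintro rfl
        have h1 := hv z0
        have h0 := (hn z0 hz0).2
        rw [vX_zero] at h1 h0
        have h2 := congrArg vd (g.injective h1)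
        rw [h0, vd_vX, vd_vX, ← hez, d0] at h2
        exact T.ep_ne h2
      refine ⟨-r⁻¹, fun e he => ?_⟩
      obtain ⟨z, hz, rfl⟩ := zg e he
      obtain ⟨h1, h2⟩ := gz _ (hn z hz)
      change ∃ e', _ ∧ vW T (g (vX T s (vX T t (g z)))) = _
      rw [hv]
      generalize g (((g * vX T s * vX T t * g)⁻¹ * vX T r * g)⁻¹ z) = w at h1 h2
      have h3 := T.σ_ne_zero hr0
      refine ⟨mkV 0 0 (r * T.σ r * vd w) (by simp) (by simp [σ_vd]; ring), ⟨rfl, rfl⟩, ?_⟩
      apply vext <;> simp [h1, h2, σ_vd] <;> field_simp)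
  have hy : ∀ r, vW T * vX T r * vW T ∈ Γ := fun r => by
    obtain ⟨t, ht⟩ := key r
    have h1 := mul_mem (mul_mem g'G (xG t)) (inv_mem g'G)
    have h2 : (vW T)⁻¹ = vW T := inv_eq_of_mul_eq_one_right (vW_mul T)
    rwa [show g * vX T s * vX T t * (g * vX T s)⁻¹ = (vW T)⁻¹ * (vW T * (g * vX T s) * vX T t) *
      (g * vX T s)⁻¹ by group, ht, show (vW T)⁻¹ * (vX T r * (vW T * (g * vX T s))) *
      (g * vX T s)⁻¹ = (vW T)⁻¹ * vX T r * vW T by group, h2] at h1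
  have hl : ∀ c : Kˣ, lamV T (c, c⁻¹) 1 * vW T ∈ Γ := fun c =>
    weyl (T := T) c ▸ mul_mem (mul_mem (xG _) (hy _)) (xG _)
  have hW : vW T ∈ Γ := by
    have := hl 1
    rwa [lamV_one, one_mul] at this
  exact ⟨hW, fun c => (mul_mem_cancel_right hW).1 (hl c)⟩

end Cfsg.Agent.H60.U4V6
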